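import Cfsg.Agent.Known.Pres.AltPres

/-! Presentations of `A_n` and `S_n` for all `n`: the small cases via cyclically permuted
Carmichael generators. -/

set_option autoImplicit false

namespace CF.Known.Pres

open Function Equiv Equiv.Perm
open FreeGroup (lift of lift_apply_of)

/-- Cyclically permuted Carmichael generators. -/
def cX {H : Type*} [Group H] (ε : ℤ) (a z : H) (i : ℕ) : H := a ^ i * z ^ (ε ^ i) * (a ^ i)⁻¹

theorem cX_add {H : Type*} [Group H] (ε : ℤ) (a z : H) (i j : ℕ) :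
    cX ε a z (i + j) = a ^ i * cX ε a z j ^ (ε ^ i) * (a ^ i)⁻¹ := by
  simp only [cX, conj_zpow, ← zpow_mul, pow_add, mul_comm (ε ^ j)]; group

theorem map_cX {H H' : Type*} [Group H] [Group H'] (f : H →* H') (ε : ℤ) (a z : H) (i : ℕ) :
    f (cX ε a z i) = cX ε (f a) (f z) i := by simp [cX]

theorem cX_sq {H : Type*} [Group H] {ε : ℤ} (hε : ε = 1 ∨ ε = -1) {m : ℕ} {a z : H}
    (hm : cX ε a z m = z) (h2 : ∀ d, 0 < d → 2 * d ≤ m → (z * cX ε a z d) ^ 2 = 1) :
    ∀ i < m, ∀ j < m, i ≠ j → (cX ε a z i * cX ε a z j) ^ 2 = 1 := by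
  have h0 : cX ε a z 0 = z := by simp [cX]
  have tr : ∀ i j k, (cX ε a z j * cX ε a z k) ^ 2 = 1 →
      (cX ε a z (i + j) * cX ε a z (i + k)) ^ 2 = 1 := fun i j k h => by
    rw [cX_add, cX_add]
    refine sq_conj _ ?_
    have : ε ^ i = 1 ∨ ε ^ i = -1 := by
      rcases hε with rfl | rfl
      · simp
      · exact neg_one_pow_eq_or ℤ i
    rcases this with e | e <;> rw [e]
    · simpa using h
    · exact sq_eq_one_swap (by simpa using h)
  have h1 : ∀ d, 0 < d → d < m → (cX ε a z 0 * cX ε a z d) ^ 2 = 1 := fun d hd hd' => by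
    by_cases h : 2 * d ≤ m
    · exact h0.symm ▸ h2 d hd h
    · have := tr d 0 (m - d) (h0.symm ▸ h2 (m - d) (by omega) (by omega))
      rw [add_zero, show d + (m - d) = m by omega, hm] at this
      exact h0.symm ▸ sq_eq_one_comm this
  intro i hi j hj hij
  rcases lt_or_gt_of_ne hij with h | h
  · simpa [show i + (j - i) = j by omega] using tr i 0 _ (h1 (j - i) (by omega) (by omega))
  · simpa [show j + (i - j) = i by omega] using
      sq_eq_one_comm (tr j 0 _ (h1 (i - j) (by omega) (by omega)))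

/-- The data of a cyclic permutation of the Carmichael generators. -/
def CycDat {Ω : Type} [DecidableEq Ω] (α β k : Ω) (a : Perm Ω) (ε : ℤ) (m : ℕ) : Prop :=
  α ≠ β ∧ k ≠ α ∧ k ≠ β ∧ ((a α = α ∧ a β = β ∧ ε = 1) ∨ (a α = β ∧ a β = α ∧ ε = -1)) ∧
    (a ^ m) k = k ∧ (∀ x, x ≠ α → x ≠ β → ∃ i < m, (a ^ i) k = x) ∧
    ∀ i < m, ∀ j < m, (a ^ i) k = (a ^ j) k → i = j

namespace CycDat

variable {Ω : Type} [Fintype Ω] [DecidableEq Ω] {α β k : Ω} {a : Perm Ω} {ε : ℤ} {m : ℕ}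
  (h : CycDat α β k a ε m)
include h

omit [Fintype Ω] in
theorem conj (i : Ω) : a * c3 α β i * a⁻¹ = c3 α β (a i) ^ ε := by
  rw [conj_c3]
  rcases h.2.2.2.1 with ⟨h1, h2, rfl⟩ | ⟨h1, h2, rfl⟩ <;> simp [h1, h2, c3_inv]

omit [Fintype Ω] in
theorem eps : ε = 1 ∨ ε = -1 := h.2.2.2.1.imp (·.2.2) (·.2.2)

omit [Fintype Ω] in
theorem cX_perm (i : ℕ) : cX ε a (c3 α β k) i = c3 α β ((a ^ i) k) := by
  induction i with
  | zero => simp [cX]
  | succ i ih =>
    rw [add_comm, cX_add, ih, pow_one, pow_one, ← conj_zpow, h.conj, ← zpow_mul, add_comm,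
      pow_succ', Perm.mul_apply]
    rcases h.eps with rfl | rfl <;> simp

omit [Fintype Ω] in
theorem apply_ne {x : Ω} (hx : x ≠ α ∧ x ≠ β) : a x ≠ α ∧ a x ≠ β := by
  rcases h.2.2.2.1 with ⟨h1, h2, -⟩ | ⟨h1, h2, -⟩
  · exact ⟨fun e => hx.1 (a.injective (e.trans h1.symm)), fun e => hx.2 (a.injective (e.trans h2.symm))⟩
  · exact ⟨fun e => hx.2 (a.injective (e.trans h2.symm)), fun e => hx.1 (a.injective (e.trans h1.symm))⟩

omit [Fintype Ω] in
theorem pow_ne (i : ℕ) : (a ^ i) k ≠ α ∧ (a ^ i) k ≠ β := by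
  induction i with
  | zero => exact ⟨h.2.1, h.2.2.1⟩
  | succ i ih => rw [pow_succ', Perm.mul_apply]; exact h.apply_ne ih

theorem alt_le {C : Subgroup (Perm Ω)} (ha : a ∈ C) (hz : c3 α β k ∈ C) :
    alternatingGroup Ω ≤ C := by
  have e : insert α (insert β ((Finset.univ.erase α).erase β)) = Finset.univ := by
    ext x; simp only [Finset.mem_insert, Finset.mem_erase, Finset.mem_univ]; tauto
  rw [← altOn_univ, ← e]
  exact altOn_le_of_mate h.1 (by simp) (by simp) (h.2.2.2.1.imp (fun h => ⟨h.1, h.2.1⟩)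
    fun h => ⟨h.1, h.2.1⟩) (fun i hi => by
      simp only [Finset.mem_erase, Finset.mem_univ] at hi
      obtain ⟨j, -, hj⟩ := h.2.2.2.2.2.1 i hi.2.1 hi.1
      exact ⟨j, hj⟩) ha hz

theorem exists_rels {j : ℕ} (hj : sign (a ^ j) = 1) : ∃ L : List (FreeGroup (Fin 2)),
    L.length ≤ 3 + m / 2 ∧ (∀ w ∈ L, lift ![a, c3 α β k] w = 1) ∧
    ∀ (H : Type) [Group H] (y : Fin 2 → H), (∀ w ∈ L, lift y w = 1) → ∃ W : Perm Ω → H,
      PHom (alternatingGroup Ω) W ∧ W (c3 α β k) = y 1 ∧ W (a ^ j) = y 0 ^ j ∧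
      ∀ g ∈ alternatingGroup Ω, y 0 * W g * (y 0)⁻¹ = W (a * g * a⁻¹) := by
  set T := (Finset.univ.erase α).erase β
  have e : insert α (insert β T) = Finset.univ := by
    ext x; simp only [T, Finset.mem_insert, Finset.mem_erase, Finset.mem_univ]; tauto
  have mT : ∀ x, x ∈ T ↔ x ≠ α ∧ x ≠ β := fun x => by simp [T, and_comm]
  obtain ⟨w, hw, hw'⟩ := exists_altWord' h.1 (T := T) (by simp [T]) (by simp [T])
  rw [e, altOn_univ] at hw hw'
  choose! ι hι hι' using h.2.2.2.2.2.1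
  have hinj := h.2.2.2.2.2.2
  have hm : 0 < m := (Nat.zero_le _).trans_lt (hι k h.2.1 h.2.2.1)
  let L : List (FreeGroup (Fin 2)) := [of 1 ^ 3, cX ε (of 0) (of 1) m * (of 1)⁻¹,
    lift (fun i => cX ε (of 0) (of 1) (ι i)) (w (a ^ j)) * (of 0 ^ j)⁻¹] ++
    (List.range (m / 2)).map fun d => (of 1 * cX ε (of 0) (of 1) (d + 1)) ^ 2
  have key : ∀ {H : Type} [Group H] (y : Fin 2 → H), (∀ u ∈ L, lift y u = 1) ↔
      y 1 ^ 3 = 1 ∧ cX ε (y 0) (y 1) m = y 1 ∧
      lift (fun i => cX ε (y 0) (y 1) (ι i)) (w (a ^ j)) = y 0 ^ j ∧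
      ∀ d < m / 2, (y 1 * cX ε (y 0) (y 1) (d + 1)) ^ 2 = 1 := by
    intro H _ y
    simp [L, map_cX, map_lift, mul_inv_eq_one, or_imp, forall_and]
  refine ⟨L, by simp [L]; omega, (key _).2 ⟨c3_cube h.1 h.2.1 h.2.2.1, ?_, ?_, fun d hd => ?_⟩,
    fun H _ y hy => ?_⟩
  · simp [h.cX_perm, h.2.2.2.2.1]
  · exact hw _ hj _ fun i hi => by simp [h.cX_perm, hι' i ((mT i).1 hi).1 ((mT i).1 hi).2]
  · simp only [Matrix.cons_val_zero, Matrix.cons_val_one, h.cX_perm]
    exact c3_sq h.1 h.2.1 h.2.2.1 (h.pow_ne _).1 (h.pow_ne _).2 fun e' => by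
      have := hinj 0 hm (d + 1) (by omega) e'
      omega
  obtain ⟨r1, r2, r3, r4⟩ := (key y).1 hy
  have sq := cX_sq h.eps r2 fun d hd hd' => by
    simpa [show d - 1 + 1 = d by omega] using r4 (d - 1) (by omega)
  obtain ⟨hW, hWc⟩ := hw' H (fun i => cX ε (y 0) (y 1) (ι i)) ⟨fun i _ => by
      rw [cX, conj_pow, ← zpow_natCast (y 1 ^ _), ← zpow_mul, mul_comm (ε ^ _), zpow_mul,
        zpow_natCast, r1]
      simp, fun i hi j hj hij => by
    rw [mT] at hi hj
    exact sq _ (hι i hi.1 hi.2) _ (hι j hj.1 hj.2) fun e' =>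
      hij (by rw [← hι' i hi.1 hi.2, e', hι' j hj.1 hj.2])⟩
  have ι0 : ι k = 0 := hinj _ (hι k h.2.1 h.2.2.1) 0 hm (hι' k h.2.1 h.2.2.1)
  refine ⟨_, hW, by rw [hWc k ((mT k).2 ⟨h.2.1, h.2.2.1⟩), ι0]; simp [cX], r3, fun g hg => ?_⟩
  have hW' := hW
  rw [← altOn_univ, ← e] at hW' hg
  refine PHom.ext_c3 h.1 (T := T) (by simp [T]) (by simp [T]) (hW'.conjL _)
    (hW'.conjR _ fun g hg => ?_) (fun i hi => ?_) hg
  · rw [e, altOn_univ] at hg ⊢
    exact (alternatingGroup.normal).conj_mem _ hg _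
  · have hi' := (mT i).1 hi
    have hai := h.apply_ne hi'
    have e1 : cX ε (y 0) (y 1) (ι (a i)) = cX ε (y 0) (y 1) (1 + ι i) := by
      have e2 : (a ^ (1 + ι i)) k = a i := by rw [pow_add, pow_one, Perm.mul_apply, hι' i hi'.1 hi'.2]
      by_cases hlt : 1 + ι i < m
      · rw [hinj _ (hι _ hai.1 hai.2) _ hlt ((hι' _ hai.1 hai.2).trans e2.symm)]
      · have e3 : 1 + ι i = m := by have := hι i hi'.1 hi'.2; omega
        rw [e3, h.2.2.2.2.1] at e2
        rw [e3, r2, ← e2, ι0]; simp [cX]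
    have hc : c3 α β (a i) ∈ alternatingGroup Ω := sign_c3 hai.1 hai.2
    rw [h.conj, hWc i hi]
    have e4 := hWc _ ((mT _).2 hai)
    rw [e1, cX_add, pow_one, pow_one] at e4
    rcases h.eps with rfl | rfl
    · simpa using e4.symm
    · rw [zpow_neg_one, hW.inv hc, e4]; group

theorem presOn_alt (ha : sign a = 1) :
    PresOn (![⟨a, ha⟩, ⟨c3 α β k, sign_c3 h.2.1 h.2.2.1⟩] : Fin 2 → alternatingGroup Ω)
      (3 + m / 2) := by
  obtain ⟨L, hL, h1, h2⟩ := h.exists_rels (j := 1) (by simpa using ha)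
  refine PresOn.of_list L hL (closure_alt_eq_top (h.alt_le ?_ ?_)) (fun w hw => ?_) ?_
  · exact Subgroup.subset_closure ⟨0, rfl⟩
  · exact Subgroup.subset_closure ⟨1, rfl⟩
  · apply Subtype.ext
    rw [← (alternatingGroup Ω).subtype_apply, map_lift]
    refine Eq.trans ?_ (h1 w hw)
    congr 2
    ext1 i; fin_cases i <;> rfl
  · intro H _ y φ hy hgen hφ
    obtain ⟨W, hW, e1, e0, -⟩ := h2 H y hy
    refine injective_of_section (ψ := hW.toHom) hgen fun i => ?_
    rw [hφ]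
    fin_cases i
    · rw [pow_one, pow_one] at e0
      exact e0
    · exact e1

theorem presOn_perm (ha : sign a = -1) : PresOn ![a, c3 α β k] (3 + m / 2) := by
  obtain ⟨L, hL, h1, h2⟩ := h.exists_rels (j := 2) (by simp [ha])
  refine PresOn.of_list L hL (eq_top_of_alt_le (h.alt_le ?_ ?_) ha ?_) h1 ?_
  · exact Subgroup.subset_closure ⟨0, rfl⟩
  · exact Subgroup.subset_closure ⟨1, rfl⟩
  · exact Subgroup.subset_closure ⟨0, rfl⟩
  intro H _ y φ hy hgen hφ
  obtain ⟨W, hW, e1, e0, e2⟩ := h2 H y hy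
  obtain ⟨ψ, hψ, hψy⟩ := exists_hom_perm hW ha e2 e0.symm
  refine injective_of_section (ψ := ψ) hgen fun i => ?_
  rw [hφ]
  fin_cases i
  · exact hψy
  · exact (hψ _ (sign_c3 h.2.1 h.2.2.1)).trans e1

end CycDat

theorem hasPres_of_subsingleton (G : Type*) [Group G] [Subsingleton G] : HasPres 0 0 G :=
  PresOn.hasPres (x := fun _ => 1) (PresOn.of_list [] le_rfl (Subsingleton.elim _ _) (by simp)
    fun H _ y φ _ hy _ => by
      have : Subsingleton H := by
        rw [Set.range_eq_empty, Subgroup.closure_empty] at hy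
        exact Subgroup.subsingleton_iff.1 (subsingleton_of_bot_eq_top hy)
      exact injective_of_subsingleton _)

theorem hasPres_of_isCyclic (G : Type*) [Group G] [IsCyclic G] : HasPres 1 1 G := by
  obtain ⟨g, hg⟩ := IsCyclic.exists_generator (α := G)
  refine PresOn.hasPres (x := fun _ => g) (PresOn.of_list [of 0 ^ orderOf g] le_rfl ?_ (by simp)
    fun H _ y φ hy hgen hφ => ?_)
  · rw [Set.range_const, ← Subgroup.zpowers_eq_closure, eq_top_iff]
    exact fun x _ => hg x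
  · refine (injective_iff_map_eq_one φ).2 fun x hx => ?_
    have : x ∈ Subgroup.zpowers (y 0) := by
      rw [Set.range_unique] at hgen
      exact (Subgroup.zpowers_eq_closure _).trans hgen ▸ Subgroup.mem_top x
    obtain ⟨n, rfl⟩ := this
    rw [map_zpow, hφ, ← orderOf_dvd_iff_zpow_eq_one] at hx
    obtain ⟨c, rfl⟩ := hx
    have : y 0 ^ orderOf g = 1 := by simpa using hy
    simp [zpow_mul, this]

theorem hasPres_small {n : ℕ} (h3 : 3 ≤ n) (h6 : n ≤ 6) :
    HasPres 2 5 (Perm (Fin n)) ∧ HasPres 2 5 (alternatingGroup (Fin n)) := by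
  interval_cases n
  · exact ⟨((show CycDat (0 : Fin 3) 1 2 (swap 0 1) (-1) 1 by unfold CycDat; decide).presOn_perm
      (by decide)).hasPres.mono (by norm_num),
      ((show CycDat (0 : Fin 3) 1 2 1 1 1 by unfold CycDat; decide).presOn_alt
      (by decide)).hasPres.mono (by norm_num)⟩
  · exact ⟨((show CycDat (0 : Fin 4) 1 2 (swap 2 3) 1 2 by unfold CycDat; decide).presOn_perm
      (by decide)).hasPres.mono (by norm_num),
      ((show CycDat (0 : Fin 4) 1 2 (swap 0 1 * swap 2 3) (-1) 2 by unfold CycDat; decide).presOn_alt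
      (by decide)).hasPres.mono (by norm_num)⟩
  · exact ⟨((show CycDat (0 : Fin 5) 1 2 (swap 0 1 * (swap 2 3 * swap 3 4)) (-1) 3 by
        unfold CycDat; decide).presOn_perm (by decide)).hasPres.mono (by norm_num),
      ((show CycDat (0 : Fin 5) 1 2 (swap 2 3 * swap 3 4) 1 3 by unfold CycDat; decide).presOn_alt
      (by decide)).hasPres.mono (by norm_num)⟩
  · exact ⟨((show CycDat (0 : Fin 6) 1 2 (swap 2 3 * swap 3 4 * swap 4 5) 1 4 by
        unfold CycDat; decide).presOn_perm (by decide)).hasPres.mono (by norm_num),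
      ((show CycDat (0 : Fin 6) 1 2 (swap 0 1 * (swap 2 3 * swap 3 4 * swap 4 5)) (-1) 4 by
        unfold CycDat; decide).presOn_alt (by decide)).hasPres.mono (by norm_num)⟩

theorem hasPres_three {n : ℕ} (h3 : 3 ≤ n) :
    HasPres 3 7 (Perm (Fin n)) ∧ HasPres 3 7 (alternatingGroup (Fin n)) := by
  by_cases h : n ≤ 6
  · exact (hasPres_small h3 h).imp (·.add' (by norm_num) (by norm_num))
      (·.add' (by norm_num) (by norm_num))
  · exact ⟨(hasPres_perm_large (by omega)).1, (hasPres_alt_large (by omega)).1⟩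

theorem hasPres_two (n : ℕ) :
    HasPres 2 8 (Perm (Fin n)) ∧ HasPres 2 8 (alternatingGroup (Fin n)) := by
  by_cases h : 7 ≤ n
  · exact ⟨(hasPres_perm_large h).2, (hasPres_alt_large h).2⟩
  by_cases h3 : 3 ≤ n
  · exact (hasPres_small h3 (by omega)).imp (·.mono (by norm_num)) (·.mono (by norm_num))
  have h1 : IsCyclic (Perm (Fin n)) := by
    have : n < 3 := by omega
    interval_cases n
    · infer_instance
    · infer_instance
    · exact isCyclic_of_prime_card (p := 2) (by simp [Fintype.card_perm])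
  exact ⟨(hasPres_of_isCyclic _).add' (by norm_num) (by norm_num),
    (hasPres_of_isCyclic _).add' (by norm_num) (by norm_num)⟩

theorem presOn_a4 : PresOn ![Classical.a4x, Classical.a4y] 3 :=
  PresOn.of_list [of 0 ^ 2, of 1 ^ 3, (of 0 * of 1) ^ 3] le_rfl
    (by simpa [Matrix.range_cons, Set.pair_comm] using Classical.closure_a4)
    (by simpa using Classical.isTri_a4.pow) fun H _ y φ hy hgen hφ => by
      simp only [List.forall_mem_cons, map_pow, map_mul, lift_apply_of] at hy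
      obtain ⟨f, h1, h2, -⟩ := Classical.exists_hom_A4 hy.1 hy.2.1 hy.2.2.1
      refine injective_of_section (ψ := f) hgen fun i => ?_
      rw [hφ]; fin_cases i <;> assumption

theorem presOn_a5 : PresOn ![Classical.a5x, Classical.a5y] 3 :=
  PresOn.of_list [of 0 ^ 2, of 1 ^ 3, (of 0 * of 1) ^ 5] le_rfl
    (by simpa [Matrix.range_cons, Set.pair_comm] using Classical.isTri_a5.closure_eq_top_A5)
    (by simpa using Classical.isTri_a5.pow) fun H _ y φ hy hgen hφ => by
      simp only [List.forall_mem_cons, map_pow, map_mul, lift_apply_of] at hy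
      obtain ⟨f, h1, h2, -⟩ := Classical.exists_hom_A5 hy.1 hy.2.1 hy.2.2.1
      refine injective_of_section (ψ := f) hgen fun i => ?_
      rw [hφ]; fin_cases i <;> assumption

end CF.Known.Pres
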