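import Cfsg.Agent.Known.Pres.StLift
import Cfsg.Agent.Chev.RootX

/-! Short presentations of simply laced Chevalley groups from a monomial group which is transitive
on the roots. -/

set_option autoImplicit false

namespace CF.Known.Pres

open Function Chev Monoid
open scoped commutatorElement

variable {B ι : Type} [Fintype B] [DecidableEq B] [Fintype ι] [DecidableEq ι]
  {C : ChevBasis B ι} {K : Type*} [Field K] {G : Type*} [Group G] {ρ : StRep C K G}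

theorem A_of_add (hC : C.SameLen) {r s v : ι} (h : C.vec v = C.vec r + C.vec s) :
    C.A r s = -1 ∧ C.A r v = 1 := by
  have h1 := RootSys.A_add h r
  have h2 := RootSys.abs_A_le_of_len (hC r s) (C.ne_of_add h).symm
    (fun e => C.ne_neg_of_add h (C.eq_neg_comm.1 e))
  have h3 := RootSys.abs_A_le_of_len (hC r v) (C.add_ne_left h) (C.add_ne_neg_left h)
  rw [RootSys.A_self] at h1
  omega

theorem h_mul_h_of_add (hC : C.SameLen) (h3 : ρ.R3) {r s v : ι}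
    (h : C.vec v = C.vec r + C.vec s) (t : Kˣ) : ρ.h r t * ρ.h s t = ρ.h v t := by
  have h1 := (A_of_add hC h).1
  have : C.refl s r = v := C.vec_inj (by
    rw [RootSys.vec_refl, ← RootSys.A_symm_of_len (hC r s), h1, h]; simp)
  rw [← this, h3.h_refl, h1]; simp

/-- The combinatorial data of the presentation. -/
structure LacedDat {S : Type} [Group S] (M : Mono ρ S Unit) (ζ : Kˣ) where
  β : ι
  LS : List S
  L6 : List ι
  LP : List (ι × ι × ι)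
  LC : List (ι × ι × K × K)
  LZ : List S
  A_β : C.A β (M.α ()) = 1
  LS_fix : ∀ s ∈ LS, M.w s (M.α ()) = M.α ()
  LS_gen : ∀ s, M.w s (M.α ()) = M.α () → s ∈ Subgroup.closure {s | s ∈ LS}
  L6_A : ∀ γ ∈ L6, C.A γ (M.α ()) = 1
  LP_add : ∀ p ∈ LP, C.vec p.2.2 = C.vec p.1 + C.vec p.2.1
  LC_ne : ∀ q ∈ LC, q.1 ≠ q.2.1 ∧ q.1 ≠ C.neg q.2.1
  c1 : ∀ r s v, C.vec v = C.vec r + C.vec s → ∃ σ, ∃ p ∈ LP,
    (M.w σ p.1 = r ∧ M.w σ p.2.1 = s) ∨ (M.w σ p.1 = s ∧ M.w σ p.2.1 = r)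
  c2 : ∀ r s v, C.vec v = C.vec r + C.vec s → ∃ σ a, (a = r ∨ a = s) ∧
    ((M.w σ (M.α ()) = a ∧ M.w σ β = v) ∨ (M.w σ β = a ∧ M.w σ (M.α ()) = v))
  c3 : ∀ γ, C.A γ (M.α ()) = 1 → ∃ σ γ₀, (γ₀ = β ∨ γ₀ ∈ L6) ∧ M.w σ (M.α ()) = M.α () ∧
    (M.w σ γ₀ = γ ∨ C.vec (M.α ()) = C.vec (M.w σ γ₀) + C.vec γ)
  c4 : ∀ γ, C.A γ (M.α ()) = 0 → ∃ δ δ', C.vec γ = C.vec δ + C.vec δ' ∧ C.A δ (M.α ()) = 1
  c5 : ∀ r s, s ≠ r → s ≠ C.neg r → ∃ σ r₀ s₀, ((M.w σ r₀ = r ∧ M.w σ s₀ = s) ∨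
    (M.w σ r₀ = s ∧ M.w σ s₀ = r)) ∧ Spans C ζ Set.univ r₀ s₀ {p | (r₀, s₀, p) ∈ LC}
  c6 : Subgroup.normalClosure {s | s ∈ LZ} = ⊤

namespace LacedDat

variable {S : Type} [Group S] {M : Mono ρ S Unit} {ζ : Kˣ} (T : LacedDat M ζ)
  {H : Type*} [Group H]

/-- The torus element of the base root. -/
def e (ψ : S →* H) (d : H) : H := (ψ (M.sec T.β))⁻¹ * d * ψ (M.sec T.β)

/-- The relators. -/
noncomputable def rels (W : S → List (ι × K)) (LK : List (List (ι × K))) (ψ : S →* H) (x : K → H)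
    (d : H) : List H :=
  T.LS.map (fun s => ψ s * x 1 * (ψ s)⁻¹ * (x (M.c s (M.α ())))⁻¹) ++
  T.LS.map (fun s => ⁅ψ s, T.e ψ d⁆) ++
  [⁅T.e ψ d, d⁆, T.e ψ d * x 1 * (T.e ψ d)⁻¹ * (x (ζ ^ 2 : Kˣ))⁻¹] ++
  T.L6.map (fun γ => M.D ψ (T.e ψ d) γ * x 1 * (M.D ψ (T.e ψ d) γ)⁻¹ * (x ζ)⁻¹) ++
  T.LP.map (fun p => M.D ψ (T.e ψ d) p.1 * M.D ψ (T.e ψ d) p.2.1 * (M.D ψ (T.e ψ d) p.2.2)⁻¹) ++
  T.LC.map (cmRel C (M.Y ψ fun _ => x)) ++
  T.LZ.map (fun s => ψ s * (yword (M.Y ψ fun _ => x) (W s))⁻¹) ++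
  LK.map (yword (M.Y ψ fun _ => x))

theorem map_e {H' : Type*} [Group H'] (f : H →* H') (ψ : S →* H) (d : H) :
    f (T.e ψ d) = T.e (f.comp ψ) (f d) := by simp [e]

theorem rels_iff {H' : Type*} [Group H'] (f : H →* H') (W : S → List (ι × K))
    (LK : List (List (ι × K))) (ψ₀ : S →* H) (x₀ : K → H) (d₀ : H) {ψ : S →* H'} {x : K → H'}
    {d : H'} (h1 : f.comp ψ₀ = ψ) (h2 : ∀ a, f (x₀ a) = x a) (h3 : f d₀ = d) :
    (∀ g ∈ T.rels W LK ψ₀ x₀ d₀, f g = 1) ↔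
    (∀ s ∈ T.LS, ψ s * x 1 * (ψ s)⁻¹ = x (M.c s (M.α ()))) ∧
    (∀ s ∈ T.LS, Commute (ψ s) (T.e ψ d)) ∧ (Commute (T.e ψ d) d ∧
    T.e ψ d * x 1 * (T.e ψ d)⁻¹ = x (ζ ^ 2 : Kˣ)) ∧
    (∀ γ ∈ T.L6, M.D ψ (T.e ψ d) γ * x 1 * (M.D ψ (T.e ψ d) γ)⁻¹ = x ζ) ∧
    (∀ p ∈ T.LP, M.D ψ (T.e ψ d) p.1 * M.D ψ (T.e ψ d) p.2.1 = M.D ψ (T.e ψ d) p.2.2) ∧
    (∀ q ∈ T.LC, cmRel C (M.Y ψ fun _ => x) q = 1) ∧
    (∀ s ∈ T.LZ, ψ s = yword (M.Y ψ fun _ => x) (W s)) ∧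
    ∀ l ∈ LK, yword (M.Y ψ fun _ => x) l = 1 := by
  have h4 : ∀ s, f (ψ₀ s) = ψ s := DFunLike.congr_fun h1
  simp only [rels, List.forall_mem_append, List.forall_mem_map, List.forall_mem_cons, map_mul,
    map_inv, map_commutatorElement, map_e, M.map_D, map_cmRel, map_yword, M.map_Y, h1, h2, h3, h4,
    mul_inv_eq_one, commutatorElement_eq_one_iff_commute, and_assoc, List.not_mem_nil,
    false_imp_iff, implies_true, true_and]

theorem e_eq (h3 : ρ.R3) : T.e M.φ (ρ.h T.β ζ) = ρ.h (M.α ()) ζ := by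
  have := h3.conj_h (M.acts (M.sec T.β)) (M.α ()) ζ
  rw [M.sec_spec] at this
  rw [e, ← this]; group

theorem core [Finite K] (hζ : IsGen ζ) (hC : C.SameLen) (hF : ρ.Faithful) (hG : ρ.Gp = ⊤)
    (h1 : C.NoA1) {W : S → List (ι × K)} (hW : ∀ s, ρ.word (W s) = M.φ s)
    {LK : List (List (ι × K))} (hK : StPres ρ LK) {H : Type} [Group H] {π : H →* G} {ψ : S →* H}
    {x : K → H} {d : H} (hψ : π.comp ψ = M.φ) (hx : Addv x) (hπ : ∀ t, π (x t) = ρ.x (M.α ()) t)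
    (hd : π d = ρ.h T.β ζ) (hc : ∀ a, d * x a * d⁻¹ = x (ζ * a))
    (h : ∀ g ∈ T.rels W LK ψ x d, MonoidHom.id H g = 1) :
    ∃ θ : G →* H, (∀ s, θ (M.φ s) = ψ s) ∧ (∀ t, θ (ρ.x (M.α ()) t) = x t) ∧
      θ (ρ.h T.β ζ) = d := by
  obtain ⟨r1, r2, ⟨r3, r4⟩, r5, r6, r7, r8, r9⟩ :=
    (T.rels_iff (MonoidHom.id H) W LK ψ x d (ψ := ψ) (x := x) (d := d) (MonoidHom.id_comp _)
      (fun _ => rfl) rfl).1 h
  have h3 := ρ.r3_of_finite
  set e := T.e ψ d with he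
  set α := M.α ()
  have he' : π e = ρ.h α ζ := by rw [he, map_e, hψ, hd, T.e_eq h3]
  have e1 : ∀ a, e * x a * e⁻¹ = x ((ζ : K) ^ 2 * a) :=
    conj_of_gen hx hζ.closure hc hc (by rw [r3.eq]; group) r4
  have st1 : ∀ s, M.w s α = α → Commute (ψ s) e := fun s hs =>
    Subgroup.mem_centralizer_singleton_iff.1 ((Subgroup.closure_le
      ((Subgroup.centralizer {e}).comap ψ)).2 (fun s hs =>
        Subgroup.mem_centralizer_singleton_iff.2 (r2 s hs)) (T.LS_gen s hs))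
  have st2 : ∀ (k : Unit) s, M.w s (M.α k) = M.α k → ψ s ∈ Nm x := fun _ s hs =>
    (Subgroup.closure_le ((Nm x).comap ψ)).2 (fun s hs =>
      mem_Nm_of_gen hx hζ.closure_sq e1 (r2 s hs) (r1 s hs)) (T.LS_gen s hs)
  set D := M.D ψ e
  have cD : ∀ s r, ψ s * D r * (ψ s)⁻¹ = D (M.w s r) := fun s r => Mono.conj_D st1 s rfl
  have Dα : D α = e := Mono.D_α st1
  have Dβ : D T.β = d := by simp [D, Mono.D, he, LacedDat.e, mul_assoc]
  have aut : ∀ s r, C.vec (M.w s r) = C.lin (M.w s) (C.vec r) := fun s =>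
    RootSys.vec_aut (M.acts s).1
  have p1 : ∀ r s v, C.vec v = C.vec r + C.vec s → D r * D s = D v ∨ D s * D r = D v :=
    fun r s v hv => by
      obtain ⟨σ, p, hp, e⟩ := T.c1 r s v hv
      have e2 : D (M.w σ p.1) * D (M.w σ p.2.1) = D (M.w σ p.2.2) := by
        rw [← cD, ← cD, ← cD, ← r6 p hp]; group
      have e3 : C.vec (M.w σ p.2.2) = C.vec (M.w σ p.1) + C.vec (M.w σ p.2.1) := by
        rw [aut, aut, aut, T.LP_add p hp, map_add]
      rcases e with ⟨rfl, rfl⟩ | ⟨rfl, rfl⟩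
      · exact .inl (e2.trans (congrArg D (C.vec_inj (e3.trans hv.symm))))
      · exact .inr (e2.trans (congrArg D (C.vec_inj (by rw [e3, hv, add_comm]))))
  have p2 : ∀ r s v, C.vec v = C.vec r + C.vec s → Commute (D r) (D s) := fun r s v hv => by
    obtain ⟨σ, a, ha, e⟩ := T.c2 r s v hv
    have e2 : Commute (D (M.w σ α)) (D (M.w σ T.β)) := by
      rw [← cD, ← cD, Dα, Dβ]; exact commute_conj _ r3
    have e3 : Commute (D a) (D v) := by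
      rcases e with ⟨rfl, rfl⟩ | ⟨rfl, rfl⟩
      exacts [e2, e2.symm]
    rcases p1 r s v hv with e | e <;> rw [← e] at e3 <;> rcases ha with rfl | rfl
    · exact mul_left_cancel (e3.eq.trans (mul_assoc _ _ _))
    · exact (mul_right_cancel ((mul_assoc _ _ _).trans e3.eq)).symm
    · exact mul_right_cancel ((mul_assoc _ _ _).trans e3.eq)
    · exact (mul_left_cancel (e3.eq.trans (mul_assoc _ _ _))).symm
  have p3 : ∀ r s v, C.vec v = C.vec r + C.vec s → D r * D s = D v := fun r s v hv =>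
    (p1 r s v hv).elim id fun e => (p2 r s v hv).eq.trans e
  have sub : ∀ {r s}, C.A r s = 1 → ∃ v, C.vec s = C.vec r + C.vec v := fun {r s} e => by
    obtain ⟨v, hv⟩ := C.exists_sub_of_A_pos (r := r) (s := s) (by omega)
      (by rintro rfl; rw [RootSys.A_self] at e; omega)
    exact ⟨v, by rw [hv]; abel⟩
  have p4 : ∀ r, D (C.neg r) = (D r)⁻¹ := fun r => by
    obtain ⟨b, hb, hb'⟩ := h1 r
    have := (RootSys.abs_A_le_of_len (hC r b) hb (RootSys.ne_neg_of_A_nonneg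
      ((C.A_pos_iff _ _).1 hb').le)).2
    obtain ⟨v, hv⟩ := sub (r := r) (s := b) (by have := (C.A_pos_iff _ _).1 hb'; omega)
    have e2 := p3 (C.neg r) b v (by rw [hv, C.vec_neg]; abel)
    rw [← p3 _ _ _ hv, ← mul_assoc] at e2
    exact eq_inv_of_mul_eq_one_left (by simpa using e2)
  have q0 : D α ∈ Nm x := ⟨ζ ^ 2, by simpa [Dα] using e1⟩
  have q1 : ∀ γ, C.A γ α = 1 → D γ ∈ Nm x := fun γ hγ => by
    obtain ⟨σ, γ₀, h0, hσ, e⟩ := T.c3 γ hγ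
    have e2 : D γ₀ ∈ Nm x := by
      rcases h0 with rfl | h0
      · exact ⟨ζ, Dβ ▸ hc⟩
      · obtain ⟨v, hv⟩ := sub (T.L6_A _ h0)
        refine mem_Nm_of_gen hx hζ.closure_sq e1 ?_ (r5 _ h0)
        rw [← Dα, ← p3 _ _ _ hv]
        exact (Commute.refl _).mul_right (p2 _ _ _ hv)
    have e3 : D (M.w σ γ₀) ∈ Nm x := by
      rw [← cD]; exact mul_mem (mul_mem (st2 () σ hσ) e2) (inv_mem (st2 () σ hσ))
    rcases e with rfl | e
    · exact e3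
    · exact (mul_mem_cancel_left e3).1 (p3 _ _ _ e ▸ q0)
  have q2 : ∀ γ, C.A γ α = -1 → D γ ∈ Nm x := fun γ hγ =>
    inv_mem_iff.1 (p4 γ ▸ q1 _ (by simp [hγ]))
  have q3 : ∀ γ, D γ ∈ Nm x := fun γ => by
    by_cases a1 : γ = α; · exact a1 ▸ q0
    by_cases a2 : γ = C.neg α; · exact a2 ▸ p4 α ▸ inv_mem q0
    have := RootSys.abs_A_le_of_len (hC α γ) a1 a2
    rw [RootSys.A_symm_of_len (hC α γ)] at this
    obtain e | e | e : C.A γ α = 1 ∨ C.A γ α = -1 ∨ C.A γ α = 0 := by omega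
    · exact q1 γ e
    · exact q2 γ e
    · obtain ⟨δ, δ', hv, e'⟩ := T.c4 γ e
      have := RootSys.A_add hv α
      rw [RootSys.A_symm_of_len (hC α γ), RootSys.A_symm_of_len (hC α δ),
        RootSys.A_symm_of_len (hC α δ'), show C.A δ α = 1 from e'] at this
      exact p3 _ _ _ hv ▸ mul_mem (q1 _ e') (q2 _ (by omega))
  have L := Mono.lf (M := M) hψ (x := fun _ => x) (fun _ => hx) fun _ => hπ
  have la := Mono.la (x := fun _ => x) hψ st2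
  have lD := fun γ => Mono.la_D (x := fun _ => x) (γ := γ) hψ h3 he' st1 (fun γ _ _ => q3 γ) rfl
  obtain ⟨σ, hσ⟩ := exists_st hF h1 L la (Γ := Set.univ) (fun _ _ _ => trivial)
    (fun γ _ => lD γ) r7 T.c5
  obtain ⟨θ, hθ⟩ := hK.2 H σ fun l hl => by rw [← yword_x, hσ]; exact r9 l hl
  rw [hσ] at hθ
  have hψ' : ∀ s, π (ψ s) = M.φ s := DFunLike.congr_fun hψ
  have t1 := eq_of_normalClosure (ψ := ψ) (φ := M.φ) (θ := θ)
    (fun s a => by rw [(la s).conj_hom hF hG L hθ, hψ']) T.c6 fun s hs => by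
      rw [r8 s hs, ← hW, ← yword_x, map_yword]; simp only [hθ]
  refine ⟨θ, fun s => (t1 s).symm, fun t => (hθ _ t).trans
    (Mono.Y_α (x := fun _ => x) hF hψ (fun _ => hπ) st2 () t), ?_⟩
  have t2 : ∀ a, Commute (e * (θ (ρ.h α ζ))⁻¹) (θ a) := fun a => by
    have := (lD α).1.conj_hom hF hG L hθ ((ρ.h α ζ)⁻¹ * a * ρ.h α ζ)
    rw [(lD α).2, show M.D ψ e α = e from Dα] at this
    simp only [map_mul, map_inv] at this
    rw [Commute, SemiconjBy, ← mul_inv_eq_iff_eq_mul]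
    calc _ = e * ((θ (ρ.h α ζ))⁻¹ * θ a * θ (ρ.h α ζ)) * e⁻¹ := by group
      _ = _ := by rw [this]; group
  set z := e * (θ (ρ.h α ζ))⁻¹ with hz
  have t3 : ∀ r, D r = z * θ (ρ.h r ζ) := fun r => by
    rw [← M.D_eq h3 ζ (k := ()) (r := r) rfl, Mono.D, map_mul, map_mul, map_inv, ← mul_assoc,
      ← mul_assoc, (t2 _).eq, ← t1]
    simp only [D, Mono.D, hz, α]; group
  obtain ⟨v, hv⟩ := sub T.A_β
  have t4 := p3 _ _ _ hv
  rw [t3, t3 v, t3, ← h_mul_h_of_add hC h3 hv, map_mul, mul_assoc, mul_right_inj, ← mul_assoc,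
    mul_left_inj, ← (t2 _).eq, mul_eq_right] at t4
  rw [← Dβ, t3, t4, one_mul]

include T in
theorem hasPres [Finite K] (hζ : IsGen ζ) (hC : C.SameLen) (hF : ρ.Faithful) (hG : ρ.Gp = ⊤)
    (h1 : C.NoA1) {LK : List (List (ι × K))} (hK : StPres ρ LK) {g r a : ℕ} (hS : HasPres g r S)
    (hA : HasPres 2 a (Aff ζ)) : HasPres (g + 2) (r + a + (2 * T.LS.length + 2 + T.L6.length +
      T.LP.length + T.LC.length + T.LZ.length + LK.length)) G := by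
  have h3 := ρ.r3_of_finite
  choose W hW using fun s => (ρ.mem_U_iff_word.1 (hG ▸ Subgroup.mem_top (M.φ s) : _ ∈ ρ.Gp))
  have hx : Addv (ρ.x (M.α ())) := ρ.x_add _
  have hc : ∀ a, ρ.h T.β ζ * ρ.x (M.α ()) a * (ρ.h T.β ζ)⁻¹ = ρ.x (M.α ()) (ζ * a) := fun a => by
    rw [ρ.h_conj_x, T.A_β, zpow_one]
  obtain ⟨b, b1, b2⟩ := Aff.exists_hom hx hc
  have hl : (Coprod.lift M.φ b).comp Coprod.inl = M.φ := Coprod.lift_comp_inl _ _
  refine (hS.coprod hA).of_rel (Coprod.lift M.φ b) ?_ (T.rels W LK Coprod.inl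
    (fun a => Coprod.inr (Aff.x ζ a)) (Coprod.inr (Aff.d ζ))) (by simp [rels]; omega) ?_
    fun H _ f π hf hr hπ => ?_
  · rw [← MonoidHom.range_eq_top, eq_top_iff, ← hG, PreSt.U_le_iff]
    intro r _ t
    rw [← M.Y_eq]
    exact ⟨M.Y Coprod.inl (fun _ a => Coprod.inr (Aff.x ζ a)) r t, by simp [M.map_Y, hl, b1]⟩
  · refine (T.rels_iff _ W LK _ _ _ hl (x := ρ.x (M.α ())) (d := ρ.h T.β ζ) (by simp [b1])
      (by simp [b2])).2 ?_
    simp only [T.e_eq h3, M.D_eq h3 ζ (k := ()) rfl, M.Y_eq]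
    refine ⟨fun s hs => by rw [M.c_spec, T.LS_fix s hs, mul_one], fun s hs => ?_,
      ⟨h3.commute_h (ρ.h_mem_H _ _) _ _, by rw [ρ.h_conj_x]; simp⟩,
      fun γ hγ => by rw [ρ.h_conj_x, T.L6_A γ hγ]; simp,
      fun p hp => h_mul_h_of_add hC h3 (T.LP_add p hp) ζ,
      fun q hq => cmRel_x _ (T.LC_ne q hq).1 (T.LC_ne q hq).2, fun s _ => (hW s).2, hK.1⟩
    have := h3.conj_h (M.acts s) (M.α ()) ζ
    rwa [T.LS_fix s hs, mul_inv_eq_iff_eq_mul] at this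
  · obtain ⟨θ, t1, t2, t3⟩ := T.core hζ hC hF hG h1 (fun s => (hW s).2.symm) hK (π := π)
      (ψ := f.comp Coprod.inl) (x := fun a => f (Coprod.inr (Aff.x ζ a)))
      (d := f (Coprod.inr (Aff.d ζ))) (by ext s; simp [hπ])
      ((Aff.addv.map Coprod.inr).map f) (fun t => by simp [hπ, b1]) (by simp [hπ, b2])
      (fun a => by rw [← Aff.conj]; simp) ((T.rels_iff _ W LK _ _ _ rfl (fun _ => rfl) rfl).2
        ((T.rels_iff f W LK _ _ _ rfl (fun _ => rfl) rfl).1 hr))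
    have : θ.comp (Coprod.lift M.φ b) = f := Coprod.hom_ext (by ext s; simp [t1])
      (Aff.hom_ext (fun a => by simp [b1, t2]) (by simp [b2, t3]))
    refine LeftInverse.injective (g := θ) fun a => ?_
    obtain ⟨a, rfl⟩ := hf a
    rw [hπ]
    exact DFunLike.congr_fun this a

end LacedDat

theorem spans_of_pow {ζ : Kˣ} {Γ : Set ι} {r s : ι} {E : Set (K × K)} {a b : Kˣ}
    (ha : AddSubgroup.closure (Set.range fun i : ℕ => (a : K) ^ i) = ⊤)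
    (hb : AddSubgroup.closure (Set.range fun i : ℕ => (b : K) ^ i) = ⊤) [Finite K]
    (h : ∀ P : K → K → Prop, (∀ γ ∈ Γ, ∀ t u, P t u →
      P ((ζ ^ C.A γ r : Kˣ) * t) ((ζ ^ C.A γ s : Kˣ) * u)) →
      (∀ t u, P t u → P (a * t) u) ∧ ∀ t u, P t u → P t (b * u)) (hE : (1, 1) ∈ E) :
    Spans C ζ Γ r s E := by
  intro P h1 h2 h3 h4 h5 h6
  obtain ⟨h7, h8⟩ := h P h5
  have key : ∀ {c : K} (Q : K → Prop), AddSubgroup.closure (Set.range fun i : ℕ => c ^ i) = ⊤ →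
      (∀ t t', Q t → Q t' → Q (t + t')) → Q 0 → Q 1 → (∀ t, Q t → Q (c * t)) → ∀ t, Q t := by
    intro c Q hc q1 q2 q3 q4 t
    have : t ∈ AddSubmonoid.closure (Set.range fun i : ℕ => c ^ i) := by
      rw [← AddSubgroup.closure_toAddSubmonoid_of_finite, hc]; trivial
    induction this using AddSubmonoid.closure_induction with
    | mem a ha =>
      obtain ⟨i, rfl⟩ := ha
      induction i with
      | zero => simpa
      | succ i ih => simpa [pow_succ'] using q4 _ ih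
    | zero => exact q2
    | add a b _ _ ha hb => exact q1 a b ha hb
  exact fun t => key (P t) hb (h2 t) (h3 t)
    (key (P · 1) ha (fun a b => h1 a b 1) (h4 1) (h6 _ hE) (fun t => h7 t 1) t) (h8 t)

end CF.Known.Pres
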