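import Cfsg.Agent.Known.Pres.Laced
import Cfsg.Agent.Known.Pres.AltSmall
import Cfsg.Agent.Chev.Euc

/-! Permutation facts for the monomial groups, and spanning sets for the commutator relations. -/

set_option autoImplicit false

namespace CF.Known.Pres

open Function Chev Equiv Equiv.Perm

section perm

variable {Ω : Type} [Fintype Ω] [DecidableEq Ω]

theorem exists_even_or {ι : Type*} [Finite ι] {x y : ι → Ω} (hx : Injective x) (hy : Injective y)
    {τ : Perm Ω} (hτ : sign τ = -1) :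
    ∃ σ : alternatingGroup Ω, (∀ i, σ.1 (x i) = y i) ∨ ∀ i, σ.1 (τ (x i)) = y i := by
  obtain ⟨σ, hσ⟩ := exists_extending_pair x y hx hy
  rcases Int.units_eq_one_or (sign σ) with h | h
  · exact ⟨⟨σ, h⟩, .inl hσ⟩
  · exact ⟨⟨σ * τ⁻¹, by simp [h, hτ]⟩, .inr fun i => by simp [hσ]⟩

theorem exists_even {ι : Type*} [Finite ι] {x y : ι → Ω} (hx : Injective x) (hy : Injective y) {a b : Ω}
    (h : a ≠ b) (ha : ∀ i, x i ≠ a) (hb : ∀ i, x i ≠ b) :
    ∃ σ : alternatingGroup Ω, ∀ i, σ.1 (x i) = y i := by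
  obtain ⟨σ, e | e⟩ := exists_even_or hx hy (sign_swap h)
  · exact ⟨σ, e⟩
  · exact ⟨σ, fun i => by rw [← e, swap_apply_of_ne_of_ne (ha i) (hb i)]⟩

theorem HasPres.exists_gens {G S : Type*} [Group G] [Group S] {g r : ℕ} (h : HasPres g r G)
    (f : G →* S) : ∃ L : List S, L.length = g ∧ Subgroup.closure {s | s ∈ L} = f.range := by
  obtain ⟨x, hx⟩ := h.exists_presOn
  refine ⟨List.ofFn fun i => f (x i), by simp, ?_⟩
  rw [f.range_eq_map, ← hx.closure_eq, MonoidHom.map_closure]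
  congr 1
  ext s
  simp [List.mem_ofFn]

theorem hasPres_two' (Ω : Type) [Fintype Ω] [DecidableEq Ω] :
    HasPres 2 8 (Perm Ω) ∧ HasPres 2 8 (alternatingGroup Ω) :=
  ⟨(hasPres_two _).1.of_equiv (Fintype.equivFin Ω).symm.permCongrHom,
    (hasPres_two _).2.of_equiv (Fintype.equivFin Ω).symm.altCongrHom⟩

theorem exists_gens_alt (T : Finset Ω) : ∃ L : List (alternatingGroup Ω), L.length = 2 ∧
    ∀ σ, σ ∈ Subgroup.closure {s | s ∈ L} ↔ ∀ a ∈ T, σ.1 a = a := by
  obtain ⟨L, h1, h2⟩ := (hasPres_two' (Tᶜ : Finset Ω)).2.exists_gens (alternatingGroup.ofSubtype _)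
  refine ⟨L, h1, fun σ => ?_⟩
  rw [h2, alternatingGroup.mem_range_ofSubtype_iff]
  simp only [Finset.subset_iff, Perm.mem_support, Finset.mem_compl, not_imp_not]

theorem exists_gens_perm (T : Finset Ω) : ∃ L : List (Perm Ω), L.length = 2 ∧
    ∀ σ, σ ∈ Subgroup.closure {s | s ∈ L} ↔ ∀ a ∈ T, σ a = a := by
  obtain ⟨L, h1, h2⟩ := (hasPres_two' {a // a ∉ T}).1.exists_gens ofSubtype
  refine ⟨L, h1, fun σ => ?_⟩
  rw [h2, mem_range_ofSubtype_iff]
  simp only [Set.subset_def, Finset.mem_coe, Perm.mem_support, Set.mem_ofPred_eq, not_imp_not]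

theorem inj2 {Ω : Type*} {a b : Ω} (h : a ≠ b) : Injective ![a, b] := fun i j e => by
  fin_cases i <;> fin_cases j <;> simp_all [eq_comm]

theorem inj3 {Ω : Type*} {a b c : Ω} (h1 : a ≠ b) (h2 : a ≠ c) (h3 : b ≠ c) :
    Injective ![a, b, c] := fun i j e => by
  fin_cases i <;> fin_cases j <;> simp_all [eq_comm]

theorem inj4 {Ω : Type*} {a b c d : Ω} (h1 : a ≠ b) (h2 : a ≠ c) (h3 : a ≠ d) (h4 : b ≠ c)
    (h5 : b ≠ d) (h6 : c ≠ d) : Injective ![a, b, c, d] := fun i j e => by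
  fin_cases i <;> fin_cases j <;> simp_all [eq_comm]

theorem normalClosure_c3 {a b c : Ω} (h1 : a ≠ b) (h2 : c ≠ a) (h3 : c ≠ b) :
    Subgroup.normalClosure {(⟨c3 a b c, sign_c3 h2 h3⟩ : alternatingGroup Ω)} = ⊤ := by
  set N := Subgroup.normalClosure {(⟨c3 a b c, sign_c3 h2 h3⟩ : alternatingGroup Ω)}
  have h0 : (⟨c3 a b c, sign_c3 h2 h3⟩ : alternatingGroup Ω) ∈ N := Subgroup.subset_normalClosure rfl
  have := altOn_le h1 (T := (Finset.univ.erase a).erase b) (by simp) (by simp) (S := Finset.univ)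
    (by ext; simp; tauto) (C := N.map (alternatingGroup Ω).subtype) fun i hi => by
      simp only [Finset.mem_erase] at hi
      obtain ⟨σ, e | e⟩ := exists_even_or (inj3 h1 h2.symm h3.symm) (inj3 h1 hi.2.1.symm hi.1.symm)
        (sign_swap h1)
      · refine ⟨_, Subgroup.Normal.conj_mem inferInstance _ h0 σ, ?_⟩
        have := e 0; have := e 1; have := e 2
        simp_all [conj_c3]
      · refine ⟨_, Subgroup.Normal.conj_mem inferInstance _ (inv_mem h0) σ, ?_⟩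
        have := e 0; have := e 1; have := e 2
        simp_all [conj_c3, c3_inv, swap_apply_of_ne_of_ne]
  rw [altOn_univ] at this
  refine eq_top_iff.2 fun g _ => ?_
  obtain ⟨g', h, e⟩ := this g.2
  exact Subtype.ext e ▸ h

end perm

variable {B ι : Type} [Fintype B] [DecidableEq B] [Fintype ι] [DecidableEq ι]

theorem euc_mem_aut {J : Type} [Fintype J] (E : Euc B ι J) {w : Perm ι} {p : Perm J}
    (h : ∀ r, E.ev (w r) = E.ev r ∘ p.symm) : w ∈ E.rs.Aut := by
  have key : ∀ {w : Perm ι} {p : Perm J}, (∀ r, E.ev (w r) = E.ev r ∘ p.symm) →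
      (∀ c, E.L (E.rs.lin w c) = E.L c ∘ p.symm) ∧
        ∀ r, E.rs.vec (w r) = E.rs.lin w (E.rs.vec r) := fun {w p} h => by
    have h1 : ∀ c, E.L (E.rs.lin w c) = E.L c ∘ p.symm := fun c => DFunLike.congr_fun
      (E.rs.lin_ext (f := E.L ∘ₗ E.rs.lin w) (g := LinearMap.funLeft ℤ ℤ p.symm ∘ₗ E.L) fun i => by
        rw [LinearMap.comp_apply, LinearMap.comp_apply, E.L_rs_vec, RootSys.vec_simple,
          RootSys.lin_single, E.L_rs_vec, h]; rfl) c
    exact ⟨h1, fun r => E.L_injective (by rw [h1, E.L_rs_vec, E.L_rs_vec, h])⟩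
  obtain ⟨h1, h2⟩ := key h
  obtain ⟨h3, -⟩ := key (w := w⁻¹) (p := p⁻¹) fun r => by
    have := h (w⁻¹ r)
    rw [← Perm.mul_apply, mul_inv_cancel, Perm.one_apply] at this
    rw [this]; ext j; simp [Perm.inv_def]
  have hf : ∀ v v', E.rs.form v v' = 2 * (E.L v' ⬝ᵥ E.L v) := fun v v' => by
    rw [RootSys.form_apply, dotProduct_comm, E.L_dot, Finset.mul_sum]
    refine Finset.sum_congr rfl fun i _ => ?_
    have := E.sp_mul i v'
    rw [dotProduct_comm] at this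
    change v i * E.len (E.simple i) * _ = _
    linear_combination v i * this
  refine ⟨LinearEquiv.ofLinearMap (E.rs.lin w) (E.rs.lin w⁻¹) (LinearMap.ext fun c => E.L_injective ?_)
    (LinearMap.ext fun c => E.L_injective ?_), h2, fun v v' => ?_⟩
  · ext j; simp only [LinearMap.comp_apply, h1, h3]; simp [Perm.inv_def]
  · ext j; simp only [LinearMap.comp_apply, h1, h3]; simp [Perm.inv_def]
  · simp only [LinearEquiv.coe_ofLinearMap, hf, h1, comp_equiv_dotProduct_comp_equiv]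

variable {C : ChevBasis B ι} {K : Type*} [Field K] {ζ : Kˣ} {Γ : Set ι} {r s : ι}

theorem Spans.mono {E E' : Set (K × K)} (h : Spans C ζ Γ r s E) (h' : E ⊆ E') :
    Spans C ζ Γ r s E' := fun P h1 h2 h3 h4 h5 h6 => h P h1 h2 h3 h4 h5 fun p hp => h6 p (h' hp)

theorem spans_list {P : K → K → Prop} (h : ∀ γ ∈ Γ, ∀ t u, P t u →
    P ((ζ ^ C.A γ r : Kˣ) * t) ((ζ ^ C.A γ s : Kˣ) * u)) {l : List ι} (hl : ∀ γ ∈ l, γ ∈ Γ)
    {a b : ℤ} (ha : (l.map (C.A · r)).sum = a) (hb : (l.map (C.A · s)).sum = b) (t u : K)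
    (htu : P t u) : P ((ζ ^ a : Kˣ) * t) ((ζ ^ b : Kˣ) * u) := by
  subst ha hb
  induction l with
  | nil => simpa
  | cons γ l ih =>
    simpa [zpow_add, mul_assoc] using h γ (hl γ (by simp)) _ _ (ih fun γ h => hl γ (by simp [h]))

theorem spans_of_list [Finite K] {l l' : List ι} (hl : ∀ γ ∈ l, γ ∈ Γ) (hl' : ∀ γ ∈ l', γ ∈ Γ)
    {a b : ℕ} (h1 : (l.map (C.A · r)).sum = a) (h2 : (l.map (C.A · s)).sum = 0)
    (h3 : (l'.map (C.A · r)).sum = 0) (h4 : (l'.map (C.A · s)).sum = b)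
    (ha : AddSubgroup.closure (Set.range fun i : ℕ => ((ζ : K) ^ a) ^ i) = ⊤)
    (hb : AddSubgroup.closure (Set.range fun i : ℕ => ((ζ : K) ^ b) ^ i) = ⊤) :
    Spans C ζ Γ r s {(1, 1)} :=
  spans_of_pow (a := ζ ^ a) (b := ζ ^ b) ha hb (fun P h =>
    ⟨fun t u e => by simpa using spans_list h hl h1 h2 t u e,
      fun t u e => by simpa using spans_list h hl' h3 h4 t u e⟩) rfl

end CF.Known.Pres
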