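import Cfsg.Agent.Known.Pres.Field
import Cfsg.Agent.Known.Pres.AltSmall
import Cfsg.Agent.Chev.A1
import Cfsg.Agent.Chev.K2
import Cfsg.Agent.Classical.SmallIso

/-! Short presentations of `SL₂(q)` and `PSL₂(q)`. -/

set_option autoImplicit false

namespace CF.Known.Pres

open Function Polynomial Chev
open Matrix hiding of
open scoped commutatorElement
open FreeGroup (lift of lift_apply_of)

variable {F : Type*} [Field F] {H : Type*} [Group H]

theorem sl2_core [Finite F] {x : F → H} (hx : Addv x) {h t : H} {ζ : Fˣ} (hζ : IsGen ζ)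
    (h1 : ∀ a, h * x a * h⁻¹ = x ((ζ : F) ^ 2 * a)) (h2 : t * h * t⁻¹ = h⁻¹)
    (h3 : ∀ k : ℕ, x (ζ ^ k) * (t * x ((ζ : F) ^ k)⁻¹ * t⁻¹) * x (ζ ^ k) = h ^ k * t) :
    ∃ θ : SpecialLinearGroup (Fin 2) F →* H, (∀ a, θ (sl2x F true a) = x a) ∧
      θ ((sl2Rep F).h true ζ) = h ∧ θ ((sl2Rep F).n true 1) = t := by
  have h4 : ∀ a : Fˣ, ∃ k : ℕ, ζ ^ k = a ∧ x a * (t * x (a⁻¹ : Fˣ) * t⁻¹) * x a = h ^ k * t :=
    fun a => by
      obtain ⟨k, rfl⟩ := hζ a
      exact ⟨k, rfl, by simpa using h3 k⟩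
  have h0 : x 1 * (t * x 1 * t⁻¹) * x 1 = t := by simpa using h3 0
  have h5 : ∀ k : ℕ, h ^ k * t = t * (h ^ k)⁻¹ := fun k => by
    have : t * h⁻¹ * t⁻¹ = h := by rw [← conj_inv, h2, inv_inv]
    conv_lhs => rw [← this, conj_pow, inv_pow]
    group
  have h6 : ∀ (k : ℕ) (u : F), h ^ k * t * x u * (h ^ k * t)⁻¹ =
      t * x ((((ζ ^ k)⁻¹ : Fˣ) : F) ^ 2 * u) * t⁻¹ := fun k u => by
    have := pow_conj h1 k ((((ζ ^ k)⁻¹ : Fˣ) : F) ^ 2 * u)
    rw [show ((ζ : F) ^ 2) ^ k * ((((ζ ^ k)⁻¹ : Fˣ) : F) ^ 2 * u) = u by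
      simp only [Units.val_inv_eq_inv_val, Units.val_pow_eq_pow_val]
      field_simp; ring] at this
    rw [h5, ← this]; group
  have h7 : ∀ u, t * (t * x u * t⁻¹) * t⁻¹ = x u := fun u => by
    obtain ⟨k, hk, e⟩ := h4 (-1)
    have e1 : h ^ k * t = t⁻¹ := by
      rw [← e, eq_inv_iff_mul_eq_one]
      nth_rewrite 3 [← h0]
      simp only [inv_neg, inv_one, Units.val_neg, Units.val_one, hx.neg]
      group
    have := h6 k u
    rw [e1, hk] at this
    simp only [inv_neg, inv_one, Units.val_neg, Units.val_one, even_two, Even.neg_pow, one_pow,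
      one_mul] at this
    rw [← this]; group
  let σ : PreSt cbA1 F H := {
    x := fun r a => if r then x a else t * x (-a) * t⁻¹
    x_add := fun r a b => by
      cases r
      · simp only [Bool.false_eq_true, if_false, neg_add, hx _ _]; group
      · exact hx a b
    comm := fun r s h1 h2 => absurd h2 (by rw [cbA1_neg]; revert r s; decide) }
  have n1 : ∀ a : Fˣ, σ.n true a = x a * (t * x (a⁻¹ : Fˣ) * t⁻¹) * x a := fun a => by
    simp [PreSt.n, σ, cbA1_neg]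
  have n2 : ∀ (a : Fˣ) u, σ.n true a * x u * (σ.n true a)⁻¹ =
      t * x (((a⁻¹ : Fˣ) : F) ^ 2 * u) * t⁻¹ := fun a u => by
    obtain ⟨k, rfl, e⟩ := h4 a
    rw [n1, e, h6]
  let ρ : StRep cbA1 F H := { σ with
    nrel := fun r a u => by
      cases r
      · have e : σ.n false a = t * σ.n true (-a) * t⁻¹ := by
          rw [n1]
          simp only [PreSt.n, σ, cbA1_neg, Bool.false_eq_true, if_false, Bool.not_false, if_true]
          rw [← h7 (-((a⁻¹ : Fˣ) : F))]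
          simp [mul_assoc]
        change σ.n false a * (t * x (-u) * t⁻¹) * (σ.n false a)⁻¹ = x _
        have e2 := n2 (-a) (-(((a : Fˣ) : F) ^ 2 * (-((a⁻¹ : Fˣ) : F) ^ 2 * u)))
        have e3 := n2 (-a) (-u)
        rw [e, ← h7 (-((a⁻¹ : Fˣ) : F) ^ 2 * u), show t * σ.n true (-a) * t⁻¹ * (t * x (-u) * t⁻¹) *
          (t * σ.n true (-a) * t⁻¹)⁻¹ = t * (σ.n true (-a) * x (-u) * (σ.n true (-a))⁻¹) * t⁻¹ by
            group, e3]
        simp
      · change σ.n true a * x u * (σ.n true a)⁻¹ = t * x _ * t⁻¹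
        rw [n2]; simp }
  obtain ⟨θ, hθ⟩ := exists_hom_sl2_A1 ρ.r3_of_finite
  have hn : ∀ a, θ ((sl2Rep F).n true a) = σ.n true a := fun a => by
    simp only [PreSt.n, map_mul, sl2Rep_x, hθ]; rfl
  have n0 : σ.n true 1 = t := by rw [n1]; simpa using h0
  refine ⟨θ, hθ true, ?_, (hn 1).trans n0⟩
  rw [PreSt.h, map_mul, hn, hn, ← σ.n_inv, n0, n1]
  have := h3 1
  simp only [pow_one] at this
  rw [Units.val_inv_eq_inv_val, this]; group

theorem sl2_step {x : F → H} {h t : H} {ζ : Fˣ} (h1 : ∀ a, h * x a * h⁻¹ = x ((ζ : F) ^ 2 * a))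
    (h2 : t * h * t⁻¹ = h⁻¹) {k : ℕ}
    (h3 : x (ζ ^ k) * (t * x ((ζ : F) ^ k)⁻¹ * t⁻¹) * x (ζ ^ k) = h ^ k * t) :
    x (ζ ^ (k + 2)) * (t * x ((ζ : F) ^ (k + 2))⁻¹ * t⁻¹) * x (ζ ^ (k + 2)) = h ^ (k + 2) * t := by
  have e1 := h1 ((ζ : F) ^ k)
  have e2 := inv_conj h1 (pow_ne_zero 2 ζ.ne_zero) ((ζ : F) ^ k)⁻¹
  rw [← pow_add, add_comm] at e1
  rw [← mul_inv, ← pow_add, add_comm] at e2
  have e3 : h * t = t * h⁻¹ := by
    rw [← mul_inv_eq_iff_eq_mul.1 (show t * h⁻¹ * t⁻¹ = h by rw [← conj_inv, h2, inv_inv])]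
  have e4 : h * (h ^ k * t) * h⁻¹ = h ^ (k + 2) * t := by
    rw [mul_assoc, mul_assoc, ← e3]; group
  rw [← e1, ← e2, ← e4, ← h3]
  calc _ = h * x (ζ ^ k) * (h⁻¹ * (t * h⁻¹)) * x ((ζ : F) ^ k)⁻¹ * (h⁻¹ * (t * h⁻¹))⁻¹ *
      x (ζ ^ k) * h⁻¹ := by group
    _ = _ := by rw [← e3]; group

theorem sl2_rels (ζ : Fˣ) :
    (∀ a, (sl2Rep F).h true ζ * sl2x F true a * ((sl2Rep F).h true ζ)⁻¹ =
      sl2x F true ((ζ : F) ^ 2 * a)) ∧
    (sl2Rep F).n true 1 * (sl2Rep F).h true ζ * ((sl2Rep F).n true 1)⁻¹ = ((sl2Rep F).h true ζ)⁻¹ ∧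
    (∀ a, (sl2Rep F).n true 1 * sl2x F true a * ((sl2Rep F).n true 1)⁻¹ = sl2x F false (-a)) ∧
    ∀ a : Fˣ, sl2x F true a * ((sl2Rep F).n true 1 * sl2x F true (a : F)⁻¹ *
      ((sl2Rep F).n true 1)⁻¹) * sl2x F true a = (sl2Rep F).h true a * (sl2Rep F).n true 1 := by
  have h3 : ∀ a, (sl2Rep F).n true 1 * sl2x F true a * ((sl2Rep F).n true 1)⁻¹ =
      sl2x F false (-a) := fun a => by
    simpa [sl2Rep_x, cbA1_neg] using (sl2Rep F).nrel true 1 a
  refine ⟨fun a => by simpa [sl2Rep_x] using (sl2Rep F).h_conj_x true ζ true a, ?_, h3, fun a => ?_⟩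
  · rw [StRep.n_one_conj_h, r3_sl2Rep, eq_inv_iff_mul_eq_one, r3_sl2Rep]
    simp only [RootSys.A_self]
    rw [show ζ * ζ ^ (-2 : ℤ) * ζ = 1 by group, PreSt.h_one]
  · rw [h3, ← PreSt.n_eq_h_mul, PreSt.n]
    simp [sl2Rep_x, cbA1_neg]

theorem addv_sl2x (r : Bool) : Addv (sl2x F r) := (sl2Rep F).x_add r

theorem sl2_gen [Finite F] {ζ : Fˣ} (hζ : IsGen ζ) : Subgroup.closure (Set.range
    ![sl2x F true 1, (sl2Rep F).h true ζ, (sl2Rep F).n true 1]) = ⊤ := by
  obtain ⟨h1, -, h3, -⟩ := sl2_rels (F := F) ζ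
  set C := Subgroup.closure (Set.range
    ![sl2x F true 1, (sl2Rep F).h true ζ, (sl2Rep F).n true 1])
  have m0 : sl2x F true 1 ∈ C := Subgroup.subset_closure ⟨0, rfl⟩
  have m1 : (sl2Rep F).h true ζ ∈ C := Subgroup.subset_closure ⟨1, rfl⟩
  have m2 : (sl2Rep F).n true 1 ∈ C := Subgroup.subset_closure ⟨2, rfl⟩
  have h4 : ∀ a, sl2x F true a ∈ C := fun a => by
    have ha : a ∈ AddSubgroup.closure _ := hζ.closure_sq ▸ AddSubgroup.mem_top a
    induction ha using AddSubgroup.closure_induction with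
    | mem a ha =>
      obtain ⟨i, rfl⟩ := ha
      simp only [← cj_eq h1]
      exact mul_mem (mul_mem (pow_mem m1 _) m0) (inv_mem (pow_mem m1 _))
    | zero => rw [(addv_sl2x (F := F) true).zero]; exact one_mem _
    | add a b _ _ ha hb => rw [addv_sl2x]; exact mul_mem ha hb
    | neg a _ ha => rw [(addv_sl2x (F := F) true).neg]; exact inv_mem ha
  rw [eq_top_iff, ← sl2Rep_Gp, PreSt.U_le_iff]
  rintro (_ | _) - a
  · rw [sl2Rep_x, ← neg_neg a, ← h3]
    exact mul_mem (mul_mem m2 (h4 _)) (inv_mem m2)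
  · exact h4 a

theorem sl2_inj {ζ : Fˣ} {y : Fin 3 → H} {φ : H →* SpecialLinearGroup (Fin 2) F}
    (hgen : Subgroup.closure (Set.range y) = ⊤)
    (hφ : ∀ i, φ (y i) = ![sl2x F true 1, (sl2Rep F).h true ζ, (sl2Rep F).n true 1] i)
    {x : F → H} (hx : x 1 = y 0) (h : ∃ θ : SpecialLinearGroup (Fin 2) F →* H,
      (∀ a, θ (sl2x F true a) = x a) ∧ θ ((sl2Rep F).h true ζ) = y 1 ∧
        θ ((sl2Rep F).n true 1) = y 2) : Injective φ := by
  obtain ⟨θ, h1, h2, h3⟩ := h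
  refine injective_of_section (ψ := θ) hgen fun i => ?_
  rw [hφ]
  fin_cases i
  exacts [(h1 1).trans hx, h2, h3]

theorem exists_sign (h2 : (2 : F) ≠ 0) (η : F) : ∃ ε : ℤ, (ε = 1 ∨ ε = -1) ∧ 1 + ε * η ≠ 0 := by
  by_contra h
  push Not at h
  have h1 := h 1 (.inl rfl)
  have h3 := h (-1) (.inr rfl)
  exact h2 (by push_cast at h1 h3; linear_combination h1 + h3)

theorem hasPres_SL2_odd [Finite F] (h2 : (2 : F) ≠ 0) :
    HasPres 3 8 (SpecialLinearGroup (Fin 2) F) := by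
  obtain ⟨ζ, hζ⟩ := exists_isGen F
  obtain ⟨p, hp⟩ := CharP.exists F
  haveI : Fact p.Prime := ⟨(CharP.char_is_prime_or_zero F p).resolve_right (CharP.char_ne_zero_of_finite F p)⟩
  obtain ⟨f, hf⟩ := exists_isMin p hζ.closure_sq
  obtain ⟨ε, hε, h1⟩ := exists_sign h2 ((ζ : F) ^ 2)
  obtain ⟨j, hj⟩ := hζ.exists_pow h1
  obtain ⟨g1, hg1⟩ := hf.2.2 ζ
  obtain ⟨g2, hg2⟩ := hf.2.2 (ζ : F)⁻¹
  obtain ⟨r1, r2, -, r4⟩ := sl2_rels (F := F) ζ
  have hx := addv_sl2x (F := F) true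
  refine PresOn.hasPres (PresOn.of_list [of 0 ^ p, ⁅of (0 : Fin 3), cj (of 1) (of 0) 1⁆,
    ⁅of (0 : Fin 3), cj (of 1) (of 0) 2⁆, of 1 ^ j * of 0 * (of 1 ^ j)⁻¹ *
      (of 0 * cj (of 1) (of 0) 1 ^ (2 * ε) * cj (of 1) (of 0) 2)⁻¹, evW f (of 1) (of 0),
    of 2 * of 1 * (of 2)⁻¹ * of 1, of 0 * (of 2 * of 0 * (of 2)⁻¹) * of 0 * (of 2)⁻¹,
    evW g1 (of 1) (of 0) * (of 2 * evW g2 (of 1) (of 0) * (of 2)⁻¹) * evW g1 (of 1) (of 0) *
      (of 1 * of 2)⁻¹] le_rfl (sl2_gen hζ) ?_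
    fun H _ y φ hy hgen hφ => ?_)
  · simp only [List.forall_mem_cons, map_mul, map_inv, map_pow, map_zpow, map_cj, map_evW,
      map_commutatorElement, map_lift, lift_apply_of, cons_val_zero, cons_val_one, cons_val,
      mul_inv_eq_one, commutatorElement_eq_one_iff_commute, cj_eq r1]
    refine ⟨by rw [← hx.nsmul]; simp [hx.zero], hx.commute _ _, hx.commute _ _, ?_, ?_,
      by rw [r2, inv_mul_cancel], by simpa using r4 1, ?_, by simp⟩
    · rw [pow_conj r1, ← hx.zsmul, ← hx, ← hx, ← pow_mul, mul_comm 2, pow_mul, hj]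
      congr 1
      rcases hε with rfl | rfl <;> simp <;> ring
    · rw [evW_eq hx r1, hf.1, hx.zero]
    · simp only [evW_eq hx r1, hg1, hg2, r4]
  · simp only [List.forall_mem_cons, map_mul, map_inv, map_pow, map_zpow, map_cj, map_evW,
      map_commutatorElement, map_lift, lift_apply_of, mul_inv_eq_one,
      commutatorElement_eq_one_iff_commute] at hy
    obtain ⟨e1, e2, e3, e4, e5, e6, e7, e8, -⟩ := hy
    obtain ⟨x, hx, x1, hc⟩ := hf.exists_addv e1 (baumslag_two (Commute.pow_self _ j) e4 e2 e3) e5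
    rw [mul_eq_one_iff_eq_inv] at e6
    refine sl2_inj hgen hφ x1 (sl2_core hx hζ hc e6 fun k => ?_)
    induction k using Nat.twoStepInduction with
    | zero => simpa [x1] using e7
    | one =>
      rw [← x1, evW_eq hx hc, evW_eq hx hc, hg1, hg2] at e8
      simpa using e8
    | more k ih _ => exact sl2_step hc e6 ih

theorem hasPres_S3 : HasPres 2 2 (Equiv.Perm (Fin 3)) := by
  refine PresOn.hasPres (x := ![Equiv.swap 0 1, c3 0 1 2]) (PresOn.of_list
    [of 0 ^ 2, of 0 * of 1 * (of 0)⁻¹ * (of 1 ^ 2)⁻¹] le_rfl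
    ((show CycDat (0 : Fin 3) 1 2 (Equiv.swap 0 1) (-1) 1 by unfold CycDat; decide).presOn_perm
      (by decide)).closure_eq (by simp; decide) fun H _ y φ hy hgen hφ => ?_)
  simp only [List.forall_mem_cons, map_mul, map_inv, map_pow, lift_apply_of, mul_inv_eq_one] at hy
  obtain ⟨e1, e2, -⟩ := hy
  have e3 : y 1 ^ 3 = 1 := by
    have : y 0 ^ 2 * y 1 * (y 0 ^ 2)⁻¹ = y 1 ^ 4 := by
      rw [show (4 : ℕ) = 2 * 2 by rfl, pow_mul, ← e2, conj_pow, ← e2]; simp [pow_two, mul_assoc]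
    rw [e1, pow_succ] at this
    simpa using this
  obtain ⟨w, -, hw⟩ := exists_altWord' (α := (0 : Fin 3)) (β := 1) (by decide) (T := {2})
    (by decide) (by decide)
  obtain ⟨hW, hc⟩ := hw H (fun _ => y 1) ⟨fun _ _ => e3, by simp⟩
  have e : insert (0 : Fin 3) (insert 1 {2} : Finset (Fin 3)) = Finset.univ := by decide
  have hW' := hW
  rw [e, altOn_univ] at hW'
  have c2 := hc 2 (by simp)
  have m2 : c3 (0 : Fin 3) 1 2 ∈ alternatingGroup (Fin 3) := sign_c3 (by decide) (by decide)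
  obtain ⟨ψ, h1, h2⟩ := exists_hom_perm hW' (t := Equiv.swap 0 1) (by decide) (y := y 0)
    (fun g hg => PHom.ext_c3 (α := (0 : Fin 3)) (β := 1) (by decide) (T := {2}) (by decide)
      (by decide) (hW.conjL _) (hW.conjR _ fun g hg => by
        rw [e, altOn_univ] at hg ⊢
        exact (alternatingGroup.normal).conj_mem _ hg _) (fun i hi => by
        rw [Finset.mem_singleton.1 hi, c2, e2, show Equiv.swap 0 1 * c3 0 1 2 *
          (Equiv.swap (0 : Fin 3) 1)⁻¹ = c3 0 1 2 ^ 2 by decide, hW'.pow m2, c2])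
      (by rwa [e, altOn_univ])) (by rw [e1, show Equiv.swap (0 : Fin 3) 1 ^ 2 = 1 by decide, hW.one])
  refine injective_of_section (ψ := ψ) hgen fun i => ?_
  rw [hφ]
  fin_cases i
  exacts [h2, (h1 _ m2).trans c2]

theorem hasPres_SL2_even [Finite F] (h2 : (2 : F) = 0) :
    HasPres 3 5 (SpecialLinearGroup (Fin 2) F) := by
  by_cases hq : Nat.card F = 2
  · obtain ⟨e⟩ := Classical.SL2_two_equiv hq
    exact (hasPres_S3.of_equiv e.symm).add' (by norm_num) (by norm_num)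
  cases nonempty_fintype F
  obtain ⟨ζ, hζ⟩ := exists_isGen F
  haveI : CharP F 2 := CharTwo.of_one_ne_zero_of_two_eq_zero one_ne_zero h2
  obtain ⟨f, hf⟩ := exists_isMin 2 hζ.closure_sq
  have ho := hζ.orderOf
  have hodd : Odd (Fintype.card F - 1) := Nat.Even.sub_odd Fintype.card_pos
    (FiniteField.even_card_iff_char_two.1 (ringChar.eq F 2) |> Nat.even_iff.2) odd_one
  have h1 : 1 + (ζ : F) ≠ 0 := fun h => by
    have : ζ = 1 := Units.ext (by rw [Units.val_one]; linear_combination h - h2)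
    rw [this, orderOf_one] at ho
    exact hq (by rw [Nat.card_eq_fintype_card]; omega)
  obtain ⟨j, hj⟩ := hζ.exists_pow h1
  obtain ⟨r1, r2, -, r4⟩ := sl2_rels (F := F) ζ
  have hx := addv_sl2x (F := F) true
  refine PresOn.hasPres (PresOn.of_list [of 0 ^ 2,
    of 1 ^ j * of 0 * (of 1 ^ j)⁻¹ * (of 0 * cj (of 1) (of 0) 1)⁻¹,
    evW f (of 1) (of 0) * (of 1 ^ (Fintype.card F - 1))⁻¹, of 2 * of 1 * (of 2)⁻¹ * of 1,
    of 0 * (of 2 * of 0 * (of 2)⁻¹) * of 0 * (of 2)⁻¹] le_rfl (sl2_gen hζ) ?_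
    fun H _ y φ hy hgen hφ => ?_)
  · simp only [List.forall_mem_cons, map_mul, map_inv, map_pow, map_cj, map_evW,
      lift_apply_of, cons_val_zero, cons_val_one, cons_val, mul_inv_eq_one, cj_eq r1]
    refine ⟨by rw [← hx.nsmul]; simp [hx.zero, h2], ?_, ?_, by rw [r2, inv_mul_cancel],
      by simpa using r4 1, by simp⟩
    · rw [pow_conj r1, ← hx, ← pow_mul, mul_comm 2, pow_mul, hj]
      congr 1
      linear_combination (ζ : F) * h2
    · rw [evW_eq hx r1, hf.1, hx.zero, ← ho]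
      exact ((map_pow ((r3_sl2Rep F).hHom true) _ _).symm.trans (by simp)).symm
  · simp only [List.forall_mem_cons, map_mul, map_inv, map_pow, map_cj, map_evW,
      lift_apply_of, mul_inv_eq_one] at hy
    obtain ⟨e1, e2, e3, e6, e7, -⟩ := hy
    have hc := baumslag_sq (Commute.pow_self _ j) e1 e2
    have key : ∀ v ∈ Subgroup.closure (Set.range (cj (y 1) (y 0))),
        y 1 ^ j * v * (y 1 ^ j)⁻¹ = v * (y 1 * v * (y 1)⁻¹) := fun v hv => by
      have hc' : ∀ a ∈ Subgroup.closure (Set.range (cj (y 1) (y 0))),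
          ∀ b ∈ Subgroup.closure (Set.range (cj (y 1) (y 0))), Commute (y 1 * a * (y 1)⁻¹) b :=
        fun a ha b hb => commute_of_closure (A := Set.range fun i => cj (y 1) (y 0) (1 + i)) (by
          rintro _ ⟨i, rfl⟩ _ ⟨k, rfl⟩
          exact commute_cj (n := 1 + i + k) (fun i _ => hc i) (by omega) (by omega)) (by
          have := Subgroup.mem_map_of_mem (MulAut.conj (y 1)).toMonoidHom ha
          rw [MonoidHom.map_closure, ← Set.range_comp] at this
          simpa [cj_add, comp_def] using this) hb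
      induction hv using Subgroup.closure_induction with
      | mem v hv =>
        obtain ⟨i, rfl⟩ := hv
        rw [← cj_add, add_comm, cj_add, cj.eq_1 _ _ j, e2, cj_one, cj]; group
      | one => simp
      | mul a b ha hb iha ihb =>
        calc _ = y 1 ^ j * a * (y 1 ^ j)⁻¹ * (y 1 ^ j * b * (y 1 ^ j)⁻¹) := by group
          _ = a * (y 1 * a * (y 1)⁻¹ * b) * (y 1 * b * (y 1)⁻¹) := by rw [iha, ihb]; group
          _ = _ := by rw [(hc' a ha b hb).eq]; group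
      | inv a ha iha =>
        calc _ = (y 1 ^ j * a * (y 1 ^ j)⁻¹)⁻¹ := by group
          _ = (y 1 * a * (y 1)⁻¹ * a)⁻¹ := by rw [iha, (hc' a ha a ha).eq]
          _ = _ := by group
    have e4 : y 1 ^ (Fintype.card F - 1) = 1 := by
      have := key _ (evW_mem f _ _)
      rw [e3, (Commute.pow_pow_self _ _ _).eq, (Commute.self_pow _ _).eq] at this
      simpa using this
    obtain ⟨x, hx, x1, hc⟩ := hf.exists_addv e1 hc (e3.trans e4)
    rw [mul_eq_one_iff_eq_inv] at e6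
    have e8 : ∀ k, x (ζ ^ (2 * k)) * (y 2 * x ((ζ : F) ^ (2 * k))⁻¹ * (y 2)⁻¹) * x (ζ ^ (2 * k)) =
        y 1 ^ (2 * k) * y 2 := fun k => by
      induction k with
      | zero => simpa [x1] using e7
      | succ k ih => exact sl2_step hc e6 ih
    refine sl2_inj hgen hφ x1 (sl2_core hx hζ hc e6 fun k => ?_)
    obtain ⟨m, hm⟩ := hodd
    have := e8 (k * (m + 1))
    rwa [show 2 * (k * (m + 1)) = (Fintype.card F - 1) * k + k by rw [hm]; ring, pow_add, pow_add,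
      pow_mul, pow_mul, e4, ← ho, ← Units.val_pow_eq_pow_val, pow_orderOf_eq_one, Units.val_one,
      one_pow, one_pow, one_mul, one_mul] at this

theorem isCyclic_center_SL (n : ℕ) (F : Type*) [Field F] [Finite F] :
    IsCyclic (Subgroup.center (SpecialLinearGroup (Fin n) F)) := by
  rcases n with _ | n
  · infer_instance
  · exact isCyclic_of_surjective _ (SpecialLinearGroup.center_equiv_rootsOfUnity'
      (R := F) (0 : Fin (n + 1))).symm.surjective

theorem hasPres_SL2 [Finite F] : HasPres 3 8 (SpecialLinearGroup (Fin 2) F) := by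
  by_cases h2 : (2 : F) = 0
  · exact (hasPres_SL2_even h2).mono (by norm_num)
  · exact hasPres_SL2_odd h2

theorem hasPres_PSL2 [Finite F] : HasPres 3 9 (ProjectiveSpecialLinearGroup (Fin 2) F) :=
  haveI := isCyclic_center_SL 2 F
  hasPres_SL2.quot_center

end CF.Known.Pres
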