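import Cfsg.Agent.Known.Pres.Aff
import Cfsg.Agent.Chev.Lift
import Cfsg.Agent.Chev.K2

/-! Lifting the Steinberg relations from finitely many of them, using a monomial group and a
torus. -/

set_option autoImplicit false

namespace CF.Known.Pres

open Function Chev
open scoped commutatorElement

section grp

variable {K : Type*} [Field K] {H : Type*} [Group H]

theorem cm_mul_left (a b c : H) : ⁅a * b, c⁆ = a * ⁅b, c⁆ * a⁻¹ * ⁅a, c⁆ := by
  simp only [commutatorElement_def]; group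

theorem cm_mul_right (a b c : H) : ⁅a, b * c⁆ = ⁅a, b⁆ * (b * ⁅a, c⁆ * b⁻¹) := by
  simp only [commutatorElement_def]; group

/-- The elements acting on an additive family by scalars. -/
def Nm (x : K → H) : Subgroup H where
  carrier := {g | ∃ c : Kˣ, ∀ t, g * x t * g⁻¹ = x (c * t)}
  one_mem' := ⟨1, by simp⟩
  mul_mem' := by
    rintro a b ⟨c, hc⟩ ⟨c', hc'⟩
    exact ⟨c * c', fun t => by rw [Units.val_mul, mul_assoc c.1, ← hc, ← hc']; group⟩
  inv_mem' := by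
    rintro a ⟨c, hc⟩
    exact ⟨c⁻¹, fun t => by simpa using inv_conj hc c.ne_zero t⟩

theorem conj_of_gen {x : K → H} (hx : Addv x) {η : K}
    (hη : AddSubgroup.closure (Set.range fun i : ℕ => η ^ i) = ⊤) {g h h' : H}
    (e1 : ∀ a, h * x a * h⁻¹ = x (η * a)) (e2 : ∀ a, h' * x a * h'⁻¹ = x (η * a))
    (e3 : g * h * g⁻¹ = h') {c : K} (e4 : g * x 1 * g⁻¹ = x c) (a : K) :
    g * x a * g⁻¹ = x (c * a) :=
  (hx.conj g).ext_of (hx.comp (AddMonoidHom.mulLeft c)) hη (by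
    rintro _ ⟨i, rfl⟩
    simp only [AddMonoidHom.coe_mulLeft]
    rw [← cj_eq e1, mul_comm c, ← pow_conj e2, ← e4, ← e3, conj_pow, cj]; group) a

theorem mem_Nm_of_gen {x : K → H} (hx : Addv x) {η : K}
    (hη : AddSubgroup.closure (Set.range fun i : ℕ => η ^ i) = ⊤) {g h : H}
    (e1 : ∀ a, h * x a * h⁻¹ = x (η * a)) (e3 : Commute g h) {c : Kˣ}
    (e4 : g * x 1 * g⁻¹ = x c) : g ∈ Nm x :=
  ⟨c, conj_of_gen hx hη e1 e1 (by rw [e3.eq]; group) e4⟩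

theorem eq_of_normalClosure {S G : Type*} [Group S] [Group G] {ψ : S →* H} {φ : S →* G}
    {θ : G →* H} (h : ∀ s a, ψ s * θ a * (ψ s)⁻¹ = θ (φ s * a * (φ s)⁻¹)) {Z : Set S}
    (hZ : Subgroup.normalClosure Z = ⊤) (e : ∀ z ∈ Z, ψ z = θ (φ z)) (s : S) : ψ s = θ (φ s) := by
  haveI : (ψ.eqLocus (θ.comp φ)).Normal := ⟨fun a ha g => by
    change ψ _ = θ _
    rw [map_mul, map_mul, map_inv, show ψ a = θ (φ a) from ha, h]; simp⟩
  exact Subgroup.normalClosure_le_normal (N := ψ.eqLocus (θ.comp φ)) e (hZ ▸ Subgroup.mem_top s)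

end grp

variable {B ι : Type} [Fintype B] [DecidableEq B] [Fintype ι] [DecidableEq ι]
  {C : ChevBasis B ι} {K : Type*} [Field K] {G : Type*} [Group G] {ρ : StRep C K G}
  {H : Type*} [Group H] {π : H →* G} {y : ι → K → H}

/-- A word in lifted root elements. -/
def yword (y : ι → K → H) (l : List (ι × K)) : H := (l.map fun p => y p.1 p.2).prod

omit [Fintype ι] [DecidableEq ι] [Field K] in
theorem map_yword {H' : Type*} [Group H'] (f : H →* H') (y : ι → K → H) (l : List (ι × K)) :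
    f (yword y l) = yword (fun r t => f (y r t)) l := by
  simp [yword, map_list_prod, comp_def]

theorem yword_x (ρ : PreSt C K G) (l : List (ι × K)) : yword ρ.x l = ρ.word l := rfl

/-- The relator of the commutator formula. -/
noncomputable def cmRel (C : ChevBasis B ι) (y : ι → K → H) (q : ι × ι × K × K) : H :=
  ⁅y q.1 q.2.2.1, y q.2.1 q.2.2.2⁆ * (yword y (C.commWord q.2.1 q.1 (-q.2.2.2) (-q.2.2.1)))⁻¹

theorem map_cmRel {H' : Type*} [Group H'] (f : H →* H') (y : ι → K → H) (q : ι × ι × K × K) :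
    f (cmRel C y q) = cmRel C (fun r t => f (y r t)) q := by
  simp [cmRel, map_yword, map_commutatorElement]

theorem cmRel_x (ρ : PreSt C K G) {q : ι × ι × K × K} (h1 : q.1 ≠ q.2.1)
    (h2 : q.1 ≠ C.neg q.2.1) : cmRel C ρ.x q = 1 := by
  rw [cmRel, ρ.commutator_eq h1 h2, yword_x, mul_inv_cancel]

/-- The commutator relation up to coefficients. -/
def Cm (C : ChevBasis B ι) (y : ι → K → H) (r s : ι) (t u : K) : Prop :=
  ⁅y r t, y s u⁆ ∈ LU y (C.Tr r s)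

theorem cm_of_cmRel {q : ι × ι × K × K} (h : cmRel C y q = 1) :
    Cm C y q.1 q.2.1 q.2.2.1 q.2.2.2 := by
  rw [Cm, mul_inv_eq_one.1 h, C.Tr_comm]
  exact Subgroup.list_prod_mem _ fun y hy => by
    obtain ⟨p, hp, rfl⟩ := List.mem_map.1 hy
    exact mem_LU (S := C.Tr _ _) (C.commWord_spec hp) _

/-- Lifts of the root elements. -/
structure Lf (ρ : StRep C K G) (π : H →* G) (y : ι → K → H) : Prop where
  map : ∀ r t, π (y r t) = ρ.x r t
  add : ∀ r, Addv (y r)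

/-- `g` permutes the lifted root elements as `w`. -/
def LA (ρ : StRep C K G) (π : H →* G) (y : ι → K → H) (g : H) (w : Equiv.Perm ι) : Prop :=
  ρ.Acts (π g) w ∧ ∀ r t, ∃ t', g * y r t * g⁻¹ = y (w r) t'

theorem LA.conj (hF : ρ.Faithful) (L : Lf ρ π y) {g : H} {w : Equiv.Perm ι} (h : LA ρ π y g w)
    {r : ι} {t t' : K} (e : π g * ρ.x r t * (π g)⁻¹ = ρ.x (w r) t') :
    g * y r t * g⁻¹ = y (w r) t' := by
  obtain ⟨t'', e'⟩ := h.2 r t
  have := congrArg π e'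
  rw [map_mul, map_mul, map_inv, L.map, L.map, e] at this
  rw [e', hF.x_injective _ this]

theorem LA.exists_conj (hF : ρ.Faithful) (L : Lf ρ π y) {g : H} {w : Equiv.Perm ι}
    (h : LA ρ π y g w) (r : ι) : ∃ c : Kˣ, ∀ t, g * y r t * g⁻¹ = y (w r) (c * t) := by
  obtain ⟨c, e⟩ := h.1.exists_conj_x r
  exact ⟨c, fun t => h.conj hF L (e t)⟩

theorem LA.cm {g : H} {w : Equiv.Perm ι} (h : LA ρ π y g w) {r s : ι} {t u t' u' : K}
    (e : g * y r t * g⁻¹ = y (w r) t') (e' : g * y s u * g⁻¹ = y (w s) u')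
    (hc : Cm C y r s t u) : Cm C y (w r) (w s) t' u' := by
  rw [Cm, ← e, ← e', ← conjugate_commutatorElement]
  refine (Subgroup.closure_le ((LU y (C.Tr (w r) (w s))).comap (MulAut.conj g).toMonoidHom)).2 ?_ hc
  rintro _ ⟨v, ⟨i, j, hi, hj, hv⟩, a, rfl⟩
  obtain ⟨a', ha⟩ := h.2 v a
  change g * y v a * g⁻¹ ∈ LU y (C.Tr (w r) (w s))
  rw [ha]
  exact mem_LU (S := C.Tr (w r) (w s))
    ⟨i, j, hi, hj, by simp only [RootSys.vec_aut h.1.1, hv, map_add, map_zsmul]⟩ _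

theorem LA.conj_hom (hF : ρ.Faithful) (hG : ρ.Gp = ⊤) (L : Lf ρ π y) {θ : G →* H}
    (hθ : ∀ r t, θ (ρ.x r t) = y r t) {g : H} {w : Equiv.Perm ι} (h : LA ρ π y g w) (a : G) :
    g * θ a * g⁻¹ = θ (π g * a * (π g)⁻¹) :=
  DFunLike.congr_fun (StRep.hom_ext hG (f := (MulAut.conj g).toMonoidHom.comp θ)
    (g := θ.comp (MulAut.conj (π g)).toMonoidHom) fun r t => by
      obtain ⟨c, e⟩ := h.1.exists_conj_x r
      change g * θ _ * g⁻¹ = θ (π g * _ * (π g)⁻¹)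
      rw [e, hθ, hθ, h.conj hF L (e t)]) a

/-- The pairs in `E` generate all pairs under biadditivity and the torus. -/
def Spans (C : ChevBasis B ι) (ζ : Kˣ) (Γ : Set ι) (r s : ι) (E : Set (K × K)) : Prop :=
  ∀ P : K → K → Prop, (∀ t t' u, P t u → P t' u → P (t + t') u) →
    (∀ t u u', P t u → P t u' → P t (u + u')) → (∀ t, P t 0) → (∀ u, P 0 u) →
    (∀ γ ∈ Γ, ∀ t u, P t u → P ((ζ ^ C.A γ r : Kˣ) * t) ((ζ ^ C.A γ s : Kˣ) * u)) →
    (∀ p ∈ E, P p.1 p.2) → ∀ t u, P t u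

theorem exists_st (hF : ρ.Faithful) (h1 : C.NoA1) (L : Lf ρ π y) {S : Type*} {ψ : S → H}
    {w : S → Equiv.Perm ι} (hψ : ∀ s, LA ρ π y (ψ s) (w s)) {ζ : Kˣ} {Γ : Set ι}
    (hΓ : ∀ s, ∀ γ ∈ Γ, w s γ ∈ Γ) {D : ι → H}
    (hD : ∀ γ ∈ Γ, LA ρ π y (D γ) 1 ∧ π (D γ) = ρ.h γ ζ) {LC : List (ι × ι × K × K)}
    (hLC : ∀ q ∈ LC, cmRel C y q = 1)
    (hcov : ∀ r s, s ≠ r → s ≠ C.neg r → ∃ σ r₀ s₀, ((w σ r₀ = r ∧ w σ s₀ = s) ∨
      (w σ r₀ = s ∧ w σ s₀ = r)) ∧ Spans C ζ Γ r₀ s₀ {p | (r₀, s₀, p) ∈ LC}) :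
    ∃ σ : StRep C K H, σ.x = y := by
  refine ⟨PreSt.toSt ⟨y, L.add, fun _ _ => comm_of_ctx hF L.map L.add fun r s e1 e2 hc => ?_⟩ h1,
    rfl⟩
  have key : ∀ σ r₀ s₀, Spans C ζ Γ r₀ s₀ {p | (r₀, s₀, p) ∈ LC} →
      Ctx C π y (w σ r₀) (w σ s₀) → Rel C y (w σ r₀) (w σ s₀) := fun σ r₀ s₀ hs hc t u => by
    obtain ⟨c, e⟩ := (hψ σ).exists_conj hF L r₀
    obtain ⟨c', e'⟩ := (hψ σ).exists_conj hF L s₀
    have := hs (fun t u => Cm C y (w σ r₀) (w σ s₀) (c * t) (c' * u)) (fun t t' u h h' => by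
      simp only [Cm, mul_add, L.add _ _ _] at h h' ⊢
      rw [cm_mul_left]
      exact mul_mem ((Subgroup.mem_normalizer_iff.1 (hc.nr _) _).1 h') h) (fun t u u' h h' => by
      simp only [Cm, mul_add, L.add _ _ _] at h h' ⊢
      rw [cm_mul_right]
      exact mul_mem h ((Subgroup.mem_normalizer_iff.1 (hc.ns _) _).1 h'))
      (fun t => by simp [Cm, (L.add _).zero]) (fun u => by simp [Cm, (L.add _).zero])
      (fun γ hγ t u h => by
        obtain ⟨d1, d2⟩ := hD _ (hΓ σ γ hγ)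
        have hA := RootSys.A_aut (hψ σ).1.1 γ
        refine d1.cm (r := w σ r₀) (s := w σ s₀) (d1.conj hF L ?_) (d1.conj hF L ?_) h
        · rw [d2, ρ.h_conj_x, hA, mul_left_comm]; rfl
        · rw [d2, ρ.h_conj_x, hA, mul_left_comm]; rfl)
      (fun p hp => (hψ σ).cm (e p.1) (e' p.2) (cm_of_cmRel (q := (r₀, s₀, p)) (hLC _ hp)))
      ((c⁻¹ : Kˣ) * t) ((c'⁻¹ : Kˣ) * u)
    simpa only [Units.mul_inv_cancel_left, Cm] using this
  obtain ⟨σ, r₀, s₀, ⟨rfl, rfl⟩ | ⟨rfl, rfl⟩, hs⟩ := hcov r s e1 e2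
  · exact key σ r₀ s₀ hs hc
  · exact (key σ r₀ s₀ hs hc.symm).symm

/-- `G` is presented by the Steinberg relations and the words in `LK`. -/
def StPres (ρ : StRep C K G) (LK : List (List (ι × K))) : Prop :=
  (∀ l ∈ LK, ρ.word l = 1) ∧ ∀ (H : Type) [Group H] (σ : StRep C K H), (∀ l ∈ LK, σ.word l = 1) →
    ∃ θ : G →* H, ∀ r t, θ (ρ.x r t) = σ.x r t

theorem exists_word_tor (c : B → Kˣ) : ∃ l : List (ι × K),
    (∀ h : ρ.R3, ρ.word l = h.tor c) ∧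
      ∀ (H : Type) [Group H] (σ : StRep C K H) (h : σ.R3), σ.word l = h.tor c := by
  induction c using Pi.mulSingle_induction with
  | one => exact ⟨[], by simp, by simp⟩
  | mul f g hf hg =>
    obtain ⟨l, h1, h2⟩ := hf
    obtain ⟨l', h1', h2'⟩ := hg
    exact ⟨l ++ l', fun h => by rw [PreSt.word_append, h1 h, h1' h, map_mul],
      fun H _ σ h => by rw [PreSt.word_append, h2 H σ h, h2' H σ h, map_mul]⟩
  | mulSingle i t =>
    refine ⟨[(C.simple i, t), (C.neg (C.simple i), -((t⁻¹ : Kˣ) : K)), (C.simple i, t),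
      (C.simple i, -1), (C.neg (C.simple i), 1), (C.simple i, -1)], fun h => ?_, fun H _ σ h => ?_⟩ <;>
    simp [h.tor_single, PreSt.h, PreSt.n, mul_assoc]

theorem stPres_of_inj [Finite K] (hF : ρ.Faithful) (hG : ρ.Gp = ⊤)
    (h : Injective ρ.r3_of_finite.tor) : StPres ρ [] :=
  ⟨by simp, fun _ _ σ _ => StRep.exists_hom_of_tor hF hG ρ.r3_of_finite σ.r3_of_finite
    fun c hc => by rw [(injective_iff_map_eq_one _).1 h c hc, map_one]⟩

theorem exists_stPres [Finite K] (hF : ρ.Faithful) (hG : ρ.Gp = ⊤) {c : B → Kˣ}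
    (h : ρ.r3_of_finite.tor.ker = Subgroup.zpowers c) : ∃ l, StPres ρ [l] := by
  obtain ⟨l, h1, h2⟩ := exists_word_tor (ρ := ρ) c
  refine ⟨l, by simpa [h1 ρ.r3_of_finite, ← MonoidHom.mem_ker, h], fun H _ σ hσ =>
    StRep.exists_hom_of_tor hF hG ρ.r3_of_finite σ.r3_of_finite fun c' hc => ?_⟩
  obtain ⟨k, rfl⟩ : c' ∈ Subgroup.zpowers c := h ▸ hc
  rw [map_zpow, ← h2, hσ l (by simp), one_zpow]

/-- A group acting monomially on the root subgroups, with orbit representatives. -/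
structure Mono (ρ : StRep C K G) (S : Type*) [Group S] (κ : Type) where
  φ : S →* G
  w : S →* Equiv.Perm ι
  acts : ∀ s, ρ.Acts (φ s) (w s)
  α : κ → ι
  base : ι → κ
  sec : ι → S
  sec_spec : ∀ r, w (sec r) (α (base r)) = r
  base_w : ∀ s r, base (w s r) = base r
  base_α : ∀ k, base (α k) = k

namespace Mono

variable {S : Type*} [Group S] {κ : Type} (M : Mono ρ S κ)

/-- The scalars of the monomial action. -/
noncomputable def c (s : S) (r : ι) : Kˣ := ((M.acts s).exists_conj_x r).choose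

theorem c_spec (s : S) (r : ι) (t : K) :
    M.φ s * ρ.x r t * (M.φ s)⁻¹ = ρ.x (M.w s r) (M.c s r * t) :=
  ((M.acts s).exists_conj_x r).choose_spec t

/-- The lifted root elements. -/
noncomputable def Y (ψ : S →* H) (x : κ → K → H) (r : ι) (t : K) : H :=
  ψ (M.sec r) * x (M.base r) (((M.c (M.sec r) (M.α (M.base r)))⁻¹ : Kˣ) * t) * (ψ (M.sec r))⁻¹

/-- The lifted torus elements. -/
def D (ψ : S →* H) (e : H) (r : ι) : H := ψ (M.sec r) * e * (ψ (M.sec r))⁻¹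

theorem map_Y {H' : Type*} [Group H'] (f : H →* H') (ψ : S →* H) (x : κ → K → H) (r : ι) (t : K) :
    f (M.Y ψ x r t) = M.Y (f.comp ψ) (fun k t => f (x k t)) r t := by simp [Y]

theorem map_D {H' : Type*} [Group H'] (f : H →* H') (ψ : S →* H) (e : H) (r : ι) :
    f (M.D ψ e r) = M.D (f.comp ψ) (f e) r := by simp [D]

theorem Y_eq : (M.Y M.φ fun k => ρ.x (M.α k)) = ρ.x := by
  ext r t
  rw [Y, c_spec, M.sec_spec]; simp

theorem D_eq (h : ρ.R3) (ζ : Kˣ) {k : κ} {r : ι} (hr : M.base r = k) :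
    M.D M.φ (ρ.h (M.α k) ζ) r = ρ.h r ζ := by
  rw [D, h.conj_h (M.acts _), ← hr, M.sec_spec]

theorem stab (s : S) (r : ι) :
    M.w ((M.sec (M.w s r))⁻¹ * s * M.sec r) (M.α (M.base r)) = M.α (M.base r) := by
  simp only [map_mul, map_inv, Equiv.Perm.mul_apply, M.sec_spec]
  rw [Equiv.Perm.inv_eq_iff_eq, ← M.base_w s r, M.sec_spec]

variable {M} {ψ : S →* H} {x : κ → K → H}

theorem lf (hψ : π.comp ψ = M.φ) (hx : ∀ k, Addv (x k)) (hπ : ∀ k t, π (x k t) = ρ.x (M.α k) t) :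
    Lf ρ π (M.Y ψ x) where
  map r t := by simp only [map_Y, hψ, hπ, Y_eq]
  add r := ((hx _).comp (AddMonoidHom.mulLeft _)).conj _

theorem la (hψ : π.comp ψ = M.φ) (hst : ∀ k s, M.w s (M.α k) = M.α k → ψ s ∈ Nm (x k)) (s : S) :
    LA ρ π (M.Y ψ x) (ψ s) (M.w s) := by
  refine ⟨(DFunLike.congr_fun hψ s).symm ▸ M.acts s, fun r t => ?_⟩
  obtain ⟨c, hc⟩ := hst _ _ (M.stab s r)
  refine ⟨M.c (M.sec (M.w s r)) (M.α (M.base (M.w s r))) *
    (c * (((M.c (M.sec r) (M.α (M.base r)))⁻¹ : Kˣ) * t)), ?_⟩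
  simp only [Y, Units.inv_mul_cancel_left]
  rw [M.base_w, ← hc]
  simp only [map_mul, map_inv]; group

theorem Y_α (hF : ρ.Faithful) (hψ : π.comp ψ = M.φ) (hπ : ∀ k t, π (x k t) = ρ.x (M.α k) t)
    (hst : ∀ k s, M.w s (M.α k) = M.α k → ψ s ∈ Nm (x k)) (k : κ) (t : K) :
    M.Y ψ x (M.α k) t = x k t := by
  have e1 : π (M.Y ψ x (M.α k) t) = ρ.x (M.α k) t := by simp only [map_Y, hψ, hπ, Y_eq]
  obtain ⟨c, hc⟩ := hst k (M.sec (M.α k)) (by simpa [M.base_α] using M.sec_spec (M.α k))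
  rw [Y, M.base_α, hc] at e1 ⊢
  rw [hπ] at e1
  rw [hF.x_injective _ e1]

theorem conj_D {e : H} {k : κ} (hst : ∀ s, M.w s (M.α k) = M.α k → Commute (ψ s) e) (s : S)
    {r : ι} (hr : M.base r = k) : ψ s * M.D ψ e r * (ψ s)⁻¹ = M.D ψ e (M.w s r) := by
  have := (hst _ (hr ▸ M.stab s r)).eq
  simp only [map_mul, map_inv] at this
  calc _ = ψ (M.sec (M.w s r)) * ((ψ (M.sec (M.w s r)))⁻¹ * ψ s * ψ (M.sec r) * e) *
        (ψ (M.sec r))⁻¹ * (ψ s)⁻¹ := by simp only [D]; group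
    _ = _ := by rw [this]; simp only [D]; group

theorem D_α {e : H} {k : κ} (hst : ∀ s, M.w s (M.α k) = M.α k → Commute (ψ s) e) :
    M.D ψ e (M.α k) = e := by
  rw [D, (hst _ (by simpa [M.base_α] using M.sec_spec (M.α k))).eq]; simp

theorem la_D (hψ : π.comp ψ = M.φ) (h3 : ρ.R3) {e : H} {k : κ} {ζ : Kˣ}
    (he : π e = ρ.h (M.α k) ζ) (hst : ∀ s, M.w s (M.α k) = M.α k → Commute (ψ s) e)
    (hD : ∀ γ, M.base γ = k → ∀ j, M.D ψ e γ ∈ Nm (x j)) {γ : ι} (hγ : M.base γ = k) :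
    LA ρ π (M.Y ψ x) (M.D ψ e γ) 1 ∧ π (M.D ψ e γ) = ρ.h γ ζ := by
  have e1 : π (M.D ψ e γ) = ρ.h γ ζ := by rw [map_D, hψ, he, M.D_eq h3 ζ hγ]
  refine ⟨⟨e1 ▸ (StRep.actsT_h γ ζ).acts, fun r t => ?_⟩, e1⟩
  obtain ⟨c, hc⟩ := hD (M.w (M.sec r)⁻¹ γ) ((M.base_w _ _).trans hγ) (M.base r)
  refine ⟨c * t, ?_⟩
  rw [← conj_D hst _ hγ] at hc
  simp only [Y, Equiv.Perm.one_apply]
  rw [mul_left_comm _ c.1, ← hc, map_inv]; group

end Mono

end CF.Known.Pres
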