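import Cfsg.Agent.Known.Pres.TypeA
import Cfsg.Agent.Chev.ClsBCD

/-! Wreath products with the symmetric group, signed permutations and their action on the roots of
types `C` and `D`. -/

set_option autoImplicit false

namespace CF.Known.Pres

open Function hiding swap
open Chev Equiv Equiv.Perm
open scoped commutatorElement

/-- The wreath product `A ≀ S_n`. -/
@[ext] structure Wr (A : Type) (n : ℕ) where
  v : Fin n → A
  σ : Perm (Fin n)

namespace Wr

variable {A : Type} [AddCommGroup A] {n : ℕ}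

instance instGroup : Group (Wr A n) where
  mul g h := ⟨g.v + h.v ∘ g.σ.symm, g.σ * h.σ⟩
  one := ⟨0, 1⟩
  inv g := ⟨-(g.v ∘ g.σ), g.σ⁻¹⟩
  mul_assoc a b c := Wr.ext (add_assoc _ _ _) (mul_assoc _ _ _)
  one_mul a := Wr.ext (zero_add _) (one_mul _)
  mul_one a := Wr.ext (add_zero _) (mul_one _)
  inv_mul_cancel a := Wr.ext (neg_add_cancel _) (inv_mul_cancel _)

@[simp] theorem mul_v (g h : Wr A n) : (g * h).v = g.v + h.v ∘ g.σ.symm := rfl
@[simp] theorem mul_σ (g h : Wr A n) : (g * h).σ = g.σ * h.σ := rfl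
@[simp] theorem one_v : (1 : Wr A n).v = 0 := rfl
@[simp] theorem one_σ : (1 : Wr A n).σ = 1 := rfl
@[simp] theorem inv_v (g : Wr A n) : g⁻¹.v = -(g.v ∘ g.σ) := rfl
@[simp] theorem inv_σ (g : Wr A n) : g⁻¹.σ = g.σ⁻¹ := rfl

/-- The base group. -/
def inl (v : Fin n → A) : Wr A n := ⟨v, 1⟩

/-- The top group. -/
def inr : Perm (Fin n) →* Wr A n where
  toFun σ := ⟨0, σ⟩
  map_one' := rfl
  map_mul' _ _ := Wr.ext (zero_add _).symm rfl

@[simp] theorem inl_v (v : Fin n → A) : (inl v).v = v := rfl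
@[simp] theorem inl_σ (v : Fin n → A) : (inl v).σ = 1 := rfl
@[simp] theorem inr_v (σ : Perm (Fin n)) : (inr σ : Wr A n).v = 0 := rfl
@[simp] theorem inr_σ (σ : Perm (Fin n)) : (inr σ : Wr A n).σ = σ := rfl

theorem addv : Addv (inl : (Fin n → A) → _) := fun _ _ => rfl

theorem inl_mul_inr (g : Wr A n) : inl g.v * inr g.σ = g := Wr.ext (add_zero _) (one_mul _)

theorem single_comp (σ : Perm (Fin n)) (i : Fin n) (a : A) :
    (Pi.single i a : Fin n → A) ∘ σ.symm = Pi.single (σ i) a := by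
  ext j; simp [Pi.single_apply, symm_apply_eq]

theorem conj_inl (g : Wr A n) (v : Fin n → A) : g * inl v * g⁻¹ = inl (v ∘ g.σ.symm) := by
  ext i <;> simp [Perm.mul_def]

/-- Change of the base group. -/
def map {A' : Type} [AddCommGroup A'] (f : A →+ A') : Wr A n →* Wr A' n where
  toFun g := ⟨f ∘ g.v, g.σ⟩
  map_one' := Wr.ext (funext fun _ => f.map_zero) rfl
  map_mul' _ _ := Wr.ext (funext fun _ => f.map_add _ _) rfl

@[simp] theorem map_v {A' : Type} [AddCommGroup A'] (f : A →+ A') (g : Wr A n) (i : Fin n) :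
    (map f g).v i = f (g.v i) := rfl
@[simp] theorem map_σ {A' : Type} [AddCommGroup A'] (f : A →+ A') (g : Wr A n) :
    (map f g).σ = g.σ := rfl

theorem exists_hom {H : Type*} [Group H] (Y : Subgroup (Wr A n)) {T : (Fin n → A) → H}
    (hT : Addv T) {ψ : Perm (Fin n) → H}
    (h1 : ∀ g ∈ Y, ∀ g' ∈ Y, ψ (g.σ * g'.σ) = ψ g.σ * ψ g'.σ)
    (h2 : ∀ g ∈ Y, ∀ g' ∈ Y, ψ g.σ * T g'.v * (ψ g.σ)⁻¹ = T (g'.v ∘ g.σ.symm)) :
    ∃ θ : Y →* H, ∀ g, θ g = T g.1.v * ψ g.1.σ :=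
  ⟨MonoidHom.mk' (fun g => T g.1.v * ψ g.1.σ) fun a b => by
    simp only [Subgroup.coe_mul, mul_v, mul_σ, hT _ _, h1 _ a.2 _ b.2, ← h2 _ a.2 _ b.2]; group,
    fun _ => rfl⟩

end Wr

theorem exists_addv_pi {A H : Type*} [AddCommGroup A] [Group H] {n : ℕ} {x : Fin n → A → H}
    (hx : ∀ i, Addv (x i)) (hc : ∀ i j a b, Commute (x i a) (x j b)) :
    ∃ T : (Fin n → A) → H, Addv T ∧ ∀ i a, T (Pi.single i a) = x i a :=
  ⟨fun v => MonoidHom.noncommPiCoprod (fun i => (hx i).hom) (fun i j _ _ _ => hc i j _ _)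
    fun i => Multiplicative.ofAdd (v i), fun a b => by rw [← map_mul]; rfl, fun i a => by
      have := MonoidHom.noncommPiCoprod_mulSingle (fun i => (hx i).hom)
        (hcomm := fun i j _ _ _ => hc i j _ _) i (Multiplicative.ofAdd a)
      refine Eq.trans (congrArg _ ?_) this
      ext j; by_cases h : j = i <;> simp [Pi.mulSingle_apply, h]⟩

theorem Addv.ext_single {A H : Type*} [AddCommGroup A] [Group H] {n : ℕ} {T T' : (Fin n → A) → H}
    (h : Addv T) (h' : Addv T') (e : ∀ i a, T (Pi.single i a) = T' (Pi.single i a))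
    (v : Fin n → A) : T v = T' v := by
  induction v using Pi.single_induction with
  | zero => rw [h.zero, h'.zero]
  | add f g hf hg => rw [h, h', hf, hg]
  | single i a => exact e i a

namespace Wr

variable {n : ℕ} {H : Type*} [Group H]

theorem le_of {A : Type} [AddCommGroup A] {C : Subgroup (Wr A n)} (h1 : ∀ σ, inr σ ∈ C)
    (h2 : ∀ i a, inl (Pi.single i a) ∈ C) : C = ⊤ := eq_top_iff.2 fun g _ => by
  rw [← g.inl_mul_inr]
  refine mul_mem ?_ (h1 _)
  induction g.v using Pi.single_induction with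
  | zero => exact one_mem _
  | add f g hf hg => exact addv f g ▸ mul_mem hf hg
  | single i a => exact h2 i a

/-- The generators of the base group. -/
def t (i : Fin n) : Wr ℤ n := inl (Pi.single i 1)

theorem t_zpow (i : Fin n) (k : ℤ) : t i ^ k = inl (Pi.single i k) := by
  rw [t, ← addv.zsmul, ← Pi.single_smul, smul_eq_mul, mul_one]

theorem commute_t (i j : Fin n) : Commute (t i) (t j) := (addv (A := ℤ)).commute _ _

theorem conj_t (g : Wr ℤ n) (i : Fin n) : g * t i * g⁻¹ = t (g.σ i) := by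
  rw [t, conj_inl, single_comp, t]

theorem le_of_t {C : Subgroup (Wr ℤ n)} (h1 : ∀ σ, inr σ ∈ C) (h2 : ∀ i, t i ∈ C) : C = ⊤ :=
  le_of h1 fun i a => t_zpow i a ▸ zpow_mem (h2 i) a

theorem hom_ext {f g : Wr ℤ n →* H} (h1 : ∀ σ, f (inr σ) = g (inr σ))
    (h2 : ∀ i, f (t i) = g (t i)) : f = g :=
  MonoidHom.eq_of_eqOn_top fun a _ => (le_of_t (C := f.eqLocus g) h1 h2).ge (Subgroup.mem_top a)

theorem exists_hom_int (ψ : Perm (Fin n) →* H) {y : Fin n → H} (h1 : ∀ i j, Commute (y i) (y j))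
    (h2 : ∀ σ i, ψ σ * y i * (ψ σ)⁻¹ = y (σ i)) :
    ∃ θ : Wr ℤ n →* H, (∀ σ, θ (inr σ) = ψ σ) ∧ ∀ i, θ (t i) = y i := by
  obtain ⟨T, hT, e⟩ := exists_addv_pi (x := fun i (k : ℤ) => y i ^ k) (fun i => zpow_add _)
    fun i j a b => (h1 i j).zpow_zpow a b
  obtain ⟨θ, hθ⟩ := exists_hom ⊤ hT (ψ := ψ) (fun _ _ _ _ => map_mul _ _ _) fun g _ g' _ =>
    (hT.conj _).ext_single (hT.comp (LinearMap.funLeft ℤ ℤ g.σ.symm).toAddMonoidHom) (fun i a => by
      change _ = T (Pi.single i a ∘ _)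
      rw [single_comp, e, e, ← h2, conj_zpow]) _
  exact ⟨θ.comp Subgroup.topEquiv.symm.toMonoidHom, fun σ => by simp [hθ, hT.zero],
    fun i => by simp [hθ, t, e]⟩

end Wr

theorem exists_orbit_fam {S Ω H : Type*} [Group S] [Group H] [MulAction S Ω] {a : Ω}
    (h : ∀ b, ∃ s : S, s • a = b) (ψ : S →* H) {e : H} (he : ∀ s, s • a = a → Commute (ψ s) e) :
    ∃ y : Ω → H, y a = e ∧ ∀ s b, ψ s * y b * (ψ s)⁻¹ = y (s • b) := by
  choose f hf using h
  have key : ∀ s, ψ s * e * (ψ s)⁻¹ = ψ (f (s • a)) * e * (ψ (f (s • a)))⁻¹ := fun s => by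
    have := (he ((f (s • a))⁻¹ * s) (by rw [mul_smul, inv_smul_eq_iff, hf])).eq
    rw [map_mul, map_inv] at this
    calc _ = ψ (f (s • a)) * ((ψ (f (s • a)))⁻¹ * ψ s * e) * (ψ s)⁻¹ := by group
      _ = _ := by rw [this]; group
  refine ⟨fun b => ψ (f b) * e * (ψ (f b))⁻¹, by simpa using (key 1).symm, fun s b => ?_⟩
  have := key (s * f b)
  rw [mul_smul, hf] at this
  simp only [← this, map_mul]; group

theorem commute_of_gens {S H : Type*} [Group S] [Group H] {L : List S} {ψ : S →* H} {e : H}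
    (h : ∀ s ∈ L, Commute (ψ s) e) {s : S} (hs : s ∈ Subgroup.closure {s | s ∈ L}) :
    Commute (ψ s) e :=
  Subgroup.mem_centralizer_singleton_iff.1 ((Subgroup.closure_le
    ((Subgroup.centralizer {e}).comap ψ)).2 (fun s hs =>
      Subgroup.mem_centralizer_singleton_iff.2 (h s hs)) hs)

open Monoid in
theorem hasPres_wr {n g r : ℕ} (hP : HasPres g r (Perm (Fin n))) {a b : Fin n} (hab : a ≠ b)
    (L : List (Perm (Fin n))) (hL : ∀ σ, σ ∈ Subgroup.closure {s | s ∈ L} ↔ σ a = a) :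
    HasPres (g + 1) (r + (L.length + 1)) (Wr ℤ n) := by
  have hs : Surjective (Coprod.lift Wr.inr (zpowersHom _ (Wr.t a))) :=
    MonoidHom.range_eq_top.1 (Wr.le_of_t (fun σ => ⟨Coprod.inl σ, rfl⟩) fun i => ⟨Coprod.inl
      (swap a i) * Coprod.inr (Multiplicative.ofAdd (1 : ℤ)) * (Coprod.inl (swap a i))⁻¹, by simp [Wr.conj_t]⟩)
  refine (hP.coprod hasPres_int).of_rel _ hs
    (⁅(Coprod.inr (Multiplicative.ofAdd (1 : ℤ)) : Coprod (Perm (Fin n)) _), Coprod.inl (swap a b) * Coprod.inr (Multiplicative.ofAdd (1 : ℤ)) *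
      (Coprod.inl (swap a b))⁻¹⁆ :: L.map fun s => ⁅(Coprod.inl s : Coprod _ (Multiplicative ℤ)), Coprod.inr (Multiplicative.ofAdd (1 : ℤ))⁆)
    (by simp) ?_ fun H _ f π hf hr hπ => ?_ <;>
  simp only [List.forall_mem_cons, List.forall_mem_map, map_commutatorElement, map_mul, map_inv,
    commutatorElement_eq_one_iff_commute] at *
  · refine ⟨by simpa [Wr.conj_t] using Wr.commute_t _ _, fun s hs => ?_⟩
    have := Wr.conj_t (Wr.inr s) a
    rw [Wr.inr_σ, (hL s).1 (Subgroup.subset_closure hs), mul_inv_eq_iff_eq_mul] at this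
    simpa [Commute, SemiconjBy] using this
  · obtain ⟨y, y1, y2⟩ := exists_orbit_fam (a := a) (fun i => ⟨swap a i, by simp⟩)
      (f.comp Coprod.inl) fun s hs => commute_of_gens hr.2 ((hL s).2 hs)
    obtain ⟨θ, t1, t2⟩ := Wr.exists_hom_int (f.comp Coprod.inl) (y := y) (fun i j => by
      by_cases e : i = j
      · rw [e]
      obtain ⟨σ, hσ⟩ := exists_extending_pair _ _ (inj2 hab) (inj2 e)
      have := commute_conj (f (Coprod.inl σ)) hr.1
      have e1 := y2 σ a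
      have e2 := y2 (σ * swap a b) a
      simp only [y1, MonoidHom.comp_apply, Perm.smul_def, map_mul, Perm.mul_apply, swap_apply_left,
        show σ a = i from hσ 0, show σ b = j from hσ 1] at e1 e2
      rw [← e1, ← e2]
      simpa [mul_assoc] using this) y2
    have : θ.comp (Coprod.lift Wr.inr (zpowersHom _ (Wr.t a))) = f :=
      Coprod.hom_ext (by ext s; simp [t1]) (by ext; simp [t2, y1])
    refine LeftInverse.injective (g := θ) fun a => ?_
    obtain ⟨a, rfl⟩ := hf a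
    rw [hπ]
    exact DFunLike.congr_fun this a

/-- The signed points. -/
abbrev Pt (n : ℕ) := Fin n × ZMod 2

variable {n c : ℕ}

instance instMulActionPt : MulAction (Wr (ZMod 2) n) (Pt n) where
  smul g x := (g.σ x.1, x.2 + g.v (g.σ x.1))
  one_smul _ := Prod.ext rfl (add_zero _)
  mul_smul g h x := Prod.ext rfl (by
    change x.2 + (g.v (g.σ (h.σ _)) + h.v (g.σ.symm (g.σ _))) = x.2 + h.v _ + g.v (g.σ (h.σ _))
    rw [symm_apply_apply]; abel)

theorem smul_pt (g : Wr (ZMod 2) n) (x : Pt n) : g • x = (g.σ x.1, x.2 + g.v (g.σ x.1)) := rfl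

theorem zmod_two (s : ZMod 2) : s = 0 ∨ s = 1 := by revert s; decide

/-- The signed points as coordinates. -/
def pe : Pt n ≃ Fin (2 * n) where
  toFun x := ⟨if x.2 = 0 then x.1 else 2 * n - 1 - x.1, by split_ifs <;> omega⟩
  invFun a := if h : a.val < n then (⟨a, h⟩, 0) else (⟨2 * n - 1 - a, by omega⟩, 1)
  left_inv := by
    rintro ⟨i, s⟩
    rcases zmod_two s with rfl | rfl
    · simp
    · exact (dif_neg (by simp; omega)).trans (Prod.ext (Fin.ext (by simp; omega)) rfl)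
  right_inv a := by
    by_cases h : a.val < n <;> ext <;> simp [h]
    omega

theorem val_pe (x : Pt n) : (pe x).val = if x.2 = 0 then x.1.val else 2 * n - 1 - x.1 := rfl

/-- The opposite point. -/
def op (x : Pt n) : Pt n := (x.1, x.2 + 1)

@[simp] theorem op_fst (x : Pt n) : (op x).1 = x.1 := rfl
@[simp] theorem op_snd (x : Pt n) : (op x).2 = x.2 + 1 := rfl
@[simp] theorem op_op (x : Pt n) : op (op x) = x :=
  Prod.ext rfl (by simp [add_assoc, CharTwo.add_self_eq_zero])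

theorem smul_op (g : Wr (ZMod 2) n) (x : Pt n) : g • op x = op (g • x) :=
  Prod.ext rfl (add_right_comm _ _ _)

theorem pe_op (x : Pt n) : pe (op x) = (pe x).rev := by
  obtain ⟨i, s⟩ := x
  rcases zmod_two s with rfl | rfl <;> ext <;> simp [val_pe, CharTwo.add_self_eq_zero] <;> omega

theorem eq_or_op {x y : Pt n} (h : x.1 = y.1) : x = y ∨ x = op y := by
  obtain ⟨i, s⟩ := x
  obtain ⟨j, t⟩ := y
  simp only [Prod.ext_iff, op, show i = j from h, true_and]
  clear h; revert s t; decide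

theorem op_ne (x : Pt n) : op x ≠ x := fun h => by simpa using congrArg Prod.snd h

theorem far_pe {x y : Pt n} : Far (pe x) (pe y) ↔ x.1 ≠ y.1 := by
  obtain ⟨i, s⟩ := x
  obtain ⟨j, t⟩ := y
  rcases zmod_two s with rfl | rfl <;> rcases zmod_two t with rfl | rfl <;>
    simp [Far, Fin.ext_iff, val_pe] <;> omega

theorem dlt_pe (x y : Pt n) :
    dlt (pe x) (pe y) = if x = y then 1 else if x = op y then -1 else 0 := by
  obtain ⟨i, s⟩ := x
  obtain ⟨j, t⟩ := y
  rcases zmod_two s with rfl | rfl <;> rcases zmod_two t with rfl | rfl <;>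
    simp [dlt, Fin.ext_iff, val_pe, op, CharTwo.add_self_eq_zero] <;> omega

/-- Signed permutations as permutations of the coordinates. -/
def pt : Wr (ZMod 2) n →* Perm (Fin (2 * n)) :=
  pe.permCongrHom.toMonoidHom.comp (MulAction.toPermHom _ _)

theorem pt_pe (g : Wr (ZMod 2) n) (x : Pt n) : pt g (pe x) = pe (g • x) := by simp [pt]

theorem pt_rev (g : Wr (ZMod 2) n) (a : Fin (2 * n)) : pt g a.rev = (pt g a).rev := by
  obtain ⟨x, rfl⟩ := pe.surjective a
  rw [← pe_op, pt_pe, pt_pe, smul_op, pe_op]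

theorem wtO_comp (g : Wr (ZMod 2) n) (a : Fin (2 * n)) :
    wtO a ∘ (pt g).symm = wtO (pt g a) := by
  ext j; simp [wtO, wtA_apply, symm_apply_eq, pt_rev]

theorem evO_inj (hc : OkO c (2 * n)) : Injective (evO : RtO c (2 * n) → _) := fun r s h => by
  rcases wtO_sub_eq r.2.1 h with e | e
  · exact Subtype.ext (Prod.ext e.1 e.2)
  · have h1 := r.2.2
    have h2 := s.2.2
    simp only [Fin.ext_iff, Fin.val_rev, OkO] at e hc
    exact Subtype.ext (Prod.ext (Fin.ext (by omega)) (Fin.ext (by omega)))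

theorem exists_wO (hc : OkO c (2 * n)) (g : Wr (ZMod 2) n) (r : RtO c (2 * n)) :
    ∃ u : RtO c (2 * n), evO u = evO r ∘ (pt g).symm := by
  obtain ⟨u, hu, -⟩ := exists_evO hc ((pt g).injective.ne r.2.1) fun h e => r.ne_rev h (by
    have : r.1.1 = r.1.2.rev := (pt g).injective (by rw [pt_rev]; ext; simp; omega)
    rw [this]; simp; omega)
  exact ⟨u, by rw [hu, ← wtO_comp, ← wtO_comp]; rfl⟩

/-- The action of signed permutations on the roots. -/
noncomputable def wO (hc : OkO c (2 * n)) : Wr (ZMod 2) n →* Perm (RtO c (2 * n)) :=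
  MonoidHom.toHomPerm
    { toFun g r := (exists_wO hc g r).choose
      map_one' := funext fun r => evO_inj hc (by rw [(exists_wO hc 1 r).choose_spec, map_one]; rfl)
      map_mul' g h := funext fun r => evO_inj hc (by
        refine (exists_wO hc _ r).choose_spec.trans (.trans ?_ (exists_wO hc _ _).choose_spec.symm)
        rw [(exists_wO hc _ _).choose_spec, map_mul]; rfl) }

theorem evO_wO (hc : OkO c (2 * n)) (g : Wr (ZMod 2) n) (r : RtO c (2 * n)) :
    evO (wO hc g r) = evO r ∘ (pt g).symm := (exists_wO hc g r).choose_spec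

theorem wO_mem {B : Type} [Fintype B] [DecidableEq B] (b : BaseO c (2 * n) B) (g : Wr (ZMod 2) n) :
    wO b.ok g ∈ b.cb.Aut := euc_mem_aut b.euc (evO_wO b.ok g)

/-- The root `x - y`. -/
noncomputable def rt (hc : OkO c (2 * n)) (x y : Pt n) (h : x.1 ≠ y.1) : RtO c (2 * n) :=
  (exists_evO hc (far_pe.2 h).1 fun _ => (far_pe.2 h).2).choose

variable {hc : OkO c (2 * n)}

theorem evO_rt {x y : Pt n} (h : x.1 ≠ y.1) : evO (rt hc x y h) = wtO (pe x) - wtO (pe y) :=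
  (exists_evO hc (far_pe.2 h).1 fun _ => (far_pe.2 h).2).choose_spec.1

theorem wO_rt (g : Wr (ZMod 2) n) {x y : Pt n} (h : x.1 ≠ y.1) :
    wO hc g (rt hc x y h) = rt hc (g • x) (g • y) (g.σ.injective.ne h) := evO_inj hc (by
  rw [evO_wO, evO_rt, evO_rt, ← pt_pe, ← pt_pe, ← wtO_comp, ← wtO_comp]; rfl)

theorem rt_op {x y : Pt n} (h : x.1 ≠ y.1) : rt hc (op y) (op x) h.symm = rt hc x y h :=
  evO_inj hc ((evO_rt _).trans (by rw [evO_rt, pe_op, pe_op, wtO_sub_rev]))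

theorem rt_eq_iff {x y z w : Pt n} (h : x.1 ≠ y.1) (h' : z.1 ≠ w.1) :
    rt hc x y h = rt hc z w h' ↔ (x = z ∧ y = w) ∨ (x = op w ∧ y = op z) := by
  refine ⟨fun e => ?_, ?_⟩
  · simpa only [← pe_op, pe.apply_eq_iff_eq] using wtO_sub_eq (far_pe.2 h).1
      ((evO_rt h).symm.trans ((congrArg evO e).trans (evO_rt h')))
  · rintro (⟨rfl, rfl⟩ | ⟨rfl, rfl⟩)
    exacts [rfl, rt_op _]

theorem neg_rt {x y : Pt n} (h : x.1 ≠ y.1) : (rt hc x y h).neg = rt hc y x h.symm :=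
  evO_inj hc (by rw [evO_rt, ← neg_sub, ← evO_rt (hc := hc) h]; exact (neg_sub _ _).symm)

theorem exists_rt_of_far {r : RtO c (2 * n)} (h : Far r.1.1 r.1.2) : ∃ x y h, r = rt hc x y h := by
  obtain ⟨x, hx⟩ := pe.surjective r.1.1
  obtain ⟨y, hy⟩ := pe.surjective r.1.2
  exact ⟨x, y, far_pe.1 (hx ▸ hy ▸ h), evO_inj hc (by rw [evO_rt, hx, hy]; rfl)⟩

theorem A_rt {B : Type} [Fintype B] [DecidableEq B] (b : BaseO c (2 * n) B) {x y z w : Pt n}
    (h : x.1 ≠ y.1) (h' : z.1 ≠ w.1) : b.cb.A (rt hc x y h) (rt hc z w h') =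
      dlt (pe z) (pe x) - dlt (pe z) (pe y) - (dlt (pe w) (pe x) - dlt (pe w) (pe y)) :=
  b.A_reg (evO_rt h) (evO_rt h') (far_pe.2 h) (ne_mid _) (ne_mid _)

theorem add_rt {B : Type} [Fintype B] [DecidableEq B] (b : BaseO c (2 * n) B) {x y z : Pt n}
    (h1 : x.1 ≠ y.1) (h2 : y.1 ≠ z.1) (h3 : x.1 ≠ z.1) :
    b.cb.vec (rt hc x z h3) = b.cb.vec (rt hc x y h1) + b.cb.vec (rt hc y z h2) :=
  b.add_iff.2 (by simp [evO_rt])

/-- The relative position of two short roots. -/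
theorem rt_cases {x y z w : Pt n} (h : x.1 ≠ y.1) (h' : z.1 ≠ w.1)
    (h1 : rt hc z w h' ≠ rt hc x y h) (h2 : rt hc z w h' ≠ (rt hc x y h).neg) :
    (∃ a b hab, rt hc x y h = rt hc a b hab ∧ (rt hc z w h' = rt hc a (op b) hab ∨
      ∃ d, ∃ had : a.1 ≠ d.1, ∃ hbd : b.1 ≠ d.1,
        rt hc z w h' = rt hc a d had ∨ rt hc z w h' = rt hc b d hbd)) ∨
      (x.1 ≠ z.1 ∧ x.1 ≠ w.1 ∧ y.1 ≠ z.1 ∧ y.1 ≠ w.1) := by
  have k1 : ∀ {x y z w : Pt n} (h : x.1 ≠ y.1) (h' : z.1 ≠ w.1), rt hc z w h' ≠ rt hc x y h →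
      rt hc z w h' ≠ (rt hc x y h).neg → z = x ∨ z = y → rt hc z w h' = rt hc x (op y) h ∨
        ∃ d, ∃ had : x.1 ≠ d.1,
          ∃ hbd : y.1 ≠ d.1, rt hc z w h' = rt hc x d had ∨ rt hc z w h' = rt hc y d hbd := by
    rintro x y z w h h' h1 h2 (rfl | rfl)
    · by_cases e : w.1 = y.1
      · rcases eq_or_op e with rfl | rfl
        exacts [absurd rfl h1, .inl rfl]
      · exact .inr ⟨w, h', Ne.symm e, .inl rfl⟩
    · by_cases e : w.1 = x.1
      · rcases eq_or_op e with rfl | rfl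
        exacts [absurd (neg_rt _).symm h2, .inl ((rt_eq_iff _ _).2 (.inr ⟨(op_op _).symm, rfl⟩))]
      · exact .inr ⟨w, Ne.symm e, h', .inr rfl⟩
  have k2 : ∀ {z w : Pt n} (h' : z.1 ≠ w.1), rt hc z w h' ≠ rt hc x y h →
      rt hc z w h' ≠ (rt hc x y h).neg → z.1 = x.1 ∨ z.1 = y.1 →
      ∃ a b hab, rt hc x y h = rt hc a b hab ∧ (rt hc z w h' = rt hc a (op b) hab ∨
        ∃ d, ∃ had : a.1 ≠ d.1, ∃ hbd : b.1 ≠ d.1,
          rt hc z w h' = rt hc a d had ∨ rt hc z w h' = rt hc b d hbd) := fun h' h1 h2 e => by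
    rcases e with e | e <;> rcases eq_or_op e with e | e
    · exact ⟨_, _, h, rfl, k1 h h' h1 h2 (.inl e)⟩
    · exact ⟨op y, op x, h.symm, (rt_op h).symm, k1 _ h' (by rwa [rt_op h]) (by rwa [rt_op h]) (.inr e)⟩
    · exact ⟨_, _, h, rfl, k1 h h' h1 h2 (.inr e)⟩
    · exact ⟨op y, op x, h.symm, (rt_op h).symm, k1 _ h' (by rwa [rt_op h]) (by rwa [rt_op h]) (.inl e)⟩
  by_cases e : z.1 = x.1 ∨ z.1 = y.1
  · exact .inl (k2 h' h1 h2 e)
  by_cases e' : w.1 = x.1 ∨ w.1 = y.1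
  · rw [← rt_op h'] at h1 h2 ⊢
    exact .inl (k2 _ h1 h2 e')
  · exact .inr (by grind)

theorem exists_wr {ι : Type*} [Finite ι] {x y : ι → Pt n} (hx : Injective fun i => (x i).1)
    (σ : Perm (Fin n)) (hσ : ∀ i, σ (x i).1 = (y i).1) :
    ∃ g : Wr (ZMod 2) n, g.σ = σ ∧ (∀ i, g • x i = y i) ∧ ∀ k, (∀ i, (y i).1 ≠ k) → g.v k = 0 := by
  have hy : Injective fun i => (y i).1 := fun i j e => hx (σ.injective (by simpa [hσ] using e))
  refine ⟨⟨extend (fun i => (y i).1) (fun i => (y i).2 - (x i).2) 0, σ⟩, rfl, fun i => ?_,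
    fun k hk => by simp [extend_apply' _ _ _ (not_exists.2 hk)]⟩
  refine Prod.ext (hσ i) ?_
  simp [smul_pt, hσ, hy.extend_apply]

end CF.Known.Pres
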