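import Cfsg.Agent.Known.Pres.PermX
import Cfsg.Agent.Known.Pres.Wr

/-! Short presentations of Chevalley groups from a monomial group with two orbits on the roots. -/

set_option autoImplicit false

namespace CF.Known.Pres

open Function Chev Monoid
open scoped commutatorElement

variable {B ι : Type} [Fintype B] [DecidableEq B] [Fintype ι] [DecidableEq ι]
  {C : ChevBasis B ι} {K : Type*} [Field K] {G : Type*} [Group G] {ρ : StRep C K G}

/-- The combinatorial data of the presentation. -/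
structure TwoDat {S : Type} [Group S] (M : Mono ρ S Bool) (ζ : Kˣ) where
  LS : Bool → List S
  LD : List ι
  ν : S
  LN : Bool → List ι
  LC : List (ι × ι × K × K)
  LZ : List S
  gen : ∀ k, AddSubgroup.closure
    (Set.range fun i : ℕ => ((ζ ^ C.A (M.α true) (M.α k) : Kˣ) : K) ^ i) = ⊤
  LS_fix : ∀ k, ∀ s ∈ LS k, M.w s (M.α k) = M.α k
  LS_gen : ∀ k s, M.w s (M.α k) = M.α k → s ∈ Subgroup.closure {s | s ∈ LS k}
  LS_N : ∀ k, ∀ s ∈ LS k, M.w s (M.α true) = M.α true ∨ M.w s (M.α true) ∈ LN k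
  LD_base : ∀ γ ∈ LD, M.base γ = true
  LN_base : ∀ k, ∀ γ ∈ LN k, M.base γ = true
  ν_α : M.w ν (M.α true) = C.neg (M.α true)
  LC_ne : ∀ q ∈ LC, q.1 ≠ q.2.1 ∧ q.1 ≠ C.neg q.2.1
  c1 : ∀ γ, M.base γ = true → γ = M.α true ∨ γ = C.neg (M.α true) ∨
    ∃ σ, ∃ γ₀ ∈ LD, M.w σ (M.α true) = M.α true ∧ M.w σ γ₀ = γ
  c2 : ∀ k γ, M.base γ = true → ∃ σ γ₀, (γ₀ = M.α true ∨ γ₀ ∈ LN k) ∧ M.w σ (M.α k) = M.α k ∧
    (M.w σ γ₀ = γ ∨ C.neg (M.w σ γ₀) = γ)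
  c5 : ∀ r s, s ≠ r → s ≠ C.neg r → ∃ σ r₀ s₀, ((M.w σ r₀ = r ∧ M.w σ s₀ = s) ∨
    (M.w σ r₀ = s ∧ M.w σ s₀ = r)) ∧ Spans C ζ {γ | M.base γ = true} r₀ s₀ {p | (r₀, s₀, p) ∈ LC}
  c6 : Subgroup.normalClosure {s | s ∈ LZ} = ⊤

namespace TwoDat

variable {S : Type} [Group S] {M : Mono ρ S Bool} {ζ : Kˣ} (T : TwoDat M ζ)
  {H : Type*} [Group H]

/-- The relators for one orbit. -/
noncomputable def rel (ψ : S →* H) (x : Bool → K → H) (d : H) (k : Bool) : List H :=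
  (T.LS k).map (fun s => ψ s * x k 1 * (ψ s)⁻¹ * (x k (M.c s (M.α k)))⁻¹) ++
  (T.LN k).map fun γ => M.D ψ d γ * x k 1 * (M.D ψ d γ)⁻¹ * (x k (ζ ^ C.A γ (M.α k) : Kˣ))⁻¹

/-- The relators. -/
noncomputable def rels (W : S → List (ι × K)) (W' : List (ι × K)) (LK : List (List (ι × K)))
    (ψ : S →* H) (x : Bool → K → H) (d : H) : List H :=
  T.rel ψ x d true ++ T.rel ψ x d false ++ (T.LS true).map (fun s => ⁅ψ s, d⁆) ++
  T.LD.map (fun γ => ⁅d, M.D ψ d γ⁆) ++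
  [ψ T.ν * d * (ψ T.ν)⁻¹ * d, d * (yword (M.Y ψ x) W')⁻¹] ++ T.LC.map (cmRel C (M.Y ψ x)) ++
  T.LZ.map (fun s => ψ s * (yword (M.Y ψ x) (W s))⁻¹) ++ LK.map (yword (M.Y ψ x))

theorem rels_iff {H' : Type*} [Group H'] (f : H →* H') (W : S → List (ι × K)) (W' : List (ι × K))
    (LK : List (List (ι × K))) (ψ₀ : S →* H) (x₀ : Bool → K → H) (d₀ : H) {ψ : S →* H'}
    {x : Bool → K → H'} {d : H'} (h1 : f.comp ψ₀ = ψ) (h2 : ∀ k a, f (x₀ k a) = x k a)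
    (h3 : f d₀ = d) : (∀ g ∈ T.rels W W' LK ψ₀ x₀ d₀, f g = 1) ↔
    (∀ k, (∀ s ∈ T.LS k, ψ s * x k 1 * (ψ s)⁻¹ = x k (M.c s (M.α k))) ∧
      ∀ γ ∈ T.LN k, M.D ψ d γ * x k 1 * (M.D ψ d γ)⁻¹ = x k (ζ ^ C.A γ (M.α k) : Kˣ)) ∧
    (∀ s ∈ T.LS true, Commute (ψ s) d) ∧ (∀ γ ∈ T.LD, Commute d (M.D ψ d γ)) ∧
    ψ T.ν * d * (ψ T.ν)⁻¹ = d⁻¹ ∧ d = yword (M.Y ψ x) W' ∧
    (∀ q ∈ T.LC, cmRel C (M.Y ψ x) q = 1) ∧ (∀ s ∈ T.LZ, ψ s = yword (M.Y ψ x) (W s)) ∧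
    ∀ l ∈ LK, yword (M.Y ψ x) l = 1 := by
  have h4 : ∀ s, f (ψ₀ s) = ψ s := DFunLike.congr_fun h1
  simp only [rels, rel, List.forall_mem_append, List.forall_mem_map, List.forall_mem_cons, map_mul,
    map_inv, map_commutatorElement, M.map_D, map_cmRel, map_yword, M.map_Y, h1, h2, h3, h4,
    mul_inv_eq_one, commutatorElement_eq_one_iff_commute, and_assoc, List.not_mem_nil,
    false_imp_iff, implies_true, true_and, Bool.forall_bool, mul_eq_one_iff_eq_inv, inv_inv]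
  tauto

theorem core [Finite K] (hF : ρ.Faithful) (hG : ρ.Gp = ⊤)
    (h1 : C.NoA1) {W : S → List (ι × K)} (hW : ∀ s, ρ.word (W s) = M.φ s) {W' : List (ι × K)}
    (hW' : ρ.word W' = ρ.h (M.α true) ζ) {LK : List (List (ι × K))} (hK : StPres ρ LK) {H : Type}
    [Group H] {π : H →* G} {ψ : S →* H} {x : Bool → K → H} {d : H} (hψ : π.comp ψ = M.φ)
    (hx : ∀ k, Addv (x k)) (hπ : ∀ k t, π (x k t) = ρ.x (M.α k) t) (hd : π d = ρ.h (M.α true) ζ)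
    (hc : ∀ k a, d * x k a * d⁻¹ = x k ((ζ ^ C.A (M.α true) (M.α k) : Kˣ) * a))
    (h : ∀ g ∈ T.rels W W' LK ψ x d, MonoidHom.id H g = 1) :
    ∃ θ : G →* H, (∀ s, θ (M.φ s) = ψ s) ∧ (∀ k t, θ (ρ.x (M.α k) t) = x k t) ∧
      θ (ρ.h (M.α true) ζ) = d := by
  obtain ⟨r1, r2, r3, r4, r5, r7, r8, r9⟩ :=
    (T.rels_iff (MonoidHom.id H) W W' LK ψ x d (ψ := ψ) (x := x) (d := d) (MonoidHom.id_comp _)
      (fun _ _ => rfl) rfl).1 h
  have h3 := ρ.r3_of_finite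
  have st1 : ∀ s, M.w s (M.α true) = M.α true → Commute (ψ s) d := fun s hs =>
    commute_of_gens r2 (T.LS_gen _ s hs)
  set D := M.D ψ d
  have cD : ∀ s r, M.base r = true → ψ s * D r * (ψ s)⁻¹ = D (M.w s r) := fun s r =>
    Mono.conj_D st1 s
  have Dα : D (M.α true) = d := Mono.D_α st1
  have cD' : ∀ s, ψ s * d * (ψ s)⁻¹ = D (M.w s (M.α true)) := fun s => by
    rw [← cD _ _ (M.base_α _), Dα]
  have p1 : ∀ r, M.base r = true → D (C.neg r) = (D r)⁻¹ := fun r hr => by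
    have e := M.sec_spec r
    rw [hr] at e
    rw [← e, ← RootSys.neg_aut (M.acts _).1, ← T.ν_α, ← Equiv.Perm.mul_apply, ← map_mul, ← cD',
      ← cD', map_mul, conj_inv, ← r4]; group
  have p2 : ∀ r, M.base r = true → Commute d (D r) := fun r hr => by
    obtain rfl | rfl | ⟨σ, γ, hγ, e, rfl⟩ := T.c1 r hr
    · rw [Dα]
    · rw [p1 _ (M.base_α _), Dα]; exact (Commute.refl _).inv_right
    · have := commute_conj (ψ σ) (r3 γ hγ)
      rwa [cD _ _ (T.LD_base γ hγ), cD', e, Dα] at this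
  have p3 : ∀ k γ, γ = M.α true ∨ γ ∈ T.LN k → ∀ a,
      D γ * x k a * (D γ)⁻¹ = x k ((ζ ^ C.A γ (M.α k) : Kˣ) * a) := by
    rintro k γ (rfl | hγ)
    · rw [Dα]; exact hc k
    · exact conj_of_gen (hx k) (T.gen k) (hc k) (hc k)
        (by rw [← (p2 γ (T.LN_base k γ hγ)).eq]; group) ((r1 k).2 γ hγ)
  have st2 : ∀ k s, M.w s (M.α k) = M.α k → ψ s ∈ Nm (x k) := fun k s hs =>
    (Subgroup.closure_le ((Nm (x k)).comap ψ)).2 (fun s hs => ⟨_, conj_of_gen (hx k) (T.gen k)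
      (hc k) (by
        have := p3 k _ (T.LS_N k s hs)
        nth_rw 1 [← T.LS_fix k s hs] at this
        rwa [RootSys.A_aut (M.acts s).1] at this) (cD' s) ((r1 k).1 s hs)⟩) (T.LS_gen k s hs)
  have q3 : ∀ γ, M.base γ = true → ∀ k, D γ ∈ Nm (x k) := fun γ hγ k => by
    obtain ⟨σ, γ₀, h0, hσ, e⟩ := T.c2 k γ hγ
    have e1 : M.base γ₀ = true := h0.elim (fun e => e ▸ M.base_α _) (T.LN_base k _)
    have e3 : D (M.w σ γ₀) ∈ Nm (x k) := by
      rw [← cD _ _ e1]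
      exact mul_mem (mul_mem (st2 k σ hσ) ⟨_, p3 k _ h0⟩) (inv_mem (st2 k σ hσ))
    rcases e with rfl | rfl
    · exact e3
    · rw [p1 _ ((M.base_w _ _).trans e1)]; exact inv_mem e3
  have L := Mono.lf (M := M) hψ hx hπ
  have la := Mono.la hψ st2
  obtain ⟨σ, hσ⟩ := exists_st hF h1 L la (Γ := {γ | M.base γ = true})
    (fun s γ hγ => (M.base_w s γ).trans hγ) (fun γ hγ => Mono.la_D hψ h3 hd st1 q3 hγ) r7 T.c5
  obtain ⟨θ, hθ⟩ := hK.2 H σ fun l hl => by rw [← yword_x, hσ]; exact r9 l hl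
  rw [hσ] at hθ
  have hψ' : ∀ s, π (ψ s) = M.φ s := DFunLike.congr_fun hψ
  have t1 := eq_of_normalClosure (ψ := ψ) (φ := M.φ) (θ := θ)
    (fun s a => by rw [(la s).conj_hom hF hG L hθ, hψ']) T.c6 fun s hs => by
      rw [r8 s hs, ← hW, ← yword_x, map_yword]; simp only [hθ]
  refine ⟨θ, fun s => (t1 s).symm, fun k t => (hθ _ t).trans (Mono.Y_α hF hψ hπ st2 k t), ?_⟩
  rw [r5, ← hW', ← yword_x, map_yword]; simp only [hθ]

include T in
theorem hasPres [Finite K] (hF : ρ.Faithful) (hG : ρ.Gp = ⊤) (h1 : C.NoA1)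
    {LK : List (List (ι × K))} (hK : StPres ρ LK) {g r a a' : ℕ} (hS : HasPres g r S)
    (hA : HasPres 2 a (Aff (ζ ^ C.A (M.α true) (M.α true))))
    (hA' : HasPres 2 a' (Aff (ζ ^ C.A (M.α true) (M.α false)))) :
    HasPres (g + 4) (r + (a + a') + (2 * (T.LS true).length + (T.LS false).length +
      (T.LN true).length + (T.LN false).length + T.LD.length + T.LC.length + T.LZ.length +
      LK.length + 3)) G := by
  have h3 := ρ.r3_of_finite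
  choose W hW using fun s => (ρ.mem_U_iff_word.1 (hG ▸ Subgroup.mem_top s : _ ∈ ρ.Gp))
  have hc : ∀ k a, ρ.h (M.α true) ζ * ρ.x (M.α k) a * (ρ.h (M.α true) ζ)⁻¹ =
      ρ.x (M.α k) ((ζ ^ C.A (M.α true) (M.α k) : Kˣ) * a) := fun k a => ρ.h_conj_x _ _ _ _
  obtain ⟨b, b1, b2⟩ := Aff.exists_hom (ρ.x_add _) (hc true)
  obtain ⟨b', b1', b2'⟩ := Aff.exists_hom (ρ.x_add _) (hc false)
  set π₀ := Coprod.lift M.φ (Coprod.lift b b')
  have hl : π₀.comp Coprod.inl = M.φ := Coprod.lift_comp_inl _ _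
  let x₀ : Bool → K → Coprod S (Coprod (Aff (ζ ^ C.A (M.α true) (M.α true)))
      (Aff (ζ ^ C.A (M.α true) (M.α false)))) := fun k a => Coprod.inr
    (Bool.rec (Coprod.inr (Aff.x _ a)) (Coprod.inl (Aff.x _ a)) k)
  have hx₀ : ∀ k a, π₀ (x₀ k a) = ρ.x (M.α k) a := fun k a => by cases k <;> simp [π₀, x₀, b1, b1']
  refine (hS.coprod (hA.coprod hA')).of_rel π₀ ?_
    (Coprod.inr (Coprod.inl (Aff.d _) * (Coprod.inr (Aff.d _))⁻¹) :: T.rels (fun s => W (M.φ s))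
      (W (ρ.h (M.α true) ζ)) LK Coprod.inl x₀ (Coprod.inr (Coprod.inl (Aff.d _))))
    (by simp [rels, rel]; omega) (List.forall_mem_cons.2 ⟨by simp [π₀, b2, b2'], ?_⟩)
    fun H _ f π hf hr hπ => ?_
  · rw [← MonoidHom.range_eq_top, eq_top_iff, ← hG, PreSt.U_le_iff]
    intro r _ t
    rw [← M.Y_eq]
    exact ⟨M.Y Coprod.inl x₀ r t, by simp [M.map_Y, hl, hx₀]⟩
  · refine (T.rels_iff _ _ _ LK _ _ _ hl (x := fun k => ρ.x (M.α k)) (d := ρ.h (M.α true) ζ) hx₀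
      (by simp [π₀, b2])).2 ?_
    simp only [M.Y_eq]
    refine ⟨fun k => ⟨fun s hs => by rw [M.c_spec, T.LS_fix k s hs, mul_one], fun γ hγ => by
        rw [M.D_eq h3 ζ (T.LN_base k γ hγ), ρ.h_conj_x, mul_one]⟩, fun s hs => ?_,
      fun γ hγ => M.D_eq h3 ζ (T.LD_base γ hγ) ▸ h3.commute_h (ρ.h_mem_H _ _) _ _,
      by rw [h3.conj_h (M.acts _), T.ν_α, h3.h_eq_tor, h3.h_eq_tor, ← map_inv, C.cov_neg]; congr; ext; simp,
      (hW _).2,
      fun q hq => cmRel_x _ (T.LC_ne q hq).1 (T.LC_ne q hq).2, fun s _ => (hW _).2, hK.1⟩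
    have := h3.conj_h (M.acts s) (M.α true) ζ
    rwa [T.LS_fix _ s hs, mul_inv_eq_iff_eq_mul] at this
  · obtain ⟨e, hr⟩ := List.forall_mem_cons.1 hr
    simp only [map_mul, map_inv, mul_inv_eq_one] at e
    obtain ⟨θ, t1, t2, t3⟩ := T.core hF hG h1 (fun s => (hW _).2.symm) (hW _).2.symm hK (π := π)
      (ψ := f.comp Coprod.inl) (x := fun k a => f (x₀ k a))
      (d := f (Coprod.inr (Coprod.inl (Aff.d _)))) (by ext s; simp [hπ, π₀])
      (fun k => by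
        cases k
        exacts [((Aff.addv.map Coprod.inr).map Coprod.inr).map f,
          ((Aff.addv.map Coprod.inl).map Coprod.inr).map f])
      (fun k t => by rw [hπ, hx₀]) (by simp [hπ, π₀, b2])
      (fun k a => by
        cases k
        · rw [e]; simp only [x₀, ← Aff.conj, map_mul, map_inv]
        · simp only [x₀, ← Aff.conj, map_mul, map_inv])
      ((T.rels_iff _ _ _ LK _ _ _ rfl (fun _ _ => rfl) rfl).2
        ((T.rels_iff f _ _ LK _ _ _ rfl (fun _ _ => rfl) rfl).1 hr))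
    have : θ.comp π₀ = f := Coprod.hom_ext (by ext s; simp [t1, π₀]) (Coprod.hom_ext
      (Aff.hom_ext (fun a => by simp [π₀, b1, t2, x₀]) (by simp [π₀, b2, t3]))
      (Aff.hom_ext (fun a => by simp [π₀, b1', t2, x₀]) (by simp [π₀, b2', t3, e])))
    refine LeftInverse.injective (g := θ) fun a => ?_
    obtain ⟨a, rfl⟩ := hf a
    rw [hπ]
    exact DFunLike.congr_fun this a

end TwoDat

end CF.Known.Pres
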