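import Cfsg.Agent.Known.Pres.PermX
import Cfsg.Agent.Known.Pres.SL2
import Cfsg.Agent.Chev.ClsA

/-! Short presentations of the special linear groups. -/

set_option autoImplicit false

namespace CF.Known.Pres

open Function Chev Equiv Equiv.Perm Matrix

theorem IsGen.closure_cube {F : Type*} [Field F] [Finite F] {ζ : Fˣ} (h : IsGen ζ)
    (h4 : Nat.card F ≠ 4) :
    AddSubgroup.closure (Set.range fun i : ℕ => ((ζ : F) ^ 3) ^ i) = ⊤ := by
  classical
  have := Fintype.ofFinite F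
  have e : AddSubgroup.closure (Set.range fun i : ℕ => ((ζ : F) ^ 3) ^ i) =
      (Subring.closure {(ζ : F) ^ 3}).toAddSubgroup := by
    ext a
    rw [Subring.mem_toAddSubgroup, Subring.mem_closure_iff, ← Submonoid.powers_eq_closure]; rfl
  rw [e]
  have hz : (ζ : F) ^ 3 ∈ Subring.closure {(ζ : F) ^ 3} := Subring.subset_closure rfl
  generalize Subring.closure {(ζ : F) ^ 3} = A at hz
  by_contra hA
  obtain ⟨b, hb⟩ : ∃ b, b ∉ A := by
    by_contra! h'
    exact hA (eq_top_iff.2 fun a _ => h' a)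
  have h1 : Nat.card (A × A) ≤ Nat.card F := Nat.card_le_card_of_injective
    (fun p => p.1.1 + b * p.2.1) fun p q e => by
      by_cases h0 : p.2.1 - q.2.1 = 0
      · obtain e' := sub_eq_zero.1 h0
        exact Prod.ext (Subtype.ext (by simpa [e'] using e)) (Subtype.ext e')
      · refine (hb ?_).elim
        have : b = (q.1.1 - p.1.1) * (p.2.1 - q.2.1) ^ (Fintype.card F - 2) := by
          apply mul_right_cancel₀ h0
          rw [mul_assoc, ← pow_succ, show Fintype.card F - 2 + 1 = Fintype.card F - 1 by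
            have := Fintype.one_lt_card (α := F); omega, FiniteField.pow_card_sub_one_eq_one _ h0]
          linear_combination e
        rw [this]
        exact mul_mem (sub_mem q.1.2 p.1.2) (pow_mem (sub_mem p.2.2 q.2.2) _)
  have h2 := Finset.card_le_mul_card_image_of_maps_to (s := Finset.univ.erase (0 : F))
    (t := (Finset.univ.filter (· ∈ A)).erase 0) (f := fun a => a ^ 3) (fun a ha => by
      obtain ⟨k, rfl⟩ := h.exists_pow (Finset.ne_of_mem_erase ha)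
      simp only [Finset.mem_erase, Finset.mem_filter, Finset.mem_univ, true_and]
      refine ⟨by simp, ?_⟩
      rw [← pow_mul, mul_comm, pow_mul]
      exact pow_mem hz _) 3 fun c _ =>
    (Finset.card_le_card (t := (Polynomial.nthRoots 3 c).toFinset) fun a ha => by
      simp_all).trans ((Multiset.toFinset_card_le _).trans (Polynomial.card_nthRoots _ _))
  rw [Finset.card_erase_of_mem (by simp), Finset.card_erase_of_mem (by simp), Finset.card_univ,
    ← Nat.card_eq_fintype_card, ← Fintype.card_subtype, ← Nat.card_eq_fintype_card] at h2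
  have h3 : 1 < Nat.card A := Finite.one_lt_card
  rw [Nat.card_prod] at h1
  generalize Nat.card A = m at *
  obtain rfl | h5 : m = 2 ∨ 3 ≤ m := by omega
  · omega
  · have := Nat.mul_le_mul_right m h5
    omega

variable {n : ℕ} {K : Type*} [Field K]

/-- The action of permutations on the roots of type `A`. -/
def wA (n : ℕ) : Perm (Fin (n + 1)) →* Perm (RtA n) :=
  MonoidHom.toHomPerm
    { toFun σ r := ⟨(σ r.1.1, σ r.1.2), σ.injective.ne r.2⟩
      map_one' := rfl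
      map_mul' _ _ := rfl }

theorem wA_apply (σ : Perm (Fin (n + 1))) (r : RtA n) :
    wA n σ r = ⟨(σ r.1.1, σ r.1.2), σ.injective.ne r.2⟩ := rfl

theorem wA_mem (σ : Perm (Fin (n + 1))) : wA n σ ∈ (cbA n).Aut :=
  euc_mem_aut (eucA n) (p := σ) fun r => by
    ext j; simp [eucA_ev, wA_apply, wtA_apply, symm_apply_eq]

theorem perm_mul_single {I : Type*} [Fintype I] [DecidableEq I] (σ : Perm I) (i j : I) (t : K) :
    permMatrixHom σ * single i j t = single (σ i) (σ j) t * permMatrixHom σ := by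
  ext a b
  simp [permMatrixHom_apply, Perm.permMatrix, PEquiv.toMatrix_toPEquiv_mul,
    PEquiv.mul_toMatrix_toPEquiv, single_apply, eq_symm_apply, Perm.inv_def]

variable {S : Subgroup (Perm (Fin (n + 1)))} (χ : S →* Kˣ)
  (hχ : ∀ σ, (χ σ : K) ^ (n + 1) * sign σ.1 = 1)

/-- Permutation matrices, scaled to determinant one. -/
def permSL : S →* SpecialLinearGroup (Fin (n + 1)) K where
  toFun σ := ⟨(χ σ : K) • permMatrixHom σ.1, by simpa using hχ σ⟩
  map_one' := Subtype.ext (by simp)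
  map_mul' a b := Subtype.ext (show _ = ((χ a : K) • permMatrixHom a.1) * ((χ b : K) •
    permMatrixHom b.1) by simp [mul_smul, smul_comm (χ b : K)])

theorem val_permSL (σ : S) : (permSL χ hχ σ : Matrix _ _ K) = (χ σ : K) • permMatrixHom σ.1 := rfl

theorem permSL_conj (σ : S) (r : RtA n) (t : K) :
    permSL χ hχ σ * (slRep n K).x r t * (permSL χ hχ σ)⁻¹ = (slRep n K).x (wA n σ r) t := by
  rw [mul_inv_eq_iff_eq_mul]
  refine Subtype.ext ?_
  rw [Matrix.SpecialLinearGroup.coe_mul, Matrix.SpecialLinearGroup.coe_mul, val_slRep_x,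
    val_slRep_x, val_permSL, transvection, transvection, smul_mul_assoc, mul_smul_comm, mul_add,
    add_mul, perm_mul_single, mul_one, one_mul]
  rfl

theorem acts_permSL (σ : S) : (slRep n K).Acts (permSL χ hχ σ) (wA n σ) :=
  ⟨wA_mem σ.1, 1, by simp, fun r t => by rw [permSL_conj, Pi.one_apply, Units.val_one, one_mul]⟩

/-- The monomial group of type `A`. -/
noncomputable def monoA (α : RtA n) (h : ∀ r, ∃ σ : S, wA n σ α = r) : Mono (slRep n K) S Unit where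
  φ := permSL χ hχ
  w := (wA n).comp S.subtype
  acts := acts_permSL χ hχ
  α _ := α
  base _ := ()
  sec r := (h r).choose
  sec_spec r := (h r).choose_spec
  base_w _ _ := rfl
  base_α _ := rfl

theorem addA {r s v : RtA n} (h : (cbA n).vec v = (cbA n).vec r + (cbA n).vec s) :
    (r.1.2 = s.1.1 ∧ v.1 = (r.1.1, s.1.2)) ∨ (s.1.2 = r.1.1 ∧ v.1 = (s.1.1, r.1.2)) := by
  have h1 := (A_of_add sameLen_cbA h).1
  have h2 := cbA_add_iff.1 h
  have := r.2; have := s.2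
  rw [cbA_A] at h1
  by_cases e : r.1.2 = s.1.1
  · have := wtA_sub_eq (c := r.1.1) (d := s.1.2) v.2 (by rw [h2, e]; abel)
    exact .inl ⟨e, Prod.ext this.1 this.2⟩
  · have e' : s.1.2 = r.1.1 := by grind
    have := wtA_sub_eq (c := s.1.1) (d := r.1.2) v.2 (by rw [h2, e']; abel)
    exact .inr ⟨e', Prod.ext this.1 this.2⟩

theorem addA' {i j k : Fin (n + 1)} (h1 : i ≠ j) (h2 : j ≠ k) (h3 : i ≠ k) :
    (cbA n).vec ⟨(i, k), h3⟩ = (cbA n).vec ⟨(i, j), h1⟩ + (cbA n).vec ⟨(j, k), h2⟩ :=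
  cbA_add_iff.2 (by simp)

theorem exists_three (hS : alternatingGroup _ ≤ S) {a b c i j k : Fin (n + 1)} (h1 : a ≠ b)
    (h2 : a ≠ c) (h3 : b ≠ c) (h4 : i ≠ j) (h5 : i ≠ k) (h6 : j ≠ k) {τ : Perm (Fin (n + 1))}
    (hτ : sign τ = -1) : ∃ σ : S, (σ.1 a = i ∧ σ.1 b = j ∧ σ.1 c = k) ∨
      (σ.1 (τ a) = i ∧ σ.1 (τ b) = j ∧ σ.1 (τ c) = k) := by
  obtain ⟨σ, e⟩ := exists_even_or (inj3 h1 h2 h3) (inj3 h4 h5 h6) hτ
  exact ⟨⟨σ, hS σ.2⟩, e.imp (fun e => ⟨e 0, e 1, e 2⟩) fun e => ⟨e 0, e 1, e 2⟩⟩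

include hχ in
theorem hasPres_SL_of [Finite K] (hn : 2 ≤ n) (hS : alternatingGroup _ ≤ S) {ζ : Kˣ}
    (hζ : IsGen ζ) {a b c : Fin (n + 1)} (hab : a ≠ b) (hac : a ≠ c) (hbc : b ≠ c)
    (h2 : ∀ r, ∃ σ : S, wA n σ ⟨(a, b), hab⟩ = r) (LS : List S)
    (hLS : ∀ σ, σ ∈ Subgroup.closure {s | s ∈ LS} ↔ σ.1 a = a ∧ σ.1 b = b)
    (L6 : List (RtA n)) (hL6 : ∀ γ ∈ L6, γ.1.1 = a ∧ γ.1.2 ≠ b)
    (h6 : ∀ k, k ≠ a → k ≠ b → ∃ σ : S, σ.1 a = a ∧ σ.1 b = b ∧
      (σ.1 c = k ∨ ∃ γ ∈ L6, σ.1 γ.1.2 = k))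
    (T3 : List (Perm (Fin (n + 1)))) (h3 : ∀ i j k, i ≠ j → i ≠ k → j ≠ k → ∃ σ : S, ∃ τ ∈ T3,
      σ.1 (τ a) = i ∧ σ.1 (τ b) = j ∧ σ.1 (τ c) = k)
    (T4 : List (RtA n × RtA n)) (hT4 : ∀ p ∈ T4, p.1 ≠ p.2 ∧ p.1 ≠ (cbA n).neg p.2)
    (h4 : ∀ r s : RtA n, r.1.1 ≠ s.1.1 → r.1.1 ≠ s.1.2 → r.1.2 ≠ s.1.1 → r.1.2 ≠ s.1.2 →
      ∃ σ : S, ∃ p ∈ T4, wA n σ p.1 = r ∧ wA n σ p.2 = s)
    (V : List (K × K)) (hV : ∀ r s, r ≠ s → r ≠ (cbA n).neg s →
      Spans (cbA n) ζ Set.univ r s {p | p ∈ V}) (z : S) (hz : Subgroup.normalClosure {z} = ⊤)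
    {g r e : ℕ} (hP : HasPres g r S) (hA : HasPres 2 e (Aff ζ)) :
    HasPres (g + 2) (r + e + (2 * LS.length + L6.length + T3.length +
      (2 + T3.length + T4.length) * V.length + 3)) (SpecialLinearGroup (Fin (n + 1)) K) := by
  set P : List (RtA n × RtA n) := [(⟨(a, b), hab⟩, ⟨(a, c), hac⟩), (⟨(a, b), hab⟩, ⟨(c, b), hbc.symm⟩)]
    ++ T3.map (fun τ => (wA n τ ⟨(a, b), hab⟩, wA n τ ⟨(b, c), hbc⟩)) ++ T4 with hP'
  have hne : ∀ p ∈ P, p.1 ≠ p.2 ∧ p.1 ≠ (cbA n).neg p.2 := by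
    simp only [hP', List.forall_mem_append, List.forall_mem_map, List.forall_mem_cons, wA_apply,
      cbA_neg, ne_eq, Subtype.mk.injEq, Prod.mk.injEq, EmbeddingLike.apply_eq_iff_eq]
    exact ⟨⟨by simp [*], by simp [*]⟩, hT4⟩
  have wa : ∀ (σ : S) r, (monoA χ hχ _ h2).w σ r = ⟨(σ.1 r.1.1, σ.1 r.1.2), σ.1.injective.ne r.2⟩ :=
    fun _ _ => rfl
  have cov : ∀ r s : RtA n, s ≠ r → s ≠ (cbA n).neg r → ∃ σ : S, ∃ p ∈ P,
      (wA n σ p.1 = r ∧ wA n σ p.2 = s) ∨ (wA n σ p.1 = s ∧ wA n σ p.2 = r) := by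
    rintro ⟨⟨i, j⟩, hij⟩ ⟨⟨k, l⟩, hkl⟩ e1 e2
    simp only [cbA_neg, ne_eq, Subtype.mk.injEq, Prod.mk.injEq, not_and] at e1 e2 hij hkl
    by_cases c1 : i = k
    · subst c1
      obtain ⟨σ, e⟩ := exists_three hS hab hac hbc hij hkl (Ne.symm (e1 rfl)) (sign_swap hbc)
      refine ⟨σ, (⟨(a, b), hab⟩, ⟨(a, c), hac⟩), by simp [hP'], ?_⟩
      simpa [wA_apply, swap_apply_of_ne_of_ne hab hac, and_comm, and_assoc, and_left_comm] using e
    by_cases c2 : j = l
    · subst c2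
      obtain ⟨σ, e⟩ := exists_three hS hab hac hbc hij c1 (Ne.symm hkl) (sign_swap hac)
      refine ⟨σ, (⟨(a, b), hab⟩, ⟨(c, b), hbc.symm⟩), by simp [hP'], ?_⟩
      simpa [wA_apply, swap_apply_of_ne_of_ne hab.symm hbc, and_comm, and_assoc, and_left_comm]
        using e
    by_cases c3 : j = k
    · subst c3
      obtain ⟨σ, τ, hτ, e⟩ := h3 i j l hij (Ne.symm (e2 rfl)) c2
      exact ⟨σ, _, List.mem_append_left _ (List.mem_append_right _ (List.mem_map_of_mem hτ)),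
        .inl (by simp [wA_apply, e])⟩
    by_cases c4 : i = l
    · subst c4
      obtain ⟨σ, τ, hτ, e⟩ := h3 k i j hkl (Ne.symm c3) hij
      exact ⟨σ, _, List.mem_append_left _ (List.mem_append_right _ (List.mem_map_of_mem hτ)),
        .inr (by simp [wA_apply, e])⟩
    obtain ⟨σ, p, hp, e⟩ := h4 ⟨(i, j), hij⟩ ⟨(k, l), hkl⟩ c1 c4 c3 c2
    exact ⟨σ, p, List.mem_append_right _ hp, .inl e⟩
  let T : LacedDat (monoA χ hχ _ h2) ζ :=
  { β := ⟨(a, c), hac⟩
    LS := LS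
    L6 := L6
    LP := T3.map fun τ => (wA n τ ⟨(a, b), hab⟩, wA n τ ⟨(b, c), hbc⟩, wA n τ ⟨(a, c), hac⟩)
    LC := (P ×ˢ V).map fun q => (q.1.1, q.1.2, q.2)
    LZ := [z]
    A_β := by simp [monoA, cbA_A, hab.symm, hac, hbc]
    LS_fix s hs := by
      have := (hLS s).1 (Subgroup.subset_closure hs)
      exact Subtype.ext (Prod.ext this.1 this.2)
    LS_gen s hs := (hLS s).2 (Prod.ext_iff.1 (Subtype.ext_iff.1 hs))
    L6_A γ hγ := by
      obtain ⟨e1, e2⟩ := hL6 γ hγ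
      have := γ.2
      simp only [monoA, cbA_A]; grind
    LP_add := List.forall_mem_map.2 fun τ _ => addA' _ _ _
    LC_ne := List.forall_mem_map.2 fun q hq => hne _ (List.mem_product.1 hq).1
    c1 := by
      rintro ⟨⟨i, j⟩, hij⟩ ⟨⟨k, l⟩, hkl⟩ ⟨v, hv⟩ h
      rcases addA h with ⟨rfl, rfl⟩ | ⟨rfl, rfl⟩
      · obtain ⟨σ, τ, hτ, e⟩ := h3 _ _ _ hij hv hkl
        exact ⟨σ, _, List.mem_map_of_mem hτ, .inl (by simp [wa, wA_apply, e])⟩
      · obtain ⟨σ, τ, hτ, e⟩ := h3 _ _ _ hkl hv hij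
        exact ⟨σ, _, List.mem_map_of_mem hτ, .inr (by simp [wa, wA_apply, e])⟩
    c2 := by
      rintro ⟨⟨i, j⟩, hij⟩ ⟨⟨k, l⟩, hkl⟩ ⟨v, hv⟩ h
      rcases addA h with ⟨rfl, rfl⟩ | ⟨rfl, rfl⟩
      · obtain ⟨σ, e⟩ := exists_three hS hab hac hbc hij hv hkl (sign_swap hbc)
        refine ⟨σ, _, .inl rfl, ?_⟩
        simpa [monoA, wA_apply, swap_apply_of_ne_of_ne hab hac, and_comm, and_assoc,
          and_left_comm] using e
      · obtain ⟨σ, e⟩ := exists_three hS hab hac hbc hkl hv hij (sign_swap hbc)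
        refine ⟨σ, _, .inr rfl, ?_⟩
        simpa [monoA, wA_apply, swap_apply_of_ne_of_ne hab hac, and_comm, and_assoc,
          and_left_comm] using e
    c3 := by
      rintro ⟨⟨i, j⟩, hij⟩ h
      have key : ∀ k (hk : a ≠ k), k ≠ b → ∃ σ : S, ∃ γ₀, (γ₀ = ⟨(a, c), hac⟩ ∨ γ₀ ∈ L6) ∧
          wA n σ ⟨(a, b), hab⟩ = ⟨(a, b), hab⟩ ∧ wA n σ γ₀ = ⟨(a, k), hk⟩ := fun k h1 h2 => by
        obtain ⟨σ, e1, e2, e | ⟨γ, hγ, e⟩⟩ := h6 k h1.symm h2
        · exact ⟨σ, _, .inl rfl, by simp [wA_apply, *]⟩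
        · exact ⟨σ, γ, .inr hγ, by simp [wA_apply, (hL6 γ hγ).1, *]⟩
      simp only [monoA, cbA_A] at h
      obtain ⟨rfl, e⟩ | ⟨rfl, e⟩ : (a = i ∧ j ≠ b) ∨ (b = j ∧ a ≠ i) := by grind
      · obtain ⟨σ, γ, e1, e2, e3⟩ := key j hij e
        exact ⟨σ, γ, e1, e2, .inl e3⟩
      · obtain ⟨σ, γ, e1, e2, e3⟩ := key i e hij
        exact ⟨σ, γ, e1, e2, .inr (e3 ▸ addA' _ _ _)⟩
    c4 := by
      rintro ⟨⟨i, j⟩, hij⟩ h
      simp only [monoA, cbA_A] at h ⊢
      have : a ≠ i ∧ a ≠ j ∧ b ≠ i ∧ b ≠ j := by grind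
      exact ⟨⟨(i, b), this.2.2.1.symm⟩, ⟨(b, j), this.2.2.2⟩, addA' _ _ _, by simp [*]⟩
    c5 r s e1 e2 := by
      obtain ⟨σ, p, hp, e⟩ := cov r s e1 e2
      exact ⟨σ, p.1, p.2, e, (hV _ _ (hne p hp).1 (hne p hp).2).mono fun v hv =>
        List.mem_map.2 ⟨(p, v), List.mem_product.2 ⟨hp, hv⟩, rfl⟩⟩
    c6 := by simpa using hz }
  refine (T.hasPres hζ sameLen_cbA (faithful_slRep n K (by omega)) (slRep_Gp n K) (noA1A hn)
    (stPres_of_inj (faithful_slRep n K (by omega)) (slRep_Gp n K) (tor_injective_slRep n K))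
    hP hA).mono ?_
  simp [T, hP', List.length_product]
  ring_nf; omega

theorem exists_notMem {Ω : Type*} [Fintype Ω] (l : List Ω) (h : l.length < Fintype.card Ω) :
    ∃ m, m ∉ l := by
  classical
  by_contra! h'
  have := Finset.card_le_card (s := Finset.univ) (t := l.toFinset) fun a _ => by simpa using h' a
  have := l.toFinset_card_le
  simp only [Finset.card_univ] at *
  omega

theorem spansA [Finite K] {ζ : Kˣ} (hζ : IsGen ζ) (hn : 3 ≤ n) (r s : RtA n) (h1 : r ≠ s)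
    (h2 : r ≠ (cbA n).neg s) : Spans (cbA n) ζ Set.univ r s {p | p ∈ [((1 : K), (1 : K))]} := by
  have key : ∀ r s : RtA n, r ≠ s → r ≠ (cbA n).neg s → ∃ γ, ∃ a : ℕ, (cbA n).A γ r = a ∧
      (cbA n).A γ s = 0 ∧ AddSubgroup.closure (Set.range fun i : ℕ => ((ζ : K) ^ a) ^ i) = ⊤ := by
    rintro ⟨⟨i, j⟩, hij⟩ ⟨⟨k, l⟩, hkl⟩ h1 h2
    simp only [cbA_neg, ne_eq, Subtype.mk.injEq, Prod.mk.injEq, not_and] at h1 h2 hij hkl
    have ex : ∀ x y z : Fin (n + 1), ∃ m, m ≠ x ∧ m ≠ y ∧ m ≠ z := fun x y z => by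
      simpa using exists_notMem [x, y, z] (by simp; omega)
    by_cases c1 : j = k ∨ j = l
    · obtain ⟨m, hm⟩ := ex i k l
      exact ⟨⟨(i, m), hm.1.symm⟩, 1, by simp only [cbA_A]; grind, by simp only [cbA_A]; grind,
        by simpa using hζ.closure⟩
    by_cases c2 : i = k ∨ i = l
    · obtain ⟨m, hm⟩ := ex j k l
      exact ⟨⟨(m, j), hm.1⟩, 1, by simp only [cbA_A]; grind, by simp only [cbA_A]; grind,
        by simpa using hζ.closure⟩
    exact ⟨_, 2, RootSys.A_self _ _, by simp only [cbA_A]; grind, hζ.closure_sq⟩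
  obtain ⟨γ, a, e1, e2, e3⟩ := key r s h1 h2
  obtain ⟨δ, b, e4, e5, e6⟩ := key s r h1.symm fun e => h2 ((cbA n).eq_neg_comm.1 e)
  simpa using spans_of_list (l := [γ]) (l' := [δ]) (by simp) (by simp) (by simpa) (by simpa)
    (by simpa) (by simpa) e3 e6

theorem hasPres_SL_big [Finite K] (hn : 4 ≤ n) {g r : ℕ}
    (hP : HasPres g r (alternatingGroup (Fin (n + 1)))) :
    HasPres (g + 2) (r + if n = 4 then 17 else 16) (SpecialLinearGroup (Fin (n + 1)) K) := by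
  obtain ⟨ζ, hζ⟩ := exists_isGen K
  obtain ⟨a, b, c, d, hab, hac, had, hbc, hbd, hcd⟩ : ∃ a b c d : Fin (n + 1),
      a ≠ b ∧ a ≠ c ∧ a ≠ d ∧ b ≠ c ∧ b ≠ d ∧ c ≠ d :=
    ⟨⟨0, by omega⟩, ⟨1, by omega⟩, ⟨2, by omega⟩, ⟨3, by omega⟩, by simp⟩
  obtain ⟨LS, l1, l2⟩ := exists_gens_alt {a, b}
  obtain ⟨e, he⟩ := exists_notMem [a, b, c, d] (by simp; omega)
  simp only [List.mem_cons, List.not_mem_nil, or_false, not_or, ← ne_eq] at he
  have h5 : ∀ i j k, i ≠ j → i ≠ k → j ≠ k → ∃ σ : alternatingGroup (Fin (n + 1)),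
      σ.1 a = i ∧ σ.1 b = j ∧ σ.1 c = k := fun i j k h1 h2 h3 => by
    obtain ⟨σ, e⟩ := exists_even (inj3 hab hac hbc) (inj3 h1 h2 h3) he.2.2.2
      (by simp [Fin.forall_fin_succ, Ne.symm, he]) (by simp [Fin.forall_fin_succ, *])
    exact ⟨σ, e 0, e 1, e 2⟩
  have main := hasPres_SL_of (K := K) 1 (fun σ => by simp [show sign σ.1 = 1 from σ.2]) (by omega)
    le_rfl hζ hab hac hbc (fun r => by
      obtain ⟨k, hk⟩ := exists_notMem [r.1.1, r.1.2] (by simp; omega)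
      obtain ⟨σ, e⟩ := h5 _ _ k r.2 (by grind) (by grind)
      exact ⟨σ, by simp [wA_apply, e]⟩) LS (by simpa using l2) [] (by simp)
    (fun k h1 h2 => by simpa using h5 a b k hab h1.symm h2.symm) [1] (by simpa using h5)
    (V := [(1, 1)]) (hV := spansA hζ (by omega)) (z := _)
    (hz := normalClosure_c3 hab hac.symm hbc.symm) (hP := hP) (hA := hasPres_aff hζ)
  split_ifs with h4
  · simpa [l1] using main [(⟨(a, b), hab⟩, ⟨(c, d), hcd⟩), (⟨(a, b), hab⟩, ⟨(d, c), hcd.symm⟩)]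
      (by simp [cbA_neg, *]) fun r s h1 h2 h3 h4 => by
        obtain ⟨σ, e | e⟩ := exists_even_or (inj4 hab hac had hbc hbd hcd)
          (inj4 r.2 h1 h2 h3 h4 s.2) (sign_swap hcd) <;>
        simp [Fin.forall_fin_succ, swap_apply_of_ne_of_ne, *] at e <;>
        exact ⟨σ, by simp [wA_apply, e]⟩
  · obtain ⟨f, hf⟩ := exists_notMem [a, b, c, d, e] (by simp; omega)
    simp only [List.mem_cons, List.not_mem_nil, or_false, not_or, ← ne_eq] at hf
    simpa [l1] using main [(⟨(a, b), hab⟩, ⟨(c, d), hcd⟩)] (by simp [cbA_neg, *])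
      fun r s h1 h2 h3 h4 => by
        obtain ⟨σ, e⟩ := exists_even (inj4 hab hac had hbc hbd hcd) (inj4 r.2 h1 h2 h3 h4 s.2)
          hf.2.2.2.2 (by simp [Fin.forall_fin_succ, Ne.symm, hf])
          (by simp [Fin.forall_fin_succ, Ne.symm, he])
        simp [Fin.forall_fin_succ] at e
        exact ⟨σ, by simp [wA_apply, e]⟩

theorem hasPres_SL4 [Finite K] : HasPres 4 19 (SpecialLinearGroup (Fin 4) K) := by
  obtain ⟨ζ, hζ⟩ := exists_isGen K
  exact hasPres_SL_of (n := 3) (K := K) 1 (fun σ => by simp [show sign σ.1 = 1 from σ.2]) (by omega)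
    le_rfl hζ (a := 0) (b := 1) (c := 2) (by decide) (by decide) (by decide)
    (by simp only [wA_apply]; decide +kernel) []
    (by simp only [List.not_mem_nil, Set.ofPred_false, Subgroup.closure_empty, Subgroup.mem_bot]
        decide +kernel) [⟨(0, 3), by decide⟩] (by decide) (fun k _ _ => ⟨1, by revert k; decide⟩)
    [1, swap 0 1] (by decide +kernel)
    [(⟨(0, 1), by decide⟩, ⟨(2, 3), by decide⟩), (⟨(0, 1), by decide⟩, ⟨(3, 2), by decide⟩)]
    (by simp only [cbA_neg]; decide +kernel) (by simp only [wA_apply]; decide +kernel) _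
    (spansA hζ le_rfl) _ (normalClosure_c3 (a := 0) (b := 1) (c := 2) (by decide) (by decide)
      (by decide)) presOn_a4.hasPres (hasPres_aff hζ)

theorem hasPres_SL3 [Finite K] : HasPres 4 14 (SpecialLinearGroup (Fin 3) K) := by
  obtain ⟨ζ, hζ⟩ := exists_isGen K
  have main := fun e => hasPres_SL_of (n := 2) (K := K) (S := ⊤) (e := e)
    ((Units.map (Int.castRingHom K).toMonoidHom).comp (sign.comp (Subgroup.subtype _)))
    (fun σ => by rcases Int.units_eq_one_or (sign σ.1) with h | h <;> simp [h]; norm_num) le_rfl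
    le_top hζ (a := 0) (b := 1) (c := 2) (by decide) (by decide) (by decide)
    (by simp only [wA_apply, Subtype.exists, Subgroup.mem_top]; decide) []
    (by simp only [List.not_mem_nil, Set.ofPred_false, Subgroup.closure_empty, Subgroup.mem_bot,
      Subtype.forall, Subtype.ext_iff, Subgroup.mem_top]; decide) [] (by simp)
    (fun k _ _ => ⟨1, by revert k; decide⟩) [1]
    (by simp only [Subtype.exists, Subgroup.mem_top, List.mem_singleton, exists_eq_left]; decide)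
    [] (by simp) (by simp only [List.not_mem_nil, false_and, exists_false]; decide)
    (z := ⟨swap 0 1, trivial⟩) (hz := eq_top_iff.2 fun σ _ => by
      have h0 : (⟨swap 0 1, trivial⟩ : (⊤ : Subgroup (Perm (Fin 3)))) ∈
        Subgroup.normalClosure {⟨swap 0 1, trivial⟩} := Subgroup.subset_normalClosure rfl
      have h1 := Subgroup.Normal.conj_mem inferInstance _ h0
      obtain ⟨a, b, e⟩ : ∃ a b : Perm (Fin 3), σ.1 = a * swap 0 1 * a⁻¹ ∨
        σ.1 = a * swap 0 1 * a⁻¹ * (b * swap 0 1 * b⁻¹) := by 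
          generalize σ.1 = τ; revert τ; decide +kernel
      rcases e with e | e
      · convert h1 ⟨a, trivial⟩; exact Subtype.ext e
      · convert mul_mem (h1 ⟨a, trivial⟩) (h1 ⟨b, trivial⟩); exact Subtype.ext e)
    (hP := hasPres_S3.of_equiv Subgroup.topEquiv.symm)
  have key : ∀ r s : RtA 2, r ≠ s → r ≠ (cbA 2).neg s → (∃ γ, (cbA 2).A γ r = 1) ∧
      ∃ γ δ, ([γ, γ, δ].map ((cbA 2).A · r)).sum = (3 : ℕ) ∧
        ([γ, γ, δ].map ((cbA 2).A · s)).sum = 0 := by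
    simp only [cbA_neg, cbA_A]; decide +kernel
  by_cases h4 : Nat.card K = 4
  · refine main _ [(1, 1), (1, ζ)] (fun r s h1 h2 P p1 p2 p3 p4 p5 p6 t u => ?_)
      (hasPres_aff_four h4 hζ)
    obtain ⟨⟨γ, hγ⟩, -⟩ := key r s h1 h2
    have q1 : ∀ u, P 1 u := fun u => by
      classical
      cases nonempty_fintype K
      have ho := hζ.orderOf
      rw [← Nat.card_eq_fintype_card, h4] at ho
      have h0 : (ζ : K) ^ 2 ≠ 1 := fun e =>
        pow_ne_one_of_lt_orderOf (x := ζ) two_ne_zero (by omega) (Units.ext (by simpa using e))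
      have := ζ.ne_zero
      have : u ∈ ({0, 1, ζ.1, 1 + ζ.1} : Finset K) := (Finset.eq_univ_of_card _ (?_ :
        Finset.card {0, 1, ζ.1, 1 + ζ.1} = Fintype.card K)) ▸ Finset.mem_univ u
      swap
      · rw [← Nat.card_eq_fintype_card, h4, Finset.card_eq_four]
        refine ⟨_, _, _, _, ?_, ?_, ?_, ?_, ?_, ?_, rfl⟩ <;> clear * - h0 this <;> grind
      have a1 := p6 (1, 1) (by simp)
      have a2 := p6 (1, ζ) (by simp)
      simp only [Finset.mem_insert, Finset.mem_singleton] at this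
      rcases this with rfl | rfl | rfl | rfl
      exacts [p3 _, a1, a2, p2 _ _ _ a1 a2]
    by_cases ht : t = 0
    · exact ht ▸ p4 u
    obtain ⟨k, rfl⟩ := hζ.exists_pow ht
    clear ht
    induction k generalizing u with
    | zero => simpa using q1 u
    | succ k ih => simpa [hγ, pow_succ', zpow_ne_zero] using p5 γ trivial _ _ (ih ((ζ ^ (cbA 2).A γ s)⁻¹ * u))
  · refine (main _ [(1, 1)] (fun r s h1 h2 => ?_) (hasPres_aff hζ)).mono (by simp)
    obtain ⟨-, γ, δ, e1, e2⟩ := key r s h1 h2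
    obtain ⟨-, γ', δ', e3, e4⟩ := key s r h1.symm fun e => h2 ((cbA 2).eq_neg_comm.1 e)
    simpa using spans_of_list (by simp) (by simp) e1 e2 e4 e3 (hζ.closure_cube h4)
      (hζ.closure_cube h4)

theorem hasPres_SL5 [Finite K] : HasPres 4 20 (SpecialLinearGroup (Fin 5) K) :=
  hasPres_SL_big (n := 4) le_rfl presOn_a5.hasPres

theorem hasPres_SL [Finite K] (hn : 2 ≤ n) : HasPres 5 23 (SpecialLinearGroup (Fin n) K) := by
  obtain rfl | rfl | rfl | rfl | h : n = 2 ∨ n = 3 ∨ n = 4 ∨ n = 5 ∨ 6 ≤ n := by omega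
  · exact hasPres_SL2.add' (by omega) (by omega)
  · exact hasPres_SL3.add' (by omega) (by omega)
  · exact hasPres_SL4.add' (by omega) (by omega)
  · exact hasPres_SL5.add' (by omega) (by omega)
  · obtain ⟨n, rfl⟩ : ∃ m, n = m + 1 := ⟨n - 1, by omega⟩
    simpa [show n ≠ 4 by omega] using hasPres_SL_big (K := K) (n := n) (by omega)
      (hasPres_three (by omega)).2

theorem hasPres_PSL [Finite K] (hn : 2 ≤ n) :
    HasPres 5 24 (ProjectiveSpecialLinearGroup (Fin n) K) :=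
  have := isCyclic_center_SL n K
  (hasPres_SL hn).quot_center

end CF.Known.Pres
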