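import Cfsg.Agent.Known.Pres.Wr
import Cfsg.Agent.Chev.Spin

/-! Short presentations of the orthogonal groups of plus type. -/

set_option autoImplicit false

namespace CF.Known.Pres

open Function hiding swap
open Chev Equiv Equiv.Perm Matrix Geom
open scoped commutatorElement

variable {n c : ℕ} {K : Type*} [Field K]

/-- Permutation matrices. -/
def permGL (I : Type) [Fintype I] [DecidableEq I] (K : Type*) [Field K] : Perm I →* GL I K :=
  (permMatrixHom (R := K)).toHomUnits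

theorem permGL_mulVec {I : Type} [Fintype I] [DecidableEq I] (σ : Perm I) (v : I → K) :
    (permGL I K σ).val *ᵥ v = v ∘ σ.symm := permMatrix_mulVec _

theorem betO_even (hc : OkO c (2 * n)) (a : Fin (2 * n)) : betO c a = 1 ∨ betO c a = -1 := by
  have := ne_mid a
  unfold betO OkO at *; split_ifs <;> omega

theorem cfP_even (hc : OkO c (2 * n)) (a : Fin (2 * n)) : cfP c a = 1 := by
  have := ne_mid a
  unfold cfP betO OkO at *; split_ifs <;> omega

theorem cfQ_even (hc : OkO c (2 * n)) {a b : Fin (2 * n)} (h : a.val + b + 1 ≠ 2 * n) :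
    cfQ c a b = -(betO c a * betO c b) := by
  have := ne_mid a
  have := ne_mid b
  unfold cfQ betO OkO at *; split_ifs <;> omega

theorem acts_permGL {B : Type} [Fintype B] [DecidableEq B] (b : BaseO c (2 * n) B)
    {ρ : StRep b.cb K (GL (Fin (2 * n)) K)}
    (hρ : ∀ r t, (ρ.x r t).val = 1 + t • (TO c r.1.1 r.1.2).map (↑))
    (g : Wr (ZMod 2) n) (h : ∀ a, betO c (pt g a) = betO c a) :
    ρ.Acts (permGL _ K (pt g)) (wO b.ok g) := by
  have hn := RootSys.neg_aut (wO_mem b g)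
  refine ⟨wO_mem b g, fun s => if (wO b.ok g s).1 = (pt g s.1.1, pt g s.1.2) then 1 else
    if betO c s.1.1 * betO c s.1.2 = 1 then -1 else 1, fun s => ?_, fun s u => ?_⟩
  · simp only [hn]
    simp only [b.cb_neg, RtO.neg, Prod.ext_iff, and_comm, mul_comm (betO c s.1.2)]
    split_ifs <;> simp
  rw [mul_inv_eq_iff_eq_mul]
  refine Units.ext (matrix_eq_iff_mulVec.2 fun v => ?_)
  have e0 : ∀ a, (Pi.single a 1 : _ → K) ∘ (pt g).symm = Pi.single (pt g a) 1 := fun a => by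
    ext j; simp [Pi.single_apply, symm_apply_eq]
  have e1 : (pt g s.1.1).val + pt g s.1.2 + 1 = 2 * n ↔ s.1.1.val + s.1.2 + 1 = 2 * n := by
    rw [← wtO_add_eq_zero, ← wtO_add_eq_zero, ← wtO_comp, ← wtO_comp, ← Pi.add_comp]
    exact ⟨fun e => funext fun i => by simpa using congrFun e (pt g i), fun e => by rw [e]; rfl⟩
  simp only [Units.val_mul, ← mulVec_mulVec, permGL_mulVec, hρ, one_add_mulVec, smul_mulVec,
    TO_mulVec, Pi.add_comp, Pi.smul_comp, e0]
  split_ifs with h1 h2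
  · simp only [h1, cfP, cfQ, h, e1, ← pt_rev, Function.comp_apply, symm_apply_apply, Units.val_one, one_mul]
  all_goals
    obtain e | ⟨e, e'⟩ := wtO_sub_eq (wO b.ok g s).2.1 (x := pt g s.1.1) (y := pt g s.1.2)
      ((evO_wO b.ok g s).trans (by rw [← wtO_comp, ← wtO_comp]; rfl))
    · exact absurd (Prod.ext e.1 e.2) h1
    have e2 : s.1.1.val + s.1.2 + 1 ≠ 2 * n := fun e2 => h1 (by
      rw [← e1] at e2
      refine Prod.ext (e.trans ?_) (e'.trans ?_) <;> ext <;> simp <;> omega)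
    have e3 : (pt g s.1.2.rev).val + pt g s.1.1.rev + 1 ≠ 2 * n := by
      rw [Ne, ← e1] at e2; simp [pt_rev]; omega
    have e4 : betO c s.1.2.rev * betO c s.1.1.rev = betO c s.1.1 * betO c s.1.2 := by
      simp only [betO_rev b.ok]; split_ifs <;> ring
    simp only [e, e', ← pt_rev, Function.comp_apply, symm_apply_apply, Fin.rev_rev, cfP_even b.ok,
      cfQ_even b.ok e2, cfQ_even b.ok e3, h, e4]
  · rw [h2]; simp; module
  · rw [show betO c s.1.1 * betO c s.1.2 = -1 by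
      rcases betO_even b.ok s.1.1 with e | e <;> rcases betO_even b.ok s.1.2 with e' | e' <;>
        simp_all]
    simp; module

/-- The even signed permutations with even underlying permutation. -/
def W0 (n : ℕ) : Subgroup (Wr (ZMod 2) n) where
  carrier := {g | ∑ i, g.v i = 0 ∧ sign g.σ = 1}
  one_mem' := by simp
  mul_mem' {a b} ha hb := ⟨by
    simp [Finset.sum_add_distrib, ha.1, a.σ.symm.sum_comp b.v, hb.1], by simp [ha.2, hb.2]⟩
  inv_mem' {a} ha := ⟨by simp [Equiv.sum_comp a.σ a.v, ha.1], by simp [ha.2]⟩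

theorem sumzero_induction {P : (Fin n → ZMod 2) → Prop} (h0 : P 0)
    (h1 : ∀ u v, P u → P v → P (u + v)) {v : Fin n → ZMod 2} (a : Fin n)
    (h : ∀ i, v i ≠ 0 → P (Pi.single i 1 + Pi.single a 1)) (hv : ∑ i, v i = 0) : P v := by
  have : v = ∑ i, v i • (Pi.single i 1 + Pi.single a 1) := by
    simp only [smul_add, Finset.sum_add_distrib, ← Finset.sum_smul, hv, zero_smul, add_zero]
    exact pi_eq_sum_univ' v
  rw [this]
  refine Finset.sum_induction _ P h1 h0 fun i _ => ?_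
  rcases zmod_two (v i) with e | e
  · simpa [e]
  · simpa [e] using h i (by simp [e])

namespace W0

/-- The even sign changes. -/
def eps (i j : Fin n) : W0 n := ⟨Wr.inl (Pi.single i 1 + Pi.single j 1), by
  simp [W0, Finset.sum_add_distrib, CharTwo.add_self_eq_zero]⟩

/-- The even permutations. -/
def inr : alternatingGroup (Fin n) →* W0 n :=
  (Wr.inr.comp (Subgroup.subtype _)).codRestrict _ fun σ => ⟨by simp, σ.2⟩

@[simp] theorem val_inr (σ : alternatingGroup (Fin n)) : (inr σ).1 = Wr.inr σ.1 := rfl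

@[simp] theorem val_eps (i j : Fin n) : (eps i j).1 = Wr.inl (Pi.single i 1 + Pi.single j 1) := rfl

theorem conj_eps (g : W0 n) (i j : Fin n) : g * eps i j * g⁻¹ = eps (g.1.σ i) (g.1.σ j) :=
  Subtype.ext (by simp [Wr.conj_inl, Pi.add_comp, Wr.single_comp])

theorem eps_mul (i j k : Fin n) : eps i j * eps j k = eps i k := Subtype.ext (by
  ext l <;> simp [add_assoc, Perm.one_def, CharTwo.add_cancel_left])

theorem eps_comm (i j : Fin n) : eps i j = eps j i := Subtype.ext (by simp [add_comm])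

theorem eps_self (i : Fin n) : eps i i = 1 := Subtype.ext (by
  ext l <;> simp [CharTwo.add_self_eq_zero])

theorem eps_inv (i j : Fin n) : (eps i j)⁻¹ = eps i j :=
  inv_eq_of_mul_eq_one_right (by nth_rw 2 [eps_comm]; rw [eps_mul, eps_self])

theorem mem_of_σ {C : Subgroup (W0 n)} {g : W0 n} (hg : g.1.σ = 1) (a : Fin n)
    (h : ∀ i, g.1.v i ≠ 0 → eps i a ∈ C) : g ∈ C := by
  obtain ⟨g', h1, h2⟩ := sumzero_induction (P := fun v => Wr.inl v ∈ C.map (W0 n).subtype)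
    (one_mem _) (fun u v hu hv => Wr.addv u v ▸ mul_mem hu hv) a (fun i hi => ⟨_, h i hi, rfl⟩) g.2.1
  rwa [← show g' = g from Subtype.ext (h2.trans (Wr.ext rfl hg.symm))]

theorem le_of {C : Subgroup (W0 n)} (h1 : ∀ σ, inr σ ∈ C) (a : Fin n) (h2 : ∀ i, eps i a ∈ C) :
    C = ⊤ := eq_top_iff.2 fun g _ => by
  simpa using mul_mem (mem_of_σ (g := g * (inr ⟨_, g.2.2⟩)⁻¹) (by simp) a fun i _ => h2 i)
    (h1 ⟨_, g.2.2⟩)

theorem normalClosure_eq {a b d : Fin n} (h1 : a ≠ b) (h2 : d ≠ a) (h3 : d ≠ b) :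
    Subgroup.normalClosure {inr ⟨c3 a b d, sign_c3 h2 h3⟩} = ⊤ := by
  set N := Subgroup.normalClosure {inr ⟨c3 a b d, sign_c3 h2 h3⟩}
  have e : ∀ σ, inr σ ∈ N := fun σ => Subgroup.normalClosure_le_normal (N := N.comap inr)
    (Set.singleton_subset_iff.2 (Subgroup.subset_normalClosure rfl))
    (normalClosure_c3 h1 h2 h3 ▸ Subgroup.mem_top σ)
  refine le_of e a fun i => ?_
  by_cases hi : i = a
  · rw [hi, eps_self]; exact one_mem _
  obtain ⟨k, h4, h5⟩ : ∃ k, k ≠ a ∧ k ≠ i := by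
    by_cases h : b = i
    exacts [⟨d, h2, h ▸ h3⟩, ⟨b, h1.symm, h⟩]
  have := mul_mem (e ⟨c3 a i k, sign_c3 h4 h5⟩) (Subgroup.Normal.conj_mem inferInstance _
    (inv_mem (e ⟨c3 a i k, sign_c3 h4 h5⟩)) (eps k i))
  rw [← mul_assoc, ← mul_assoc, conj_eps, eps_inv] at this
  rw [eps_comm]
  simpa [c3_apply_self (Ne.symm hi) h4, c3_apply_snd (Ne.symm hi) h5, eps_mul] using this

end W0

/-- Twisting a homomorphism by a commuting involution. -/
def twHom {P G : Type*} [Group P] [Group G] (f : P →* G) (s : P →* ℤˣ) (u : G) (hu : u * u = 1)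
    (h : ∀ p, Commute (f p) u) : P →* G :=
  MonoidHom.mk' (fun p => f p * if s p = 1 then 1 else u) fun p q => by
    rcases Int.units_eq_one_or (s p) with e | e <;> rcases Int.units_eq_one_or (s q) with e' | e' <;>
      simp [e, e', mul_assoc, (h q).eq, ← mul_assoc u, hu]

/-- The signed transposition. -/
def uu (a b : Fin n) : Wr (ZMod 2) n := ⟨Pi.single a 1 + Pi.single b 1, swap a b⟩

theorem uu_sq (a b : Fin n) : uu a b * uu a b = 1 := by
  refine Wr.ext ?_ (swap_mul_self _ _)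
  simp only [Wr.mul_v, uu, Pi.add_comp, Wr.single_comp, swap_apply_left, swap_apply_right]
  ext; simp [add_comm, CharTwo.add_self_eq_zero]

theorem commute_ofSubtype {a b : Fin n} (τ : Perm {x // x ∉ ({a, b} : Finset (Fin n))}) :
    Commute (Wr.inr (ofSubtype τ)) (uu a b) := by
  have h1 := ofSubtype_apply_of_not_mem τ (a := a) (by simp)
  have h2 := ofSubtype_apply_of_not_mem τ (a := b) (by simp)
  refine Wr.ext ?_ ?_
  · simp [uu, Pi.add_comp, Wr.single_comp, h1, h2]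
  · simp [uu, mul_swap_eq_swap_mul, h1, h2]

/-- The stabiliser of a root, modulo sign changes. -/
def stabHom {a b : Fin n} (h : a ≠ b) : Perm {x // x ∉ ({a, b} : Finset (Fin n))} →* W0 n :=
  (twHom (Wr.inr.comp ofSubtype) sign (uu a b) (uu_sq a b)
    commute_ofSubtype).codRestrict _ fun τ => by
      rcases Int.units_eq_one_or (sign τ) with e | e <;>
        simp [twHom, W0, e, uu, h, Finset.sum_add_distrib, CharTwo.add_self_eq_zero,
          Equiv.sum_comp (ofSubtype τ).symm]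

theorem val_stabHom {a b : Fin n} (h : a ≠ b) (τ : Perm {x // x ∉ ({a, b} : Finset (Fin n))}) :
    (stabHom h τ).1 = Wr.inr (ofSubtype τ) * if sign τ = 1 then 1 else uu a b := rfl

theorem exists_stabHom {a b : Fin n} (h : a ≠ b) {σ : Perm (Fin n)} (h1 : sign σ = 1)
    (h2 : s(σ a, σ b) = s(a, b)) : ∃ τ, (stabHom h τ).1.σ = σ := by
  have key : ∀ σ : Perm (Fin n), σ a = a → σ b = b →
      ∃ τ : Perm {x // x ∉ ({a, b} : Finset (Fin n))}, ofSubtype τ = σ := fun σ h1 h2 =>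
    mem_range_ofSubtype_iff.2 fun x hx => by
      simp only [Finset.mem_coe, Perm.mem_support] at hx
      simp only [Finset.mem_insert, Finset.mem_singleton, Set.mem_ofPred_eq]
      rintro (rfl | rfl) <;> contradiction
  rcases Sym2.eq_iff.1 h2 with e | e
  · obtain ⟨τ, rfl⟩ := key σ e.1 e.2
    exact ⟨τ, by simp_all [val_stabHom]⟩
  · obtain ⟨τ, hτ⟩ := key (σ * swap a b) (by simp [e]) (by simp [e])
    have : sign τ = -1 := by simpa [h1, h] using congrArg sign hτ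
    exact ⟨τ, by simp [val_stabHom, this, hτ, uu]⟩

theorem exists_fam {S Ω H : Type*} [Group S] [Group H] (F : S → Ω) (ψ : S →* H) {e : H}
    (h : ∀ s s', F s = F s' → Commute (ψ (s'⁻¹ * s)) e) :
    ∃ y : Ω → H, ∀ s, y (F s) = ψ s * e * (ψ s)⁻¹ := by
  refine ⟨extend F (fun s => ψ s * e * (ψ s)⁻¹) 1, FactorsThrough.extend_apply (fun s s' hs => ?_) _⟩
  have := (h s s' hs).eq
  rw [map_mul, map_inv] at this
  calc _ = ψ s' * ((ψ s')⁻¹ * ψ s * e) * (ψ s)⁻¹ := by group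
    _ = _ := by rw [this]; group

open Monoid in
theorem hasPres_W0 {g r : ℕ} (hP : HasPres g r (alternatingGroup (Fin n))) {a b d : Fin n}
    (hab : a ≠ b) (had : a ≠ d) (hbd : b ≠ d) {k r' : ℕ}
    (hk : HasPres k r' (Perm {x // x ∉ ({a, b} : Finset (Fin n))}))
    (h2 : ∀ i j, i ≠ j → ∃ σ : alternatingGroup (Fin n), σ.1 a = i ∧ σ.1 b = j)
    (T3 : List (Perm (Fin n))) (h3 : ∀ i j k, i ≠ j → i ≠ k → j ≠ k →
      ∃ σ : alternatingGroup (Fin n), ∃ τ ∈ T3, σ.1 (τ a) = i ∧ σ.1 (τ b) = j ∧ σ.1 (τ d) = k) :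
    HasPres (g + 1) (r + (k + T3.length)) (W0 n) := by
  choose! f f1 f2 using h2
  obtain ⟨L, l1, l2⟩ := hk.exists_gens (S := alternatingGroup (Fin n))
    (MonoidHom.mk' (fun τ => ⟨(stabHom hab τ).1.σ, (stabHom hab τ).2.2⟩) fun _ _ => by
      simp [Subtype.ext_iff])
  have l3 : ∀ σ : alternatingGroup (Fin n), σ ∈ Subgroup.closure {s | s ∈ L} ↔
      s(σ.1 a, σ.1 b) = s(a, b) := fun σ => by
    rw [l2]
    refine ⟨?_, fun h => (exists_stabHom hab σ.2 h).imp fun τ e => Subtype.ext e⟩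
    rintro ⟨τ, rfl⟩
    have h1 := ofSubtype_apply_of_not_mem τ (a := a) (by simp)
    have h2 := ofSubtype_apply_of_not_mem τ (a := b) (by simp)
    by_cases e : sign τ = 1 <;> simp [val_stabHom, e, uu, h1, h2]
  let e : Coprod (alternatingGroup (Fin n)) (Multiplicative ℤ) :=
    Coprod.inr (Multiplicative.ofAdd (1 : ℤ))
  let E : Fin n → Fin n → _ := fun i j => Coprod.inl (f i j) * e * (Coprod.inl (f i j))⁻¹
  have hE : ∀ i j, i ≠ j → Coprod.lift W0.inr (zpowersHom _ (W0.eps a b)) (E i j) = W0.eps i j :=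
    fun i j h => by simp [E, e, W0.conj_eps, f1 i j h, f2 i j h]
  refine (hP.coprod hasPres_int).of_rel (Coprod.lift W0.inr (zpowersHom _ (W0.eps a b)))
    (MonoidHom.range_eq_top.1 (W0.le_of (fun σ => ⟨Coprod.inl σ, rfl⟩) a fun i => ?_))
    (L.map (fun s => ⁅(Coprod.inl s : Coprod _ (Multiplicative ℤ)), e⁆) ++
      T3.map fun τ => E (τ a) (τ b) * E (τ b) (τ d) * (E (τ a) (τ d))⁻¹)
    (by simp [l1]) ?_ fun H _ F π hf hr hπ => ?_
  · by_cases h : i = a
    · rw [h, W0.eps_self]; exact one_mem _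
    · exact ⟨_, hE _ _ h⟩
  all_goals simp only [List.forall_mem_append, List.forall_mem_map, map_commutatorElement, map_mul,
    map_inv, commutatorElement_eq_one_iff_commute, mul_inv_eq_one] at *
  · refine ⟨fun s hs => ?_, fun τ _ => by
      rw [hE _ _ (τ.injective.ne hab), hE _ _ (τ.injective.ne hbd), hE _ _ (τ.injective.ne had),
        W0.eps_mul]⟩
    have := W0.conj_eps (W0.inr s) a b
    rw [mul_inv_eq_iff_eq_mul] at this
    rcases Sym2.eq_iff.1 ((l3 s).1 (Subgroup.subset_closure hs)) with h | h <;>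
      simpa [e, h, W0.eps_comm b a, Commute, SemiconjBy] using this
  set ψ := F.comp Coprod.inl
  obtain ⟨y, hy⟩ := exists_fam (fun σ : alternatingGroup (Fin n) => s(σ.1 a, σ.1 b)) ψ (e := F e)
    fun s s' h => commute_of_gens hr.1 ((l3 _).2 (by
      simpa [symm_apply_eq] using h))
  have y1 : ∀ i j, i ≠ j → y s(i, j) = F (E i j) := fun i j h => by
    simpa [E, f1 i j h, f2 i j h, ψ] using hy (f i j)
  have y2 : ∀ σ i j, i ≠ j → ψ σ * y s(i, j) * (ψ σ)⁻¹ = y s(σ.1 i, σ.1 j) := fun σ i j h => by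
    have := hy (σ * f i j)
    simp only [Subgroup.coe_mul, Perm.mul_apply, f1 i j h, f2 i j h] at this
    rw [this, y1 i j h]; simp [E, ψ, mul_assoc]
  have y3 : ∀ i j k, i ≠ j → i ≠ k → j ≠ k → y s(i, j) * y s(j, k) = y s(i, k) :=
    fun i j k h1 h2 h4 => by
      obtain ⟨σ, τ, hτ, rfl, rfl, rfl⟩ := h3 i j k h1 h2 h4
      have := τ.injective.ne hab
      have := τ.injective.ne had
      have := τ.injective.ne hbd
      rw [← y2, ← y2, ← y2, y1, y1, y1, ← hr.2 τ hτ] <;> first | assumption | group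
  have y4 : ∀ i j, i ≠ j → y s(i, j) * y s(i, j) = 1 := fun i j h => by
    obtain ⟨k, h1, h2⟩ : ∃ k, k ≠ i ∧ k ≠ j := by
      by_contra! h'
      clear * - h' hab had hbd
      have := h' a; have := h' b; have := h' d
      grind
    have := y3 k j i h2 h1 h.symm
    rwa [← y3 k i j h1 h2 h, Sym2.eq_swap (a := j), mul_assoc, mul_eq_left] at this
  let t : Fin n → H := fun i => if i = a then 1 else y s(a, i)
  have t1 : ∀ i j, t i * t j = if i = j then 1 else y s(i, j) := fun i j => by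
    by_cases h1 : i = a
    · by_cases h2 : j = a <;> simp [t, h1, h2, eq_comm]
    by_cases h2 : j = a
    · simp [t, h1, h2, Sym2.eq_swap (a := a)]
    by_cases h3 : i = j
    · simp [t, h2, h3, y4 _ _ (Ne.symm h2)]
    · simp [t, h1, h2, h3, Sym2.eq_swap (a := a) (b := i), y3 _ _ _ h1 h3 (Ne.symm h2)]
  obtain ⟨T, hT, t2⟩ := exists_addv_pi (A := ZMod 2) (x := fun i s => if s = 0 then 1 else t i)
    (fun i s s' => by
      rcases zmod_two s with rfl | rfl <;> rcases zmod_two s' with rfl | rfl <;>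
        simp [t1, CharTwo.add_self_eq_zero]) fun i j s s' => by
      split_ifs <;> simp [Commute, SemiconjBy, t1, eq_comm, Sym2.eq_swap (a := j)]
  have t3 : ∀ i j, T (Pi.single i 1 + Pi.single j 1) = if i = j then 1 else y s(i, j) :=
    fun i j => by simp [hT _ _, t2, t1]
  obtain ⟨θ, hθ⟩ := Wr.exists_hom (W0 n) hT
    (ψ := fun σ => if h : sign σ = 1 then ψ ⟨σ, h⟩ else 1)
    (fun g hg g' hg' => by simp [hg.2, hg'.2, ← map_mul]; rfl) fun g hg g' hg' => by
      simp only [hg.2, dif_pos]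
      refine sumzero_induction (P := fun v => _ * T v * _ = T (v ∘ _)) (by simp [hT.zero])
        (fun u v hu hv => by rw [Pi.add_comp, hT, hT, ← hu, ← hv]; group) a (fun i _ => ?_) hg'.1
      rw [Pi.add_comp, Wr.single_comp, Wr.single_comp, t3, t3]
      by_cases h : i = a <;> simp [h, y2]
  have : θ.comp (Coprod.lift W0.inr (zpowersHom _ (W0.eps a b))) = F :=
    Coprod.hom_ext (by ext s; simp [hθ, hT.zero, ψ, show sign s.1 = 1 from s.2]) (by
      ext; simpa [hθ, t3, hab, show (⟨1, _⟩ : alternatingGroup (Fin n)) = 1 from rfl] using hy 1)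
  refine LeftInverse.injective (g := θ) fun a => ?_
  obtain ⟨a, rfl⟩ := hf a
  rw [hπ]
  exact DFunLike.congr_fun this a

theorem exists_W0 {ι : Type*} [Finite ι] {x x' y : ι → Pt n} (hx : Injective fun i => (x i).1)
    (hy : Injective fun i => (y i).1) {τ : Perm (Fin n)} (hτ : sign τ = -1)
    (h : ∀ i, (x' i).1 = τ (x i).1) {z : Fin n} (hz : ∀ i, (y i).1 ≠ z) :
    ∃ g : W0 n, (∀ i, g.1 • x i = y i) ∨ ∀ i, g.1 • x' i = y i := by
  have key : ∀ {x : ι → Pt n} (σ : alternatingGroup (Fin n)), (∀ i, σ.1 (x i).1 = (y i).1) →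
      ∃ g : W0 n, ∀ i, g.1 • x i = y i := fun {x} σ h => by
    obtain ⟨g, h1, h2, -⟩ := exists_wr (x := x) (fun i j e => hy ((h i).symm.trans ((congrArg _ e).trans (h j)))) _ h
    refine ⟨⟨Wr.inl (Pi.single z (∑ i, g.v i)) * g, ?_, by simpa [h1] using mem_alternatingGroup.1 σ.2⟩, fun i => ?_⟩
    · simp [Finset.sum_add_distrib, CharTwo.add_self_eq_zero, Perm.one_def]
    · simp [mul_smul, h2, smul_pt (Wr.inl _), hz i]
  obtain ⟨σ, e | e⟩ := exists_even_or hx hy hτ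
  exacts [(key σ e).imp fun _ => .inl, (key σ fun i => by rw [h, e]).imp fun _ => .inr]

theorem exists_W0_three (hn : 4 ≤ n) {a b d a' b' d' x y z : Pt n} (h1 : a.1 ≠ b.1) (h2 : a.1 ≠ d.1)
    (h3 : b.1 ≠ d.1) (h4 : x.1 ≠ y.1) (h5 : x.1 ≠ z.1) (h6 : y.1 ≠ z.1) {τ : Perm (Fin n)}
    (hτ : sign τ = -1) (e1 : a'.1 = τ a.1) (e2 : b'.1 = τ b.1) (e3 : d'.1 = τ d.1) :
    ∃ g : W0 n, (g.1 • a = x ∧ g.1 • b = y ∧ g.1 • d = z) ∨
      (g.1 • a' = x ∧ g.1 • b' = y ∧ g.1 • d' = z) := by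
  obtain ⟨k, hk⟩ := exists_notMem [x.1, y.1, z.1] (by simp; omega)
  obtain ⟨g, e⟩ := exists_W0 (x := ![a, b, d]) (x' := ![a', b', d']) (y := ![x, y, z])
    (by convert inj3 h1 h2 h3 with i; fin_cases i <;> rfl)
    (by convert inj3 h4 h5 h6 with i; fin_cases i <;> rfl) hτ (by simp [Fin.forall_fin_succ, *])
    (z := k) (by simp [Fin.forall_fin_succ]; grind)
  exact ⟨g, e.imp (fun e => ⟨e 0, e 1, e 2⟩) fun e => ⟨e 0, e 1, e 2⟩⟩

theorem stabHom_σ {a b : Fin n} (h : a ≠ b) (τ : Perm {x // x ∉ ({a, b} : Finset (Fin n))})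
    (k : {x // x ∉ ({a, b} : Finset (Fin n))}) : (stabHom h τ).1.σ k = τ k := by
  have := k.2
  simp only [Finset.mem_insert, Finset.mem_singleton, not_or] at this
  by_cases e : sign τ = 1 <;> simp [val_stabHom, e, uu, swap_apply_of_ne_of_ne this.1 this.2]

theorem stabHom_rt {hc : OkO c (2 * n)} {a b : Fin n} (h : a ≠ b)
    (τ : Perm {x // x ∉ ({a, b} : Finset (Fin n))}) :
    wO hc (stabHom h τ).1 (rt hc (a, 0) (b, 0) h) = rt hc (a, 0) (b, 0) h := by
  have h1 := ofSubtype_apply_of_not_mem τ (a := a) (by simp)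
  have h2 := ofSubtype_apply_of_not_mem τ (a := b) (by simp)
  have h3 : (ofSubtype τ).symm a = a := by rw [symm_apply_eq, h1]
  have h4 : (ofSubtype τ).symm b = b := by rw [symm_apply_eq, h2]
  rw [wO_rt, rt_eq_iff]
  by_cases e : sign τ = 1 <;> simp [val_stabHom, e, uu, smul_pt, op, h, h.symm, *]

theorem mem_stab {hc : OkO c (2 * n)} {a b d e : Fin n} (h : a ≠ b)
    (hd : d ∉ ({a, b} : Finset (Fin n))) (he : e ∉ ({a, b} : Finset (Fin n))) (hde : d ≠ e)
    {C : Subgroup (W0 n)} (h1 : (stabHom h).range ≤ C) (h2 : W0.eps e d ∈ C) {g : W0 n}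
    (hg : wO hc g.1 (rt hc (a, 0) (b, 0) h) = rt hc (a, 0) (b, 0) h) : g ∈ C := by
  obtain ⟨τ, hτ⟩ := exists_stabHom h g.2.2 (by
    rw [wO_rt, rt_eq_iff] at hg
    simp only [Prod.ext_iff, smul_pt, op] at hg
    grind)
  have e1 : wO hc (g * (stabHom h τ)⁻¹).1 (rt hc (a, 0) (b, 0) h) = rt hc (a, 0) (b, 0) h := by
    rw [Subgroup.coe_mul, Subgroup.coe_inv, map_mul, map_inv, Perm.mul_apply,
      Perm.inv_eq_iff_eq.2 (stabHom_rt h τ).symm, hg]
  have e2 : (g * (stabHom h τ)⁻¹).1.σ = 1 := by simp [hτ]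
  rw [← mul_mem_cancel_right (inv_mem (h1 ⟨τ, rfl⟩))]
  generalize g * (stabHom h τ)⁻¹ = g' at *
  refine W0.mem_of_σ e2 d fun i hi => ?_
  rw [wO_rt, rt_eq_iff] at e1
  simp only [Prod.ext_iff, smul_pt, op, e2, Perm.one_apply, h, false_and, or_false, true_and,
    zero_add] at e1
  have h3 : i ∉ ({a, b} : Finset (Fin n)) := by grind
  by_cases h4 : i = d
  · rw [h4, W0.eps_self]; exact one_mem _
  have h5 := h1 ⟨swap ⟨e, he⟩ ⟨i, h3⟩, rfl⟩
  have := mul_mem (mul_mem h5 h2) (inv_mem h5)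
  rwa [W0.conj_eps, stabHom_σ h _ ⟨e, he⟩, stabHom_σ h _ ⟨d, hd⟩, swap_apply_left,
    swap_apply_of_ne_of_ne (by simpa) (by simpa using Ne.symm h4)] at this

theorem okD : OkO 2 (2 * n) := .inl rfl

theorem exists_rtD (r : RtO 2 (2 * n)) : ∃ x y h, r = rt okD x y h := exists_rt_of_far r.far

section D

variable {B : Type} [Fintype B] [DecidableEq B] (b : BaseO 2 (2 * n) B)

theorem A_rt' {hc : OkO c (2 * n)} (b : BaseO c (2 * n) B) {x y z w : Pt n} (h : x.1 ≠ y.1)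
    (h' : z.1 ≠ w.1) : b.cb.A (rt hc x y h) (rt hc z w h') =
      (if z = x then 1 else if z = op x then -1 else 0) -
        (if z = y then 1 else if z = op y then -1 else 0) -
      ((if w = x then 1 else if w = op x then -1 else 0) -
        (if w = y then 1 else if w = op y then -1 else 0)) := by
  simp only [A_rt, dlt_pe]

section

variable {hc : OkO c (2 * n)} (b : BaseO c (2 * n) B) {x y z w : Pt n} (h : x.1 ≠ y.1)

theorem pt_ne {x y : Pt n} (h : x.1 ≠ y.1) :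
    (x = y) = False ∧ (x = op y) = False ∧ (op x = y) = False := by simp_all [Prod.ext_iff]

theorem A_op : b.cb.A (rt hc x y h) (rt hc x (op y) h) = 0 := by
  refine (A_rt' b _ _).trans ?_
  simp [pt_ne h, pt_ne h.symm, op_ne, pt_ne (x := op y) h.symm]

theorem A_fst (h1 : x.1 ≠ z.1) (h2 : y.1 ≠ z.1) : b.cb.A (rt hc x y h) (rt hc x z h1) = 1 := by
  simp [A_rt', pt_ne h, pt_ne h1.symm, pt_ne h2.symm]

theorem A_snd (h1 : x.1 ≠ z.1) (h2 : z.1 ≠ y.1) : b.cb.A (rt hc x y h) (rt hc z y h2) = 1 := by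
  simp [A_rt', pt_ne h.symm, pt_ne h1.symm, pt_ne h2]

theorem A_chain (h1 : x.1 ≠ z.1) (h2 : y.1 ≠ z.1) :
    b.cb.A (rt hc x y h) (rt hc y z h2) = -1 := by
  simp [A_rt', pt_ne h.symm, pt_ne h1.symm, pt_ne h2.symm]

theorem A_far (h' : z.1 ≠ w.1) (h1 : x.1 ≠ z.1) (h2 : x.1 ≠ w.1) (h3 : y.1 ≠ z.1)
    (h4 : y.1 ≠ w.1) : b.cb.A (rt hc x y h) (rt hc z w h') = 0 := by
  simp [A_rt', pt_ne h1.symm, pt_ne h2.symm, pt_ne h3.symm, pt_ne h4.symm]

end

theorem sameLenD' : b.cb.SameLen := fun r s => by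
  have := r.far.2; have := s.far.2
  have := ne_mid r.1.1; have := ne_mid r.1.2; have := ne_mid s.1.1; have := ne_mid s.1.2
  simp [b.cb_len, lenO, *]

theorem addD {r s v : RtO 2 (2 * n)} (h : b.cb.vec v = b.cb.vec r + b.cb.vec s) :
    ∃ x y z h1 h2 h3, r = rt okD x y h1 ∧ s = rt okD y z h2 ∧ v = rt okD x z h3 := by
  have h0 := (A_of_add (sameLenD' b) h).1
  obtain ⟨x, y, h1, rfl⟩ := exists_rtD r
  obtain ⟨z, w, h2, rfl⟩ := exists_rtD s
  obtain ⟨x', y', h3, e, e' | ⟨d, h4, h5, e' | e'⟩⟩ | e := rt_cases h1 h2 (b.cb.ne_of_add h).symm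
    fun e => b.cb.ne_neg_of_add h (b.cb.eq_neg_comm.1 e)
  · rw [e, e', A_op b h3] at h0; omega
  · rw [e, e', A_fst b h3 h4 h5] at h0; omega
  · exact ⟨x', y', d, h3, h5, h4, e, e', b.cb.vec_inj (by rw [h, e, e', add_rt b h3 h5])⟩
  · rw [A_far b h1 h2 e.1 e.2.1 e.2.2.1 e.2.2.2] at h0; omega

theorem spansD [Finite K] {ζ : Kˣ} (hζ : IsGen ζ) (hn : 4 ≤ n) (r s : RtO 2 (2 * n)) (h1 : r ≠ s)
    (h2 : r ≠ b.cb.neg s) : Spans b.cb ζ Set.univ r s {(1, 1)} := by
  have key : ∀ r s, s ≠ r → s ≠ b.cb.neg r → ∃ γ, ∃ a : ℕ, b.cb.A γ r = a ∧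
      b.cb.A γ s = 0 ∧ AddSubgroup.closure (Set.range fun i : ℕ => ((ζ : K) ^ a) ^ i) = ⊤ := by
    intro r s h1 h2
    obtain ⟨x, y, h3, rfl⟩ := exists_rtD r
    obtain ⟨z, w, h4, rfl⟩ := exists_rtD s
    obtain ⟨x', y', h3, e, e' | ⟨d, h4, h5, e'⟩⟩ | e := rt_cases h3 h4 h1 h2
    · exact ⟨_, 2, RootSys.A_self _ _, by rw [e, e', A_op b h3], hζ.closure_sq⟩
    · obtain ⟨k, hk⟩ := exists_notMem [x'.1, y'.1, d.1] (by simp; omega)
      simp only [List.mem_cons, List.not_mem_nil, or_false, not_or, ← ne_eq] at hk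
      rw [e]
      rcases e' with e' | e' <;> rw [e']
      · exact ⟨rt okD (k, 0) y' hk.2.1, 1, A_snd b _ hk.1 _,
          A_far b _ h4 hk.1 hk.2.2 h3.symm h5, by simpa using hζ.closure⟩
      · exact ⟨rt okD x' (k, 0) hk.1.symm, 1, A_fst b _ _ hk.2.1,
          A_far b _ h5 h3 h4 hk.2.1 hk.2.2, by simpa using hζ.closure⟩
    · exact ⟨_, 2, RootSys.A_self _ _, A_far b _ _ e.1 e.2.1 e.2.2.1 e.2.2.2,
        hζ.closure_sq⟩
  obtain ⟨γ, a, e1, e2, e3⟩ := key r s h1.symm fun e => h2 (b.cb.eq_neg_comm.1 e)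
  obtain ⟨δ, b, e4, e5, e6⟩ := key s r h1 h2
  exact spans_of_list (l := [γ]) (l' := [δ]) (by simp) (by simp) (by simpa) (by simpa)
    (by simpa) (by simpa) e3 e6

theorem hasPres_D_of [Finite K] (hn : 4 ≤ n) {G : Type*} [Group G] {ρ : StRep b.cb K G}
    (hF : ρ.Faithful) (hG : ρ.Gp = ⊤) (h1 : b.cb.NoA1) {LK : List (List (RtO 2 (2 * n) × K))}
    (hK : StPres ρ LK) (φ : W0 n →* G) (hφ : ∀ g, ρ.Acts (φ g) (wO okD g.1)) {i j k l : Fin n}
    (hij : i ≠ j) (hik : i ≠ k) (hil : i ≠ l) (hjk : j ≠ k) (hjl : j ≠ l) (hkl : k ≠ l) {m r' : ℕ}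
    (hm : HasPres m r' (Perm {x // x ∉ ({i, j} : Finset (Fin n))}))
    (T4 : List (RtO 2 (2 * n))) (hT4 : ∀ p ∈ T4, b.cb.A (rt okD (i, 0) (j, 0) hij) p = 0)
    (h4 : ∀ (x y z w : Pt n) h h', x.1 ≠ z.1 → x.1 ≠ w.1 → y.1 ≠ z.1 → y.1 ≠ w.1 → ∃ g : W0 n,
      ∃ p ∈ T4, wO okD g.1 (rt okD (i, 0) (j, 0) hij) = rt okD x y h ∧ wO okD g.1 p = rt okD z w h')
    {g r : ℕ} (hP : HasPres g r (W0 n)) :
    HasPres (g + 2) (r + (2 * m + T4.length + LK.length + 13)) G := by
  obtain ⟨ζ, hζ⟩ := exists_isGen K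
  have tr := fun {a' b' d' x y z : Pt n} => exists_W0_three hn (a := (i, 0)) (b := (j, 0))
    (d := (k, 0)) (a' := a') (b' := b') (d' := d') (x := x) (y := y) (z := z) hij hik hjk
  have ex : ∀ x y : Pt n, ∃ z : Pt n, x.1 ≠ z.1 ∧ y.1 ≠ z.1 := fun x y => by
    obtain ⟨z, hz⟩ := exists_notMem [x.1, y.1] (by simp; omega)
    exact ⟨(z, 0), by grind⟩
  have tr2 : ∀ x y : Pt n, x.1 ≠ y.1 → ∃ g : W0 n, g.1 • (i, 0) = x ∧ g.1 • (j, 0) = y :=
    fun x y h => by
      obtain ⟨z, h1, h2⟩ := ex x y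
      obtain ⟨g, e | e⟩ := tr (a' := (i, 0)) (b' := (j, 0)) (d' := (l, 0)) h h1 h2 (sign_swap hkl)
        (swap_apply_of_ne_of_ne hik hil).symm (swap_apply_of_ne_of_ne hjk hjl).symm (by simp) <;>
      exact ⟨g, e.1, e.2.1⟩
  have h2 : ∀ r, ∃ g : W0 n, wO okD g.1 (rt okD (i, 0) (j, 0) hij) = r := fun r => by
    obtain ⟨x, y, h, rfl⟩ := exists_rtD r
    obtain ⟨g, rfl, rfl⟩ := tr2 x y h
    exact ⟨g, wO_rt _ _⟩
  have t1 : ∀ {x y z : Pt n} (h1 : x.1 ≠ y.1) (h2 : x.1 ≠ z.1), y.1 ≠ z.1 → ∃ g : W0 n,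
      (wO okD g.1 (rt okD (i, 0) (j, 0) hij) = rt okD x y h1 ∧
        wO okD g.1 (rt okD (i, 0) (k, 0) hik) = rt okD x z h2) ∨
      (wO okD g.1 (rt okD (i, 0) (k, 0) hik) = rt okD x y h1 ∧
        wO okD g.1 (rt okD (i, 0) (j, 0) hij) = rt okD x z h2) := fun h1 h2 h3 => by
    obtain ⟨g, ⟨rfl, rfl, rfl⟩ | ⟨rfl, rfl, rfl⟩⟩ := tr (a' := (i, 0)) (b' := (k, 0))
      (d' := (j, 0)) h1 h2 h3 (sign_swap hjk) (swap_apply_of_ne_of_ne hij hik).symm (by simp)
      (by simp)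
    exacts [⟨g, .inl ⟨wO_rt _ _, wO_rt _ _⟩⟩, ⟨g, .inr ⟨wO_rt _ _, wO_rt _ _⟩⟩]
  have t2 : ∀ {x y z : Pt n} (h1 : x.1 ≠ y.1) (h3 : y.1 ≠ z.1), x.1 ≠ z.1 → ∃ g : W0 n,
      (wO okD g.1 (rt okD (i, 0) (j, 0) hij) = rt okD x y h1 ∧
        wO okD g.1 (rt okD (j, 0) (k, 0) hjk) = rt okD y z h3) ∨
      (wO okD g.1 (rt okD (i, 0) (j, 0) hij) = rt okD y z h3 ∧
        wO okD g.1 (rt okD (j, 0) (k, 0) hjk) = rt okD x y h1) := fun h1 h3 h2 => by
    obtain ⟨g, ⟨rfl, rfl, rfl⟩ | ⟨rfl, rfl, rfl⟩⟩ := tr (a' := op (k, 0)) (b' := op (j, 0))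
      (d' := op (i, 0)) h1 h2 h3 (sign_swap hik) (by simp)
      (swap_apply_of_ne_of_ne hij.symm hjk).symm (by simp)
    · exact ⟨g, .inl ⟨wO_rt _ _, wO_rt _ _⟩⟩
    · exact ⟨g, .inr (by simp [wO_rt, rt_eq_iff, smul_op])⟩
  obtain ⟨L, l1, l2⟩ := hm.exists_gens (stabHom hij)
  obtain ⟨M, Mw, Mα⟩ : ∃ M : Mono ρ (W0 n) Unit, (∀ g, M.w g = wO okD g.1) ∧
      M.α () = rt okD (i, 0) (j, 0) hij :=
    ⟨{ φ := φ
       w := (wO okD).comp (W0 n).subtype
       acts := hφ
       α _ := rt okD (i, 0) (j, 0) hij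
       base _ := ()
       sec r := (h2 r).choose
       sec_spec r := (h2 r).choose_spec
       base_w _ _ := rfl
       base_α _ := rfl }, fun _ => rfl, rfl⟩
  set P := rt okD (i, 0) (k, 0) hik :: rt okD (j, 0) (k, 0) hjk :: rt okD (i, 0) (op (j, 0)) hij ::
    T4 with hP'
  have hne : ∀ p ∈ P, M.α () ≠ p ∧ M.α () ≠ b.cb.neg p := fun p hp => by
    have : b.cb.A (M.α ()) p = 1 ∨ b.cb.A (M.α ()) p = -1 ∨ b.cb.A (M.α ()) p = 0 := by
      simp only [hP', List.mem_cons] at hp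
      rw [Mα]
      rcases hp with rfl | rfl | rfl | hp
      exacts [.inl (A_fst b hij _ hjk), .inr (.inl (A_chain b hij hik _)),
        .inr (.inr (A_op b hij)), .inr (.inr (hT4 p hp))]
    constructor <;> rintro e <;> rw [e] at this <;> simp at this
  let T : LacedDat M ζ :=
  { β := rt okD (i, 0) (k, 0) hik
    LS := W0.eps l k :: L
    L6 := []
    LP := [(rt okD (i, 0) (j, 0) hij, rt okD (j, 0) (k, 0) hjk, rt okD (i, 0) (k, 0) hik)]
    LC := P.map fun p => (M.α (), p, 1, 1)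
    LZ := [W0.inr ⟨c3 i j k, sign_c3 hik.symm hjk.symm⟩]
    A_β := Mα ▸ A_fst b _ _ hjk.symm
    LS_fix := by
      simp only [Mw, Mα]
      refine List.forall_mem_cons.2 ⟨by simp [wO_rt, rt_eq_iff, smul_pt, *], fun s hs => ?_⟩
      obtain ⟨τ, rfl⟩ : s ∈ (stabHom hij).range := l2 ▸ Subgroup.subset_closure hs
      exact stabHom_rt _ _
    LS_gen s hs := mem_stab hij (by simp [hik.symm, hjk.symm]) (by simp [hil.symm, hjl.symm]) hkl
      (l2 ▸ Subgroup.closure_mono fun s hs => List.mem_cons_of_mem _ hs)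
      (Subgroup.subset_closure List.mem_cons_self) (by rwa [Mw, Mα] at hs)
    L6_A := by simp
    LP_add := by simpa using add_rt b _ _ _
    LC_ne := List.forall_mem_map.2 hne
    c1 r s v h := by
      simp only [Mw]
      obtain ⟨x, y, z, h1, h2, h3, rfl, rfl, rfl⟩ := addD b h
      obtain ⟨g, e⟩ := t2 h1 h2 h3
      exact ⟨g, _, List.mem_cons_self, e⟩
    c2 r s v h := by
      simp only [Mw, Mα]
      obtain ⟨x, y, z, h1, h2, h3, rfl, rfl, rfl⟩ := addD b h
      obtain ⟨g, e⟩ := t1 h1 h3 h2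
      exact ⟨g, _, .inl rfl, e⟩
    c3 γ h := by
      rw [RootSys.A_symm_of_len (sameLenD' b _ _)] at h
      obtain ⟨z, w, h', rfl⟩ := exists_rtD γ
      simp only [Mw, Mα] at h ⊢
      obtain ⟨x, y, h3, e, e' | ⟨d, h4, h5, e' | e'⟩⟩ | e := rt_cases (hc := okD) (x := (i, 0))
        (y := (j, 0)) hij h' (fun e => by simp [e] at h) fun e => by
          rw [e, ← b.cb_neg] at h; simp at h
      · rw [e, e', A_op b h3] at h; omega
      · obtain ⟨g, ⟨rfl, rfl, rfl⟩ | ⟨rfl, rfl, rfl⟩⟩ := tr (a' := op (j, 0)) (b' := op (i, 0))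
          (d' := op (k, 0)) h3 h4 h5 (sign_swap hij) (by simp) (by simp)
          (swap_apply_of_ne_of_ne hik.symm hjk.symm).symm
        · exact ⟨g, _, .inl rfl, (wO_rt _ _).trans e.symm, .inl ((wO_rt _ _).trans e'.symm)⟩
        · refine ⟨g, _, .inl rfl, (wO_rt _ _).trans (.trans (by simp [rt_eq_iff, smul_op]) e.symm),
            .inr ?_⟩
          rw [e', wO_rt, e, add_rt b h4 h5.symm, add_comm]
          congr 2
          simp [rt_eq_iff, smul_op]
      · rw [e, e', A_chain b h3 h4 h5] at h; omega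
      · rw [A_far b _ h' e.1 e.2.1 e.2.2.1 e.2.2.2] at h; omega
    c4 γ h := by
      rw [RootSys.A_symm_of_len (sameLenD' b _ _)] at h
      obtain ⟨z, w, h', rfl⟩ := exists_rtD γ
      simp only [Mα] at h ⊢
      obtain ⟨x, y, h3, e, e' | ⟨d, h4, h5, e' | e'⟩⟩ | e := rt_cases (hc := okD) (x := (i, 0))
        (y := (j, 0)) hij h' (fun e => by simp [e] at h) fun e => by
          rw [e, ← b.cb_neg] at h; simp at h
      · obtain ⟨d, h4, h5⟩ := ex x y
        rw [e, e']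
        exact ⟨_, _, add_rt b (z := op y) h4 h5.symm _, A_fst b _ _ h5.symm⟩
      · rw [e, e', A_fst b h3 h4 h5] at h; omega
      · rw [e, e', A_chain b h3 h4 h5] at h; omega
      · exact ⟨_, _, add_rt b (y := (j, 0)) e.2.2.1.symm e.2.2.2 _, A_snd b _ e.1.symm _⟩
    c5 r s e1 e2 := by
      suffices ∃ g : W0 n, ∃ p ∈ P, (M.w g (M.α ()) = r ∧ M.w g p = s) ∨
          (M.w g (M.α ()) = s ∧ M.w g p = r) by
        obtain ⟨g, p, hp, e⟩ := this
        exact ⟨g, _, p, e, (spansD b hζ hn _ _ (hne p hp).1 (hne p hp).2).mono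
          (Set.singleton_subset_iff.2 (List.mem_map.2 ⟨p, hp, rfl⟩))⟩
      simp only [Mw, Mα]
      obtain ⟨x, y, h1, rfl⟩ := exists_rtD r
      obtain ⟨z, w, h2, rfl⟩ := exists_rtD s
      obtain ⟨x', y', h3, e, e' | ⟨d, h4, h5, e' | e'⟩⟩ | e := rt_cases h1 h2 e1 e2
      · obtain ⟨g, rfl, rfl⟩ := tr2 _ _ h3
        exact ⟨g, rt okD (i, 0) (op (j, 0)) hij, by simp [hP'], .inl ⟨(wO_rt _ _).trans e.symm,
          ((wO_rt _ _).trans (by simp [smul_op])).trans e'.symm⟩⟩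
      · obtain ⟨g, e1⟩ := t1 h3 h4 h5
        exact ⟨g, _, List.mem_cons_self, by rw [e, e']; exact e1.imp_right And.symm⟩
      · obtain ⟨g, e1⟩ := t2 h3 h5 h4
        exact ⟨g, rt okD (j, 0) (k, 0) hjk, by simp [hP'], by rw [e, e']; exact e1⟩
      · obtain ⟨g, p, hp, e⟩ := h4 x y z w h1 h2 e.1 e.2.1 e.2.2.1 e.2.2.2
        exact ⟨g, p, by simp [hP', hp], .inl e⟩
    c6 := by simpa using W0.normalClosure_eq hij hik.symm hjk.symm }
  refine (T.hasPres hζ (sameLenD' b) hF hG h1 hK hP (hasPres_aff hζ)).mono ?_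
  simp [T, hP', l1]
  omega

end D

theorem W0_le_commutator (hn : 3 ≤ n) : W0 n ≤ commutator (Wr (ZMod 2) n) := fun g hg => by
  obtain ⟨a, b, d, hab, had, hbd⟩ : ∃ a b d : Fin n, a ≠ b ∧ a ≠ d ∧ b ≠ d :=
    ⟨⟨0, by omega⟩, ⟨1, by omega⟩, ⟨2, by omega⟩, by simp⟩
  refine Subgroup.normalClosure_le_normal (N := (commutator _).comap (W0 n).subtype)
    (Set.singleton_subset_iff.2 ?_)
    ((W0.normalClosure_eq hab had.symm hbd.symm).ge (Subgroup.mem_top ⟨g, hg⟩))
  have : c3 a b d = ⁅swap a b, swap a d⁆ := by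
    ext x; simp only [c3, commutatorElement_def, swap_inv, Perm.mul_apply, swap_apply_def]; grind
  change Wr.inr (c3 a b d) ∈ commutator _
  rw [this, map_commutatorElement]
  exact Subgroup.commutator_mem_commutator trivial trivial

/-- Signed permutation matrices as orthogonal maps. -/
noncomputable def permO (n : ℕ) (K : Type*) [Field K] : Wr (ZMod 2) n →* OG (qO (2 * n) K) :=
  ((glEquiv _ K).toMonoidHom.comp ((permGL _ K).comp pt)).codRestrict _ fun g => mem_OG.2 fun v => by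
    have key : ∀ v : Fin (2 * n) → K, qO _ K v = ∑ i : Fin n, v (pe (i, 0)) * v (pe (i, 1)) :=
      fun v => by
        rw [← qO_even, qPlus_apply]
        refine Finset.sum_congr rfl fun i _ => ?_
        rw [show ((i, 1) : Pt n) = op (i, 0) from rfl, pe_op]; rfl
    change qO _ K ((permGL _ K (pt g)).val *ᵥ v) = _
    rw [permGL_mulVec, key, key, ← Equiv.sum_comp g.σ]
    refine Finset.sum_congr rfl fun i _ => ?_
    have : ∀ s, (pt g).symm (pe (g.σ i, s)) = pe (i, s + g.v (g.σ i)) := fun s => by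
      rw [symm_apply_eq, pt_pe, smul_pt]; simp [add_assoc, CharTwo.add_self_eq_zero]
    simp only [Function.comp_apply, this]
    rcases zmod_two (g.v (g.σ i)) with e | e <;> simp [e, CharTwo.add_self_eq_zero, mul_comm]

theorem hasPres_Omega [Finite K] (hn : 4 ≤ n) : HasPres (if n ≤ 5 then 5 else 6)
    (if n ≤ 5 then 25 else 29) (Cfsg.Omega K (Cfsg.quadFormPlus n K)) := by
  have h3 : 3 ≤ n := by omega
  let j : Cfsg.Omega K (Cfsg.quadFormPlus n K) →* GL (Fin (2 * n)) K :=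
    (toGL K _).comp ((oEquivD n K).symm.toMonoidHom.comp (Subgroup.subtype _))
  have j1 : Injective j := (toGL_injective K _).comp
    ((oEquivD n K).symm.injective.comp Subtype.val_injective)
  have j2 : (omRepD K h3).map j = natD K (by omega) := StRep.ext' fun r t => by
    have : j ((omRepD K h3).x r t) = ((baseD n (by omega)).natO K (noA1D h3)).x r t := by
      rw [← BaseO.omRep₀_map]; exact congrArg (toGL K _) ((oEquivD n K).symm_apply_apply _)
    refine this.trans (Units.ext ?_)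
    rw [BaseO.val_natO_x]
    simp [TO₂, ne_mid, natD, Euc.Mat.val_nat_x, BaseO.mat]
  obtain ⟨LK, hK⟩ := exists_stPres (faithful_omRepD K h3) (omRepD_Gp K h3)
    (c := cenD n (-1) 1) (by
      have key : ∀ c, c ∈ (omRepD K h3).r3_of_finite.tor.ker ↔
          ∀ a, (baseD n (by omega)).mat.tw c a = 1 := fun c => by
        have := (omRepD K h3).r3_of_finite.map_tor j c
        simp only [j2] at this
        rw [MonoidHom.mem_ker, ← map_eq_one_iff j j1, ← this, Units.ext_iff, val_natD_tor,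
          Units.val_one, ← diagonal_one, diagonal_eq_diagonal_iff]
        simp
      refine le_antisymm (fun c hc => ?_) ((Subgroup.zpowers_le).2 ((key _).2
        (tw_cenD _ (by simp) (by simp))))
      obtain ⟨-, h1, h2⟩ := eq_cenD _ ((key c).1 hc)
      rw [h2]
      rcases units_sq_eq_one (h1.trans (one_pow _)) with e | e <;> rw [e]
      · exact (show cenD n (1 : Kˣ) 1 = 1 from map_one (cenDHom n Kˣ)).symm ▸ one_mem _
      · exact Subgroup.mem_zpowers _)
  obtain ⟨a, b, c, d, hab, hac, had, hbc, hbd, hcd⟩ : ∃ a b c d : Fin n,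
      a ≠ b ∧ a ≠ c ∧ a ≠ d ∧ b ≠ c ∧ b ≠ d ∧ c ≠ d :=
    ⟨⟨0, by omega⟩, ⟨1, by omega⟩, ⟨2, by omega⟩, ⟨3, by omega⟩, by simp⟩
  have main := fun m r g r' => hasPres_D_of (baseD n (by omega)) hn (faithful_omRepD K h3)
    (omRepD_Gp K h3) (noA1D h3) hK (m := m) (r' := r') (g := g) (r := r)
    ((((oEquivD n K).toMonoidHom.comp (permO n K)).comp (W0 n).subtype).codRestrict _ fun g =>
      (map_commutator_eq _ ((oEquivD n K).toMonoidHom.comp (permO n K))).le.trans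
        (Subgroup.commutator_mono le_top le_top) ⟨_, W0_le_commutator h3 g.2, rfl⟩)
    (fun g => by
      obtain ⟨h1, c, h2, h4⟩ := acts_permGL (baseD n (by omega)) (ρ := natD K (by omega))
        (fun _ _ => rfl) g.1 fun a => by rw [betO_two (ne_mid _), betO_two (ne_mid _)]
      refine ⟨h1, c, h2, fun s u => j1 ?_⟩
      rw [← j2] at h4
      rw [map_mul, map_mul, map_inv]
      have : ∀ hg, j ⟨oEquivD n K (permO n K g), hg⟩ = permGL _ K (pt g.1) := fun _ =>
        (congrArg (toGL K _) ((oEquivD n K).symm_apply_apply _)).trans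
          ((glEquiv _ K).symm_apply_apply _)
      exact (this _).symm ▸ h4 s u) hab hac had hbc hbd hcd
  have h2 : ∀ i j, i ≠ j → ∃ σ : alternatingGroup (Fin n), σ.1 a = i ∧ σ.1 b = j := fun i j h => by
    obtain ⟨σ, e⟩ := exists_even (inj2 hab) (inj2 h) hcd (by simp [Fin.forall_fin_succ, *])
      (by simp [Fin.forall_fin_succ, *])
    exact ⟨σ, e 0, e 1⟩
  have tr : ∀ (x y z : Pt n) h, x.1 ≠ z.1 → y.1 ≠ z.1 → ∃ g : W0 n, wO okD g.1 (rt okD (a, 0)
      (b, 0) hab) = rt okD x y h ∧ g.1 • (c, 0) = z ∧ s(g.1.σ a, g.1.σ b) = s(x.1, y.1) :=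
    fun x y z h h1 h2 => by
      obtain ⟨g, ⟨rfl, rfl, rfl⟩ | ⟨rfl, rfl, rfl⟩⟩ := exists_W0_three hn (a := (a, 0))
        (b := (b, 0)) (d := (c, 0)) (a' := op (b, 0)) (b' := op (a, 0)) (d' := (c, 0)) hab hac hbc
        h h1 h2 (sign_swap hab) (by simp) (by simp) (swap_apply_of_ne_of_ne hac.symm hbc.symm).symm
      · exact ⟨g, wO_rt _ _, rfl, rfl⟩
      · exact ⟨g, by simp [wO_rt, rt_eq_iff, smul_op], rfl, Sym2.eq_swap⟩
  by_cases h4 : n = 4
  · have hk : HasPres 1 1 (Perm {x // x ∉ ({a, b} : Finset (Fin n))}) := by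
      have := isCyclic_of_prime_card (α := Perm {x // x ∉ ({a, b} : Finset (Fin n))}) (p := 2) (by
        rw [Nat.card_perm, Nat.card_eq_fintype_card, Fintype.card_subtype_compl]
        rw [Fintype.card_coe, Finset.card_pair hab, Fintype.card_fin, h4]; rfl)
      exact hasPres_of_isCyclic _
    have := main _ _ _ _ hk [rt okD (c, 0) (d, 0) hcd, rt okD (c, 0) (op (d, 0)) hcd]
      (by simpa using ⟨A_far _ _ _ hac had hbc hbd, A_far _ _ _ hac had hbc hbd⟩)
      (fun x y z w h h' h1 h2 h3 h5 => by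
        obtain ⟨g, e1, rfl, e2⟩ := tr x y z h h1 h3
        have : w.1 = g.1.σ d := by
          obtain ⟨k, e⟩ := g.1.σ.surjective w.1
          have : k ∈ ({a, b, c, d} : Finset (Fin n)) := (Finset.eq_univ_of_card _ (by
            exact (Finset.card_eq_four.2 ⟨_, _, _, _, hab, hac, had, hbc, hbd, hcd, rfl⟩).trans
              (by simp [h4]))).ge (Finset.mem_univ k)
          simp only [Finset.mem_insert, Finset.mem_singleton, Sym2.eq_iff, smul_pt] at this e2 h'
          clear * - this e e2 h' h2 h5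
          grind
        rcases eq_or_op (y := g.1 • (d, 0)) this with rfl | rfl
        · exact ⟨g, _, List.mem_cons_self, e1, wO_rt _ _⟩
        · exact ⟨g, rt okD (c, 0) (op (d, 0)) hcd, by simp, e1, (wO_rt _ _).trans (by simp [smul_op])⟩)
      (hasPres_W0 (h4 ▸ presOn_a4.hasPres) hab hac hbc hk h2 [1, swap a b] fun i j k h1 h2 h3 => by
        obtain ⟨σ, e⟩ := exists_even_or (inj3 hab hac hbc) (inj3 h1 h2 h3) (sign_swap hab)
        exact ⟨σ, by simpa [Fin.forall_fin_succ] using e⟩)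
    simpa [h4] using this.mono (r' := 25) (by simp)
  obtain ⟨e, he⟩ := exists_notMem [a, b, c, d] (by simp; omega)
  simp only [List.mem_cons, List.not_mem_nil, or_false, not_or, ← ne_eq] at he
  have := fun g r (hP : HasPres g r (alternatingGroup (Fin n))) => main _ _ _ _ (hasPres_two' _).1
    [rt okD (c, 0) (d, 0) hcd] (by simp [A_far, *]) (fun x y z w h h' h1 h2 h3 h5 => by
      obtain ⟨k, hk⟩ := exists_notMem [x.1, y.1, z.1, w.1] (by simp; omega)
      obtain ⟨g, e | e⟩ := exists_W0 (x := ![(a, 0), (b, 0), (c, 0), (d, 0)])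
        (x' := ![op (b, 0), op (a, 0), (c, 0), (d, 0)]) (y := ![x, y, z, w])
        (by convert inj4 hab hac had hbc hbd hcd with i; fin_cases i <;> rfl)
        (by convert inj4 h h1 h2 h3 h5 h' with i; fin_cases i <;> rfl) (sign_swap hab)
        (by simp [Fin.forall_fin_succ, swap_apply_of_ne_of_ne, Ne.symm, *])
        (z := k) (by simp [Fin.forall_fin_succ]; grind) <;>
      simp only [Fin.forall_fin_succ, Matrix.cons_val_zero, Matrix.cons_val_succ] at e <;>
      obtain ⟨rfl, rfl, rfl, rfl, -⟩ := e <;>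
      exact ⟨g, by simp [wO_rt, rt_eq_iff, smul_op]⟩)
    (hasPres_W0 hP hab hac hbc (hasPres_two' _).1 h2 [1] fun i j k h1 h2 h3 => by
      obtain ⟨σ, e⟩ := exists_even (inj3 hab hac hbc) (inj3 h1 h2 h3) he.2.2.2
        (by simp [Fin.forall_fin_succ, Ne.symm, he]) (by simp [Fin.forall_fin_succ, *])
      exact ⟨σ, by simpa [Fin.forall_fin_succ] using e⟩)
  split_ifs with h5
  · exact this _ _ ((show n = 5 by omega) ▸ presOn_a5.hasPres)
  · exact this _ _ (hasPres_three h3).2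

theorem isCyclic_center_Omega [Finite K] (hn : 4 ≤ n) :
    IsCyclic (Subgroup.center (Cfsg.Omega K (Cfsg.quadFormPlus n K))) := by
  classical
  have := card_center_omega (qO_nondegenerate (n := n) (K := K)) (by simp; omega)
    (.inr (by simp; omega)) (ρ := (oEquivD n K).symm.toMonoidHom.comp (Subgroup.subtype _))
    ((oEquivD n K).symm.injective.comp (Cfsg.Omega K _).subtype_injective) (by
      rw [MonoidHom.range_comp, Subgroup.range_subtype, map_commutator_eq,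
        MonoidHom.range_eq_top_of_surjective _ (oEquivD n K).symm.surjective]; rfl)
  split_ifs at this
  · exact isCyclic_of_prime_card this
  · have := (Nat.card_eq_one_iff_unique.1 this).1
    infer_instance

end CF.Known.Pres
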