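import Cfsg.Agent.Known.Pres.Two
import Cfsg.Agent.Known.Pres.TypeD

/-! Short presentations of the symplectic groups. -/

set_option autoImplicit false

namespace CF.Known.Pres

open Function hiding swap
open Chev Equiv Equiv.Perm Matrix Geom

variable {n : ℕ} {K : Type*} [Field K]

/-- The long roots. -/
def lg (x : Pt n) : RtO 1 (2 * n) :=
  ⟨(pe x, (pe x).rev), ne_rev_of_ne_mid (ne_mid _), by simp; omega⟩

theorem evO_lg (x : Pt n) : evO (lg x) = wtO (pe x) - wtO (pe x).rev := rfl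

theorem lg_inj {x y : Pt n} : lg x = lg y ↔ x = y :=
  ⟨fun h => pe.injective (congrArg (·.1.1) h), congrArg _⟩

theorem wO_lg (g : Wr (ZMod 2) n) (x : Pt n) : wO okC g (lg x) = lg (g • x) := evO_inj okC (by
  rw [evO_wO, evO_lg, evO_lg, ← pt_pe, ← pt_rev, ← wtO_comp, ← wtO_comp]; rfl)

theorem neg_lg (x : Pt n) : (lg x).neg = lg (op x) := Subtype.ext (by simp [lg, RtO.neg, pe_op])

theorem casesC (r : RtO 1 (2 * n)) : (∃ x, r = lg x) ∨ ∃ x y h, r = rt okC x y h := by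
  by_cases h : r.1.1.val + r.1.2 + 1 = 2 * n
  · obtain ⟨x, hx⟩ := pe.surjective r.1.1
    exact .inl ⟨x, Subtype.ext (Prod.ext hx.symm (Fin.ext (by simp [lg, hx]; omega)))⟩
  · exact .inr (exists_rt_of_far ⟨r.2.1, h⟩)

section

variable {B : Type} [Fintype B] [DecidableEq B] (b : BaseO 1 (2 * n) B)

theorem A_lg_lg (x y : Pt n) :
    b.cb.A (lg x) (lg y) = if y = x then 2 else if y = op x then -2 else 0 := by
  rw [b.A_long (evO_lg x) (evO_lg y), dlt_rev', dlt_pe]; split_ifs <;> rfl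

theorem A_lg_rt (x : Pt n) {y z : Pt n} (h : y.1 ≠ z.1) : b.cb.A (lg x) (rt okC y z h) =
    (if y = x then 1 else if y = op x then -1 else 0) -
      if z = x then 1 else if z = op x then -1 else 0 := by
  rw [b.A_long (evO_lg x) (evO_rt h), dlt_pe, dlt_pe]

theorem len_lg (x : Pt n) : b.cb.len (lg x) = 8 := by
  rw [b.cb_len, lenO, if_pos (by simp [lg]; omega)]

theorem len_rt {x y : Pt n} (h : x.1 ≠ y.1) : b.cb.len (rt okC x y h) = 4 := by
  rw [b.cb_rs, Euc.rs_len, b.euc_ev, ← evO, evO_rt, dot_eq_lenO (far_pe.2 h).1, lenO,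
    if_neg (far_pe.2 h).2, if_neg (by simp [ne_mid])]

theorem refl_lg (i : Fin n) :
    b.cb.refl (lg (i, 0)) = wO okC (Wr.inl (Pi.single i (1 : ZMod 2))) := Equiv.ext fun s => evO_inj okC (by
  have key : ∀ a, wtO a ∘ (pt (Wr.inl (Pi.single i (1 : ZMod 2)))).symm =
      wtO a - dlt a (pe (i, 0)) • evO (lg (i, 0)) := fun a => by
    obtain ⟨x, rfl⟩ := pe.surjective a
    rw [wtO_comp, pt_pe, dlt_pe, evO_lg, wtO_rev]
    by_cases h : x.1 = i
    · rw [show Wr.inl (Pi.single i (1 : ZMod 2)) • x = op x by simp [smul_pt, op, h], pe_op, wtO_rev]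
      rcases eq_or_op (y := (i, 0)) h with rfl | rfl
      · simp
      · simp [op_ne, pe_op, wtO_rev]
    · simp [smul_pt, h, pt_ne (y := (i, 0)) h]
  have := congrArg b.euc.L (b.cb.vec_refl (lg (i, 0)) s)
  simp only [b.cb_rs, map_sub, map_zsmul, Euc.L_rs_vec] at this
  refine this.trans ?_
  rw [evO_wO, evO, Pi.sub_comp, key, key, ← b.cb_rs, b.A_long (evO_lg _) rfl, b.euc_ev, sub_smul]
  change _ - (_ • evO _ - _ • evO _) = _
  abel)

variable {G : Type*} [Group G] {ρ : StRep b.cb K G}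

theorem commute_lg {x y : Pt n} (h : x.1 ≠ y.1) (t u : K) :
    Commute (ρ.x (lg x) t) (ρ.x (lg y) u) := by
  refine ρ.commute_of_none (by simp [b.cb_neg, neg_lg, lg_inj, pt_ne h.symm]) (fun v hv => ?_) t u
  have h1 := RootSys.A_add hv (lg x)
  have h2 := RootSys.A_add hv (lg y)
  obtain ⟨z, rfl⟩ | ⟨z, w, h', rfl⟩ := casesC v <;>
    simp only [A_lg_lg, A_lg_rt, pt_ne h, pt_ne h.symm, if_true, if_false] at h1 h2
  · grind
  · have := pt_ne h'; grind [op_op]

theorem spansC [Finite K] {ζ : Kˣ} (hζ : IsGen ζ) {r s : RtO 1 (2 * n)} (l l' : List (Pt n))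
    {a a' : ℕ} (ha : a = 1 ∨ a = 2) (ha' : a' = 1 ∨ a' = 2)
    (h : (l.map fun x => b.cb.A (lg x) r).sum = a ∧ (l.map fun x => b.cb.A (lg x) s).sum = 0 ∧
      (l'.map fun x => b.cb.A (lg x) r).sum = 0 ∧ (l'.map fun x => b.cb.A (lg x) s).sum = a') :
    (r ≠ s ∧ r ≠ b.cb.neg s) ∧ Spans b.cb ζ {γ | decide (b.cb.len γ = 8) = true} r s {(1, 1)} := by
  have key : ∀ a : ℕ, a = 1 ∨ a = 2 →
      AddSubgroup.closure (Set.range fun i : ℕ => ((ζ : K) ^ a) ^ i) = ⊤ := by
    rintro _ (rfl | rfl)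
    exacts [by simpa using hζ.closure, hζ.closure_sq]
  refine ⟨⟨?_, ?_⟩, spans_of_list (l := l.map lg) (l' := l'.map lg)
    (List.forall_mem_map.2 fun x _ => by simp [len_lg])
    (List.forall_mem_map.2 fun x _ => by simp [len_lg]) (by simpa [comp_def] using h.1) (by simpa [comp_def] using h.2.1)
    (by simpa [comp_def] using h.2.2.1) (by simpa [comp_def] using h.2.2.2) (key _ ha) (key _ ha')⟩
  · rintro rfl; omega
  · rintro rfl
    have := List.sum_neg (l.map fun x => b.cb.A (lg x) s)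
    simp only [RootSys.A_neg_right, List.map_map, comp_def] at h this
    omega

end

theorem Wr.mem_of {A : Type} [AddCommGroup A] {C : Subgroup (Wr A n)} {g : Wr A n}
    (h1 : Wr.inr g.σ ∈ C) (h2 : ∀ i, Wr.inl (Pi.single i (g.v i)) ∈ C) : g ∈ C := by
  rw [← g.inl_mul_inr, ← Finset.univ_sum_single g.v]
  exact mul_mem (Finset.sum_induction _ (Wr.inl · ∈ C) (fun u v hu hv => Wr.addv u v ▸ mul_mem hu hv)
    (one_mem _) fun i _ => h2 i) h1

/-- Reduction of the signs modulo two. -/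
def red : Wr ℤ n →* Wr (ZMod 2) n := Wr.map (Int.castAddHom _)

theorem red_surjective : Surjective (red (n := n)) := fun g =>
  ⟨⟨fun i => (g.v i).cast, g.σ⟩, Wr.ext (funext fun i => by simp [red]) rfl⟩

theorem red_smul (g : Wr ℤ n) (x : Pt n) : red g • x = (g.σ x.1, x.2 + g.v (g.σ x.1)) := rfl

theorem exists_red {ι : Type*} [Finite ι] {x y : ι → Pt n} (hx : Injective fun i => (x i).1)
    (hy : Injective fun i => (y i).1) : ∃ g : Wr ℤ n, ∀ i, red g • x i = y i := by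
  obtain ⟨σ, hσ⟩ := exists_extending_pair _ _ hx hy
  obtain ⟨g, -, h, -⟩ := exists_wr hx σ hσ
  obtain ⟨g, rfl⟩ := red_surjective g
  exact ⟨g, h⟩

theorem exists_red2 {a b x y : Pt n} (h1 : a.1 ≠ b.1) (h2 : x.1 ≠ y.1) :
    ∃ g : Wr ℤ n, red g • a = x ∧ red g • b = y := by
  obtain ⟨g, e⟩ := exists_red (x := ![a, b]) (y := ![x, y])
    (by convert inj2 h1 with i; fin_cases i <;> rfl) (by convert inj2 h2 with i; fin_cases i <;> rfl)
  exact ⟨g, e 0, e 1⟩

theorem exists_red3 {a b c x y z : Pt n} (h1 : a.1 ≠ b.1) (h2 : a.1 ≠ c.1) (h3 : b.1 ≠ c.1)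
    (h4 : x.1 ≠ y.1) (h5 : x.1 ≠ z.1) (h6 : y.1 ≠ z.1) :
    ∃ g : Wr ℤ n, red g • a = x ∧ red g • b = y ∧ red g • c = z := by
  obtain ⟨g, e⟩ := exists_red (x := ![a, b, c]) (y := ![x, y, z])
    (by convert inj3 h1 h2 h3 with i; fin_cases i <;> rfl)
    (by convert inj3 h4 h5 h6 with i; fin_cases i <;> rfl)
  exact ⟨g, e 0, e 1, e 2⟩

theorem inl_even_mem {C : Subgroup (Wr ℤ n)} {i : Fin n} (h : Wr.t i ^ 2 ∈ C) {k : ℤ}
    (hk : (k : ZMod 2) = 0) : Wr.inl (Pi.single i k) ∈ C := by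
  obtain ⟨m, rfl⟩ := (ZMod.intCast_zmod_eq_zero_iff_dvd k 2).1 hk
  rw [← Wr.t_zpow, _root_.zpow_mul, zpow_natCast]
  exact zpow_mem h m

theorem hasPres_C_of [Finite K] {B : Type} [Fintype B] [DecidableEq B] (b : BaseO 1 (2 * n) B)
    {G : Type*} [Group G] {ρ : StRep b.cb K G} (hF : ρ.Faithful) (hG : ρ.Gp = ⊤) (h1 : b.cb.NoA1)
    (hK : StPres ρ []) (φ : Wr ℤ n →* G) (hφ : ∀ g, ρ.Acts (φ g) (wO okC (red g))) {i j : Fin n}
    (hij : i ≠ j) (L1 L2 : List (Perm (Fin n)))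
    (hL1 : ∀ σ, σ ∈ Subgroup.closure {s | s ∈ L1} ↔ σ i = i)
    (hL2 : ∀ σ, σ ∈ Subgroup.closure {s | s ∈ L2} ↔ σ i = i ∧ σ j = j)
    (L3 : List {k // i ≠ k ∧ j ≠ k}) (hL3 : 3 ≤ n → ∃ k, k ∈ L3)
    (L4 : List {p : Fin n × Fin n // p.1 ≠ p.2 ∧ i ≠ p.1 ∧ i ≠ p.2 ∧ j ≠ p.1 ∧ j ≠ p.2})
    (hL4 : 4 ≤ n → ∃ p, p ∈ L4) {g r : ℕ} (hP : HasPres g r (Perm (Fin n))) :
    HasPres (g + 5) (r + (3 * L1.length + L2.length + 5 * L3.length + L4.length + 28)) G := by
  obtain ⟨ζ, hζ⟩ := exists_isGen K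
  have h2 : ∀ r, ∃ g : Wr ℤ n, wO okC (red g)
      (if b.cb.len r = 8 then lg (i, 0) else rt okC (i, 0) (j, 0) hij) = r := fun r => by
    obtain ⟨x, rfl⟩ | ⟨x, y, h, rfl⟩ := casesC r
    · obtain ⟨g, e⟩ := exists_red (x := ![(i, 0)]) (y := ![x]) (injective_of_subsingleton _)
        (injective_of_subsingleton _)
      exact ⟨g, by rw [if_pos (len_lg b x), wO_lg, show red g • ((i, 0) : Pt n) = x from e 0]⟩
    · obtain ⟨g, rfl, rfl⟩ := exists_red2 (a := (i, 0)) (b := (j, 0)) hij h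
      exact ⟨g, by rw [if_neg (by simp [len_rt]), wO_rt]⟩
  obtain ⟨M, Mw, Mα, Mβ, Mb⟩ : ∃ M : Mono ρ (Wr ℤ n) Bool, (∀ g, M.w g = wO okC (red g)) ∧
      M.α true = lg (i, 0) ∧ M.α false = rt okC (i, 0) (j, 0) hij ∧
      ∀ r, M.base r = decide (b.cb.len r = 8) :=
    ⟨{ φ := φ
       w := (wO okC).comp red
       acts := hφ
       α k := if k then lg (i, 0) else rt okC (i, 0) (j, 0) hij
       base r := decide (b.cb.len r = 8)
       sec r := (h2 r).choose
       sec_spec r := by simpa using (h2 r).choose_spec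
       base_w g r := by simp only [RootSys.len_aut (hφ g).1, MonoidHom.comp_apply]
       base_α k := by cases k <;> simp [len_lg, len_rt] }, fun _ => rfl, rfl, rfl, fun _ => rfl⟩
  have hl : ∀ γ, M.base γ = true → ∃ x, γ = lg x := fun γ h => (casesC γ).resolve_right (by
    rintro ⟨x, y, h', rfl⟩; simp [Mb, len_rt] at h)
  set P : List (RtO 1 (2 * n) × RtO 1 (2 * n)) := [(lg (i, 0), lg (j, 0)),
    (lg (i, 0), rt okC (i, 0) (j, 0) hij), (lg (i, 0), rt okC (j, 0) (i, 0) hij.symm),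
    (rt okC (i, 0) (j, 0) hij, rt okC (i, 0) (op (j, 0)) hij)] ++
    L3.map (fun k => (lg (i, 0), rt okC (j, 0) (k.1, 0) k.2.2)) ++
    L3.map (fun k => (rt okC (i, 0) (j, 0) hij, rt okC (i, 0) (k.1, 0) k.2.1)) ++
    L3.map (fun k => (rt okC (i, 0) (j, 0) hij, rt okC (j, 0) (k.1, 0) k.2.2)) ++
    L4.map fun p => (rt okC (i, 0) (j, 0) hij, rt okC (p.1.1, 0) (p.1.2, 0) p.2.1) with hP'
  have hsp : ∀ p ∈ P, (p.1 ≠ p.2 ∧ p.1 ≠ b.cb.neg p.2) ∧
      Spans b.cb ζ {γ | M.base γ = true} p.1 p.2 {(1, 1)} := by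
    have := hij.symm
    simp only [hP', Mb, List.forall_mem_append, List.forall_mem_map, List.forall_mem_cons]
    refine ⟨⟨⟨⟨⟨spansC b hζ [(i, 0)] [(j, 0)] (.inr rfl) (.inr rfl) ?_,
      spansC b hζ [(i, 0), (j, 0)] [(j, 1)] (.inr rfl) (.inl rfl) ?_,
      spansC b hζ [(i, 0), (j, 0)] [(j, 0)] (.inr rfl) (.inl rfl) ?_,
      spansC b hζ [(i, 0), (j, 1)] [(i, 0), (j, 0)] (.inr rfl) (.inr rfl) ?_, by simp⟩,
      fun ⟨k, h1, h2⟩ _ => spansC b hζ [(i, 0)] [(j, 0)] (.inr rfl) (.inl rfl) ?_⟩,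
      fun ⟨k, h1, h2⟩ _ => spansC b hζ [(j, 1)] [(k, 1)] (.inl rfl) (.inl rfl) ?_⟩,
      fun ⟨k, h1, h2⟩ _ => spansC b hζ [(i, 0)] [(k, 1)] (.inl rfl) (.inl rfl) ?_⟩,
      fun ⟨⟨k, l⟩, h0, h1, h2, h3, h4⟩ _ =>
        spansC b hζ [(i, 0)] [(k, 0)] (.inl rfl) (.inl rfl) ?_⟩ <;>
    simp [A_lg_lg, A_lg_rt, op, CharTwo.add_self_eq_zero, Ne.symm, *]
  have tm : ∀ (C : Subgroup (Wr ℤ n)) k l, Wr.inr (swap k l) ∈ C → Wr.t k ∈ C → ∀ m,
      Wr.inl (Pi.single l m) ∈ C := fun C k l h1 h2 m => by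
    have := mul_mem (mul_mem h1 h2) (inv_mem h1)
    rw [Wr.conj_t, Wr.inr_σ, swap_apply_left] at this
    exact Wr.t_zpow l m ▸ zpow_mem this m
  have im : ∀ {L : List (Perm (Fin n))} {C : Subgroup (Wr ℤ n)} {σ}, (∀ s ∈ L, Wr.inr s ∈ C) →
      σ ∈ Subgroup.closure {s | s ∈ L} → Wr.inr σ ∈ C :=
    fun {_ C _} h hσ => (Subgroup.closure_le (C.comap Wr.inr)).2 h hσ
  have f2 : ∀ x : Pt n, red (Wr.t i ^ 2) • x = x := fun x => by
    rw [← zpow_natCast, Wr.t_zpow, red_smul]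
    by_cases h : x.1 = i <;> simp [h, Pi.single_apply, Prod.ext_iff, CharTwo.two_eq_zero]
  have ft : ∀ {k l : Fin n}, k ≠ l → red (Wr.t l) • ((k, 0) : Pt n) = (k, 0) := fun h => by
    simp [red_smul, Wr.t, h]
  have fu : red (Wr.t i * Wr.t j * Wr.inr (swap i j)) • ((i, 0) : Pt n) = op (j, 0) ∧
      red (Wr.t i * Wr.t j * Wr.inr (swap i j)) • ((j, 0) : Pt n) = op (i, 0) := by
    simp [-map_mul, red_smul, Wr.t, op, hij, hij.symm, Perm.one_def]
  let T : TwoDat M ζ :=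
  { LS k := if k then Wr.t i ^ 2 :: Wr.t j :: L1.map Wr.inr else Wr.t i ^ 2 ::
      (Wr.t i * Wr.t j * Wr.inr (swap i j)) :: (L2.map Wr.inr ++ L3.map fun k => Wr.t k.1)
    LD := [lg (j, 0)]
    ν := Wr.t i
    LN k := if k then [lg (j, 0)] else lg (j, 1) :: L3.map fun k => lg (k.1, 0)
    LC := P.map fun p => (p.1, p.2, 1, 1)
    LZ := [Wr.t i, Wr.inr (swap i j)]
    gen k := by
      cases k
      · simpa [Mα, Mβ, A_lg_rt, op, hij.symm] using hζ.closure
      · simpa using hζ.closure_sq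
    LS_fix k := by
      cases k <;> simp only [Mw, Mα, Mβ, wO_lg, wO_rt, lg_inj, rt_eq_iff, List.forall_mem_cons,
        List.forall_mem_append, List.forall_mem_map, if_true, Bool.false_eq_true, if_false]
      · exact ⟨.inl ⟨f2 _, f2 _⟩, .inr ⟨fu.1, fu.2⟩, fun s hs => .inl (by
          simpa [red_smul] using (hL2 s).1 (Subgroup.subset_closure hs)),
          fun k _ => .inl ⟨ft k.2.1, ft k.2.2⟩⟩
      · exact ⟨f2 _, ft hij, fun s hs => by
          simpa [red_smul] using (hL1 s).1 (Subgroup.subset_closure hs)⟩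
    LS_gen k s hs := by
      cases k <;> simp only [Mw, Mα, Mβ, wO_lg, wO_rt, lg_inj, rt_eq_iff, if_true,
        Bool.false_eq_true, if_false] at hs ⊢ <;> refine Subgroup.mem_closure.2 fun C hC => ?_
      · have m1 : Wr.t i ^ 2 ∈ C := hC (by simp)
        have m2 : Wr.t i * Wr.t j * Wr.inr (swap i j) ∈ C := hC (by simp)
        have m3 : ∀ σ : Perm (Fin n), σ i = i → σ j = j → Wr.inr σ ∈ C := fun σ e e' =>
          im (fun s hs => hC (by simpa using .inr (.inr (.inl ⟨s, hs, rfl⟩)))) ((hL2 σ).2 ⟨e, e'⟩)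
        have key : ∀ s, red s • ((i, 0) : Pt n) = (i, 0) → red s • ((j, 0) : Pt n) = (j, 0) →
            s ∈ C := fun s e e' => by
          simp only [red_smul, Prod.mk.injEq, zero_add] at e e'
          refine Wr.mem_of (m3 _ e.1 e'.1) fun l => ?_
          by_cases h : i = l
          · exact h ▸ inl_even_mem m1 (by simpa [e.1] using e.2)
          by_cases h' : j = l
          · have := mul_mem (mul_mem m2 m1) (inv_mem m2)
            rw [← conj_pow, Wr.conj_t] at this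
            exact h' ▸ inl_even_mem (by simpa [Wr.t] using this) (by simpa [e'.1] using e'.2)
          obtain ⟨k, hk⟩ := hL3 (by simpa using Fintype.card_le_of_injective _ (inj3 hij h h'))
          exact tm C k l (m3 _ (swap_apply_of_ne_of_ne k.2.1 h) (swap_apply_of_ne_of_ne k.2.2 h'))
            (hC (.tail _ (.tail _ (List.mem_append_right _
              (List.mem_map_of_mem hk))))) _
        rcases hs with e | e
        · exact key s e.1 e.2
        · refine (mul_mem_cancel_left (inv_mem m2)).1 (key _ ?_ ?_) <;>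
            rw [map_mul, mul_smul, map_inv, inv_smul_eq_iff]
          exacts [e.1.trans fu.1.symm, e.2.trans fu.2.symm]
      · have m3 : ∀ σ : Perm (Fin n), σ i = i → Wr.inr σ ∈ C := fun σ e =>
          im (fun s hs => hC (by simpa using .inr (.inr ⟨s, hs, rfl⟩))) ((hL1 σ).2 e)
        simp only [red_smul, Prod.mk.injEq, zero_add] at hs
        refine Wr.mem_of (m3 _ hs.1) fun l => ?_
        by_cases h : i = l
        · exact h ▸ inl_even_mem (hC (by simp)) (by simpa [hs.1] using hs.2)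
        · exact tm C j l (m3 _ (swap_apply_of_ne_of_ne hij h)) (hC (by simp)) _
    LS_N k := by
      cases k <;> simp only [Mw, Mα, wO_lg, List.forall_mem_cons,
        List.forall_mem_append, List.forall_mem_map, if_true, Bool.false_eq_true, if_false]
      · exact ⟨.inl (by rw [f2]), .inr (by rw [fu.1]; exact List.mem_cons_self), fun s hs => .inl (by
          simp [red_smul, ((hL2 s).1 (Subgroup.subset_closure hs)).1]),
          fun k _ => .inl (by rw [ft k.2.1])⟩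
      · exact ⟨.inl (by rw [f2]), .inl (by rw [ft hij]), fun s hs => .inl (by
          simp [red_smul, (hL1 s).1 (Subgroup.subset_closure hs)])⟩
    LD_base := by simp [Mb, len_lg]
    LN_base k := by
      cases k <;> simp only [Mb, List.forall_mem_cons, List.forall_mem_map, if_true,
        Bool.false_eq_true, if_false, len_lg] <;> simp
    ν_α := by simp [Mw, Mα, wO_lg, b.cb_neg, neg_lg, red_smul, Wr.t, op]
    LC_ne := List.forall_mem_map.2 fun p hp => (hsp p hp).1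
    c1 γ h := by
      obtain ⟨x, rfl⟩ := hl γ h
      simp only [Mw, Mα, b.cb_neg, neg_lg]
      by_cases e : x.1 = i
      · exact (eq_or_op (y := (i, 0)) e).imp (congrArg _) fun e => .inl (congrArg _ e)
      obtain ⟨g, e1, rfl⟩ := exists_red2 (a := (i, 0)) (b := (j, 0)) (x := (i, 0)) hij (Ne.symm e)
      exact .inr (.inr ⟨g, _, List.mem_cons_self, by rw [wO_lg, e1], wO_lg _ _⟩)
    c2 k γ h := by
      obtain ⟨x, rfl⟩ := hl γ h
      have t0 : ∀ y : Pt n, x.1 = y.1 → M.w 1 (lg y) = lg x ∨ b.cb.neg (M.w 1 (lg y)) = lg x :=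
        fun y e => by rcases eq_or_op e with rfl | rfl <;> simp [b.cb_neg, neg_lg]
      by_cases e : i = x.1
      · exact ⟨1, _, .inl rfl, by simp, Mα ▸ t0 _ e.symm⟩
      cases k <;> simp only [Mw, Mα, Mβ, if_true, Bool.false_eq_true, if_false] at t0 ⊢
      · by_cases e' : j = x.1
        · exact ⟨1, _, .inr List.mem_cons_self, by simp, t0 _ e'.symm⟩
        obtain ⟨k, hk⟩ := hL3 (by simpa using Fintype.card_le_of_injective _ (inj3 hij e e'))
        obtain ⟨g, e1, e2, rfl⟩ := exists_red3 (a := (i, 0)) (b := (j, 0)) (c := (k.1, 0))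
          (x := (i, 0)) (y := (j, 0)) hij k.2.1 k.2.2 hij e e'
        exact ⟨g, lg (k.1, 0), .inr (.tail _ (List.mem_map.2 ⟨k, hk, rfl⟩)), by simp [wO_rt, e1, e2],
          .inl (wO_lg _ _)⟩
      · obtain ⟨g, e1, rfl⟩ := exists_red2 (a := (i, 0)) (b := (j, 0)) (x := (i, 0)) hij e
        exact ⟨g, _, .inr List.mem_cons_self, by rw [wO_lg, e1], .inl (wO_lg _ _)⟩
    c5 r s e1 e2 := by
      suffices ∃ g, ∃ p ∈ P, (M.w g p.1 = r ∧ M.w g p.2 = s) ∨ (M.w g p.1 = s ∧ M.w g p.2 = r) by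
        obtain ⟨g, p, hp, e⟩ := this
        exact ⟨g, _, _, e, (hsp p hp).2.mono
          (Set.singleton_subset_iff.2 (List.mem_map.2 ⟨p, hp, rfl⟩))⟩
      simp only [Mw]
      have t2 : ∀ x y h, ∃ g : Wr ℤ n, ∃ p ∈ P, wO okC (red g) p.1 = lg x ∧
          wO okC (red g) p.2 = rt okC x y h := fun x y h => by
        obtain ⟨g, rfl, rfl⟩ := exists_red2 (a := (i, 0)) (b := (j, 0)) hij h
        exact ⟨g, (lg (i, 0), rt okC (i, 0) (j, 0) hij), by simp [hP'], wO_lg _ _, wO_rt _ hij⟩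
      have t3 : ∀ x y h, ∃ g, ∃ p ∈ P, wO okC (red g) p.1 = lg x ∧
          wO okC (red g) p.2 = rt okC y x h := fun x y h => by
        obtain ⟨g, rfl, rfl⟩ := exists_red2 (a := (i, 0)) (b := (j, 0)) hij h.symm
        exact ⟨g, (lg (i, 0), rt okC (j, 0) (i, 0) hij.symm), by simp [hP'], wO_lg _ _,
          wO_rt _ hij.symm⟩
      have t4 : ∀ {x y z : Pt n}, x.1 ≠ y.1 → x.1 ≠ z.1 → y.1 ≠ z.1 → ∃ k ∈ L3, ∃ g : Wr ℤ n,
          red g • ((i, 0) : Pt n) = x ∧ red g • ((j, 0) : Pt n) = y ∧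
            red g • ((k.1, 0) : Pt n) = z := fun h1 h2 h3 => by
        obtain ⟨k, hk⟩ := hL3 (by simpa using Fintype.card_le_of_injective _ (inj3 h1 h2 h3))
        exact ⟨k, hk, exists_red3 hij k.2.1 k.2.2 h1 h2 h3⟩
      have t1 : ∀ x y z h, ∃ g, ∃ p ∈ P, wO okC (red g) p.1 = lg x ∧
          wO okC (red g) p.2 = rt okC y z h := fun x y z h => by
        by_cases e : y.1 = x.1
        · rcases eq_or_op e with rfl | rfl
          exacts [t2 _ _ _, by simpa only [← rt_op h, op_op] using t3 x (op z) h.symm]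
        by_cases e' : z.1 = x.1
        · rcases eq_or_op e' with rfl | rfl
          exacts [t3 _ _ _, by simpa only [← rt_op h, op_op] using t2 x (op y) h.symm]
        obtain ⟨k, hk, g, rfl, rfl, rfl⟩ := t4 (Ne.symm e) (Ne.symm e') h
        exact ⟨g, (lg (i, 0), rt okC (j, 0) (k.1, 0) k.2.2), by
          simp only [hP', List.mem_append, List.mem_map]; exact .inl (.inl (.inl (.inr ⟨k, hk, rfl⟩))),
          wO_lg _ _, wO_rt _ k.2.2⟩
      obtain ⟨x, rfl⟩ | ⟨x, y, h1, rfl⟩ := casesC r <;>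
        obtain ⟨z, rfl⟩ | ⟨z, w, h2, rfl⟩ := casesC s
      · obtain ⟨g, rfl, rfl⟩ := exists_red2 (a := (i, 0)) (b := (j, 0)) (x := x) (y := z) hij
          fun e => by rcases eq_or_op e with rfl | rfl <;> simp [b.cb_neg, neg_lg] at e1 e2
        exact ⟨g, (lg (i, 0), lg (j, 0)), by simp [hP'], .inl ⟨wO_lg _ _, wO_lg _ _⟩⟩
      · obtain ⟨g, p, hp, e⟩ := t1 x z w h2
        exact ⟨g, p, hp, .inl e⟩
      · obtain ⟨g, p, hp, e⟩ := t1 z x y h1
        exact ⟨g, p, hp, .inr e⟩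
      obtain ⟨x', y', h3, e, e' | ⟨d, h4, h5, e' | e'⟩⟩ | e := rt_cases h1 h2 e1 e2
      · obtain ⟨g, rfl, rfl⟩ := exists_red2 (a := (i, 0)) (b := (j, 0)) hij h3
        exact ⟨g, (rt okC (i, 0) (j, 0) hij, rt okC (i, 0) (op (j, 0)) hij), by simp [hP'],
          .inl ⟨by simp only [wO_rt, e], e' ▸ (wO_rt _ (y := op (j, 0)) hij).trans
            (by simp only [smul_op])⟩⟩
      · obtain ⟨k, hk, g, rfl, rfl, rfl⟩ := t4 h3 h4 h5
        exact ⟨g, (rt okC (i, 0) (j, 0) hij, rt okC (i, 0) (k.1, 0) k.2.1), by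
          simp only [hP', List.mem_append, List.mem_map]; exact .inl (.inl (.inr ⟨k, hk, rfl⟩)),
          .inl (by simp only [wO_rt, e, e', and_self])⟩
      · obtain ⟨k, hk, g, rfl, rfl, rfl⟩ := t4 h3 h4 h5
        exact ⟨g, (rt okC (i, 0) (j, 0) hij, rt okC (j, 0) (k.1, 0) k.2.2), by
          simp only [hP', List.mem_append, List.mem_map]; exact .inl (.inr ⟨k, hk, rfl⟩),
          .inl (by simp only [wO_rt, e, e', and_self])⟩
      · have e4 := inj4 h1 e.1 e.2.1 e.2.2.1 e.2.2.2 h2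
        obtain ⟨p, hp⟩ := hL4 (by simpa using Fintype.card_le_of_injective _ e4)
        obtain ⟨g, e⟩ := exists_red (x := ![(i, 0), (j, 0), (p.1.1, 0), (p.1.2, 0)])
          (y := ![x, y, z, w]) (by
            convert inj4 hij p.2.2.1 p.2.2.2.1 p.2.2.2.2.1 p.2.2.2.2.2 p.2.1 with i
            fin_cases i <;> rfl) (by convert e4 with i; fin_cases i <;> rfl)
        simp only [Fin.forall_fin_succ, Matrix.cons_val_zero, Matrix.cons_val_succ] at e
        obtain ⟨rfl, rfl, rfl, rfl, -⟩ := e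
        exact ⟨g, (rt okC (i, 0) (j, 0) hij, rt okC (p.1.1, 0) (p.1.2, 0) p.2.1), by
          simp only [hP', List.mem_append, List.mem_map]; exact .inr ⟨p, hp, rfl⟩,
          .inl (by simp only [wO_rt, and_self])⟩
    c6 := by
      set N := Subgroup.normalClosure {s | s ∈ [Wr.t i, Wr.inr (swap i j)]}
      have m : ∀ σ, Wr.inr σ ∈ N := fun σ => by
        induction σ using swap_induction_on with
        | one => simp
        | swap_mul σ a c h ih =>
          obtain ⟨τ, e⟩ := exists_extending_pair _ _ (inj2 hij) (inj2 h)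
          rw [map_mul, ← show τ i = a from e 0, ← show τ j = c from e 1, swap_apply_apply, map_mul,
            map_mul, map_inv]
          exact mul_mem (Subgroup.Normal.conj_mem inferInstance _
            (Subgroup.subset_normalClosure (by simp)) _) ih
      exact Wr.le_of_t m fun l => tm N i l (m _) (Subgroup.subset_normalClosure (by simp)) 1 }
  refine (T.hasPres hF hG h1 hK (hasPres_wr hP hij L1 hL1) (by
    rw [RootSys.A_self, zpow_ofNat]; exact hasPres_aff_sq hζ) (by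
    rw [Mα, Mβ, A_lg_rt, show (_ : ℤ) - _ = 1 by simp [op, hij.symm], zpow_one]
    exact hasPres_aff hζ)).mono ?_
  simp [T, hP']
  omega

theorem betO_inr (σ : Perm (Fin n)) (a : Fin (2 * n)) : betO 1 (pt (Wr.inr σ) a) = betO 1 a := by
  obtain ⟨⟨i, s⟩, rfl⟩ := pe.surjective a
  rw [pt_pe]
  rcases zmod_two s with rfl | rfl <;> simp [betO, val_pe, smul_pt] <;> omega

/-- Permutation matrices as symplectic maps. -/
noncomputable def permC (n : ℕ) (K : Type*) [Field K] : Perm (Fin n) →* SpG (bilO 1 (2 * n) K) :=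
  ((glEquiv _ K).toMonoidHom.comp ((permGL _ K).comp (pt.comp Wr.inr))).codRestrict _ fun σ =>
    mem_SpG.2 fun u v => by
      change bilO _ _ K ((permGL _ K (pt _)).val *ᵥ u) ((permGL _ K (pt _)).val *ᵥ v) = _
      rw [permGL_mulVec, permGL_mulVec, bilO_apply, bilO_apply, ← Equiv.sum_comp (pt (Wr.inr σ))]
      simp [betO_inr, ← pt_rev]

theorem permC_apply (σ : Perm (Fin n)) (v : Fin (2 * n) → K) :
    (permC n K σ).1 v = v ∘ (pt (Wr.inr σ)).symm := permGL_mulVec _ _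

theorem permC_lg (σ : Perm (Fin n)) (x : Pt n) (t : K) :
    permC n K σ * (spRep₀ n K).x (lg x) t * (permC n K σ)⁻¹ =
      (spRep₀ n K).x (lg (Wr.inr (A := ZMod 2) σ • x)) t := by
  rw [mul_inv_eq_iff_eq_mul]
  refine Subtype.ext (LinearEquiv.ext fun v => ?_)
  have : ∀ a : Fin (2 * n), cfQ 1 a a.rev = 0 := fun a => by
    rw [cfQ, if_pos rfl, if_pos (by simp; omega)]
  ext a
  simp only [lg, Subgroup.coe_mul, LinearEquiv.mul_apply, spRep₀_apply, this]
  simp [permC_apply, ← pt_pe, ← pt_rev, Pi.single_apply, symm_apply_eq]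

theorem hasPres_Sp [Finite K] (hn : 2 ≤ n) : HasPres (if n = 2 then 6 else 8)
    (if n = 2 then 29 else 49) (symplecticGroup (Fin n) K) := by
  refine HasPres.of_equiv ?_ (spEquivC n K)
  obtain ⟨φ, φ1, φ2⟩ := Wr.exists_hom_int (permC n K) (y := fun i => (spRep₀ n K).n (lg (i, 0)) 1)
    (fun i j => by
      by_cases e : i = j
      · exact e ▸ Commute.refl _
      have := fun s s' => commute_lg (bC n) (ρ := spRep₀ n K) (x := (i, s)) (y := (j, s')) e
      simp only [PreSt.n, (bC n).cb_neg, neg_lg]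
      refine ((Commute.mul_left ?_ ?_).mul_left ?_) <;>
        exact ((this _ _ _ _).mul_right (this _ _ _ _)).mul_right (this _ _ _ _))
    fun σ i => by
      simp only [PreSt.n, (bC n).cb_neg, neg_lg, ← MulAut.conj_apply, map_mul]
      simp only [MulAut.conj_apply, permC_lg, smul_op]
      simp [smul_pt]
  have hφ : ∀ g, (spRep₀ n K).Acts (φ g) (wO okC (red g)) := fun g => by
    refine (Wr.le_of_t (C :=
      { carrier := {g | (spRep₀ n K).Acts (φ g) (wO okC (red g))}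
        one_mem' := by simpa using StRep.acts_one
        mul_mem' := fun h h' => by simpa using h.mul h'
        inv_mem' := fun h => by simpa using h.inv }) (fun σ => ?_) fun i => ?_).ge (Subgroup.mem_top g)
    · obtain ⟨h1, c, h2, h4⟩ := acts_permGL (bC n) (ρ := natC n K) (fun _ _ => rfl) _ (betO_inr σ)
      refine ⟨h1, c, h2, fun s u => toGL_injective K _ ?_⟩
      rw [← spRep₀_map] at h4
      rw [map_mul, map_mul, map_inv, φ1]
      have : toGL K _ (permC n K σ) = permGL _ K (pt (Wr.inr σ)) := (glEquiv _ K).symm_apply_apply _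
      exact this ▸ h4 s u
    · change (spRep₀ n K).Acts (φ (Wr.t i)) (wO okC (red (Wr.t i)))
      rw [φ2, show red (Wr.t i) = Wr.inl (Pi.single i (1 : ZMod 2)) from Wr.ext (by
        ext k; simp [red, Wr.t, Pi.single_apply]) rfl, ← refl_lg (bC n)]
      exact StRep.acts_n _ _
  have main := hasPres_C_of (bC n) (faithful_spRep₀ n K (by omega))
    (spRep₀_Gp n K) (noA1C hn) (stPres_of_inj (faithful_spRep₀ n K (by omega)) (spRep₀_Gp n K)
      ((r3_spRep₀ n K).tor_injective_of_map (toGL K _) (by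
        convert tor_injective_natC n K using 2 <;> simp only [spRep₀_map]))) φ hφ
    (i := ⟨0, by omega⟩) (j := ⟨1, by omega⟩) (by simp)
  split_ifs with h
  · subst h
    have := isCyclic_of_prime_card (α := Perm (Fin 2)) (p := 2) (by simp [Fintype.card_perm])
    exact main [] [] (by simp; decide) (by simp; decide) [] (by omega) [] (by omega)
      (hasPres_of_isCyclic _)
  obtain ⟨L1, l1, e1⟩ := exists_gens_perm {(⟨0, by omega⟩ : Fin n)}
  obtain ⟨L2, l2, e2⟩ := exists_gens_perm {(⟨0, by omega⟩ : Fin n), (⟨1, by omega⟩ : Fin n)}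
  refine (main L1 L2 (by simpa using e1) (by simpa using e2) [⟨⟨2, by omega⟩, by simp⟩] (by simp)
    (if h : 4 ≤ n then [⟨(⟨2, by omega⟩, ⟨3, by omega⟩), by simp⟩] else [])
    (fun h => by simp [h]) (hasPres_three (by omega)).1).mono ?_
  split_ifs <;> simp [l1, l2]

theorem isCyclic_center_Sp [Finite K] (hn : 1 ≤ n) :
    IsCyclic (Subgroup.center (symplecticGroup (Fin n) K)) :=
  isCyclic_of_card_dvd_prime (p := 2) (card_center_Sp (K := K) hn ▸ Nat.gcd_dvd_left 2 _)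

end CF.Known.Pres
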