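import Cfsg.Agent.Known.Pres.PermX
import Cfsg.Agent.Phan.Ind

/-! Permutation facts and an abstract coherence argument for gluing block subgroups. -/

set_option autoImplicit false

namespace CF.Known.Pres

open Function Equiv Equiv.Perm
open scoped Pointwise

theorem idx2 {G : Type*} [Group G] {S : Set G} (hS : Subgroup.closure S = ⊤) {K : Subgroup G}
    (hK : ∀ s ∈ S, ∀ s' ∈ S, s * s' ∈ K) (g : G) : g ∈ K ∨ ∀ s ∈ S, s * g ∈ K := by
  have hg : g ∈ Subgroup.closure S := hS ▸ trivial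
  induction hg using Subgroup.closure_induction_left with
  | one => exact .inl K.one_mem
  | mul_left x hx y _ ih =>
    exact ih.elim (fun h => .inr fun s hs => mul_assoc s x y ▸ K.mul_mem (hK s hs x hx) h)
      fun h => .inl (h x hx)
  | inv_mul_cancel x hx y _ ih =>
    refine ih.elim (fun h => .inr fun s hs => ?_) fun h => .inl ?_
    · simpa [mul_assoc] using K.mul_mem (K.mul_mem (hK s hs x hx) (K.inv_mem (hK x hx x hx))) h
    · simpa [mul_assoc] using K.mul_mem (K.inv_mem (hK x hx x hx)) (h x hx)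

theorem commute_closure {H : Type*} [Group H] {S S' : Set H} (h : ∀ a ∈ S, ∀ b ∈ S', a * b = b * a)
    {x y : H} (hx : x ∈ Subgroup.closure S) (hy : y ∈ Subgroup.closure S') : x * y = y * x := by
  have : Subgroup.closure S ≤ Subgroup.centralizer (Subgroup.closure S') := by
    rw [Subgroup.centralizer_closure, Subgroup.closure_le]
    exact fun a ha b hb => (h a ha b hb).symm
  exact (this hx y hy).symm

theorem alt_eq_top {N : ℕ} (hN : 2 ≤ N) {K : Subgroup (alternatingGroup (Fin N))}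
    (h : ∀ j, j + 2 < N → ∀ u : alternatingGroup (Fin N),
      (∀ a : Fin N, ¬ (j ≤ (a : ℕ) ∧ (a : ℕ) ≤ j + 2) → u • a = a) → u ∈ K) : K = ⊤ := by
  obtain ⟨n, rfl⟩ : ∃ n, N = n + 2 := ⟨N - 2, by omega⟩
  let s (i : Fin (n + 1)) : Perm (Fin (n + 2)) := swap i.castSucc i.succ
  have s1 : ∀ i, sign (s i) = -1 := fun i => sign_swap Fin.castSucc_lt_succ.ne
  have h0 : ∀ i, s 0 * s i ∈ K.map (alternatingGroup _).subtype := fun i => by
    induction i using Fin.induction with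
    | zero => simpa [s] using one_mem _
    | succ i ih =>
      have := h i (by omega) ⟨s i.castSucc * s i.succ, by simp [s1]⟩ fun a ha => by
        show s _ (s _ a) = a
        rw [swap_apply_of_ne_of_ne (x := a), swap_apply_of_ne_of_ne] <;>
          simp [Fin.ext_iff] <;> omega
      simpa [s, mul_assoc] using mul_mem ih (Subgroup.mem_map_of_mem _ this)
  refine (Subgroup.eq_top_iff' K).2 fun g => ?_
  rcases idx2 (S := Set.range s) (K := K.map (alternatingGroup _).subtype)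
    (top_unique fun g _ => Subgroup.le_closure_toSubmonoid _
      ((mclosure_swap_castSucc_succ (n + 1)).ge trivial))
    (by
      rintro _ ⟨i, rfl⟩ _ ⟨j, rfl⟩
      simpa [s, mul_assoc] using mul_mem (inv_mem (h0 i)) (h0 j)) g.1 with ⟨k, hk, e⟩ | e
  · exact Subtype.ext e ▸ hk
  · obtain ⟨k, -, e⟩ := e _ ⟨0, rfl⟩
    have := congrArg sign e
    simp [s1, mem_alternatingGroup.1 k.2, mem_alternatingGroup.1 g.2] at this

variable {Ω : Type} [Fintype Ω] [DecidableEq Ω]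

local notation "𝔄" => alternatingGroup Ω

theorem smul_eq_of_fix {T : Finset Ω} {u : 𝔄} (h : ∀ a ∉ T, u • a = a) : u • T = T := by
  refine Finset.eq_of_subset_of_card_le (fun a ha => ?_) (Finset.card_smul_finset _ _).ge
  by_contra e
  rw [← h a e, Finset.smul_mem_smul_finset_iff] at ha
  exact e ha

theorem smul_eq_of {s : 𝔄} {T S : Finset Ω} (h : T.card = S.card) (e : ∀ x ∈ T, s.1 x ∈ S) :
    s • T = S :=
  Finset.eq_of_subset_of_card_le (Finset.forall_mem_image.2 e)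
    (h.symm.trans (Finset.card_smul_finset _ _).symm).le

theorem exists_smul_pair {T₁ T₂ S₁ S₂ : Finset Ω} (h1 : T₁.card = S₁.card) (h2 : T₂.card = S₂.card)
    (h3 : 2 ≤ T₁.card) (d : Disjoint T₁ T₂) (d' : Disjoint S₁ S₂) :
    ∃ s : 𝔄, s • T₁ = S₁ ∧ s • T₂ = S₂ := by
  obtain ⟨a, ha, b, hb, ab⟩ := Finset.one_lt_card.1 h3
  let e₁ := Finset.equivOfCardEq h1
  let e₂ := Finset.equivOfCardEq h2
  have i : ∀ {T₁ T₂ : Finset Ω}, Disjoint T₁ T₂ →
      Injective (Sum.elim (↑) (↑) : T₁ ⊕ T₂ → Ω) := fun d =>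
    Subtype.val_injective.sumElim Subtype.val_injective fun x y e =>
      Finset.disjoint_left.1 d x.2 (e ▸ y.2)
  obtain ⟨s, e | e⟩ := exists_even_or (i d) ((i d').comp (e₁.sumCongr e₂).injective) (sign_swap ab)
  · exact ⟨s, smul_eq_of h1 fun x hx => (e (.inl ⟨x, hx⟩)).symm ▸ (e₁ _).2,
      smul_eq_of h2 fun x hx => (e (.inr ⟨x, hx⟩)).symm ▸ (e₂ _).2⟩
  · refine ⟨s, smul_eq_of h1 fun x hx => ?_, smul_eq_of h2 fun x hx => ?_⟩
    · have := e (.inl ⟨swap a b x, by rw [swap_apply_def]; split_ifs <;> assumption⟩)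
      simp only [Sum.elim_inl, swap_apply_self] at this
      exact this.symm ▸ (e₁ _).2
    · have := e (.inr ⟨x, hx⟩)
      rw [Sum.elim_inr, swap_apply_of_ne_of_ne (d.forall_ne_finset ha hx).symm
        (d.forall_ne_finset hb hx).symm] at this
      exact this.symm ▸ (e₂ _).2

theorem exists_smul_sub {T S T₀ : Finset Ω} (h1 : T.card = S.card) (h3 : 2 ≤ T.card) (d : T ⊆ T₀)
    (d' : S ⊆ T₀) : ∃ s : 𝔄, s • T = S ∧ s • T₀ = T₀ := by
  obtain ⟨s, e1, e2⟩ := exists_smul_pair (T₂ := T₀ \ T) (S₂ := T₀ \ S) h1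
    (by rw [Finset.card_sdiff_of_subset d, Finset.card_sdiff_of_subset d', h1]) h3
    Finset.disjoint_sdiff Finset.disjoint_sdiff
  refine ⟨s, e1, ?_⟩
  conv_lhs => rw [← Finset.union_sdiff_of_subset d, Finset.smul_finset_union, e1, e2,
    Finset.union_sdiff_of_subset d']

theorem exists_sub_smul {T T₀ : Finset Ω} (h1 : T.card ≤ T₀.card) (h3 : 2 ≤ T.card) :
    ∃ s : 𝔄, T ⊆ s • T₀ := by
  obtain ⟨S, hS, e⟩ := Finset.exists_subset_card_eq h1
  obtain ⟨s, rfl, -⟩ := exists_smul_pair (T₂ := ∅) (S₂ := ∅) e rfl (e ▸ h3) (by simp) (by simp)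
  exact ⟨s, Finset.smul_finset_subset_smul_finset hS⟩

theorem exists_move {T : Finset Ω} (h : 2 ≤ T.card) {x y : Ω} (hx : x ∉ T) (hy : y ∉ T) :
    ∃ u : 𝔄, u • T = T ∧ u • x = y ∧ ∀ z ∉ T, z ≠ x → z ≠ y → u • z = z := by
  obtain ⟨a, ha, b, hb, ab⟩ := Finset.one_lt_card.1 h
  obtain rfl | xy := eq_or_ne x y
  · exact ⟨1, by simp⟩
  have k : ∀ z ∉ T, swap a b z = z := fun z hz =>
    swap_apply_of_ne_of_ne (fun e => hz (e ▸ ha)) fun e => hz (e ▸ hb)
  refine ⟨⟨swap a b * swap x y, by simp [ab, xy]⟩, ?_, ?_, fun z hz z1 z2 => ?_⟩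
  · refine smul_eq_of rfl fun z hz => ?_
    show swap a b (swap x y z) ∈ T
    rw [swap_apply_of_ne_of_ne (ne_of_mem_of_not_mem hz hx) (ne_of_mem_of_not_mem hz hy),
      swap_apply_def]
    split_ifs <;> assumption
  · show swap a b (swap x y x) = y
    rw [swap_apply_left, k y hy]
  · show swap a b (swap x y z) = z
    rw [swap_apply_of_ne_of_ne z1 z2, k z hz]

theorem not_mem_smul {T : Finset Ω} {s : 𝔄} (h : s • T = T) {x : Ω} (hx : x ∉ T) : s • x ∉ T := by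
  rwa [← h, Finset.smul_mem_smul_finset_iff]

theorem exists_gens_stab {T : Finset Ω} (h : 2 ≤ T.card) {g r : ℕ}
    (hP : HasPres g r (Perm {a // a ∉ T})) : ∃ L : List 𝔄, L.length = g ∧ (∀ s ∈ L, s • T = T) ∧
      ∀ s : 𝔄, s • T = T → ∃ s' ∈ Subgroup.closure {s | s ∈ L}, ∀ x ∉ T, s' • x = s • x := by
  obtain ⟨x, hx⟩ := hP.exists_presOn
  obtain ⟨a, ha, b, hb, ab⟩ := Finset.one_lt_card.1 h
  have k : ∀ δ : Perm {a // a ∉ T}, ∃ s : 𝔄, s • T = T ∧ ∀ x : {a // a ∉ T}, s • x.1 = δ x := by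
    intro δ
    obtain ⟨s, e⟩ := exists_even (x := Subtype.val) (y := fun x => (δ x).1) Subtype.val_injective
      (Subtype.val_injective.comp δ.injective) ab (fun x e => x.2 (e ▸ ha)) fun x e => x.2 (e ▸ hb)
    refine ⟨s, Finset.eq_of_subset_of_card_le (fun a ha => ?_) (Finset.card_smul_finset _ _).ge, e⟩
    by_contra e'
    have : a = s • (δ⁻¹ ⟨a, e'⟩).1 := ((e _).trans (by simp)).symm
    rw [this, Finset.smul_mem_smul_finset_iff] at ha
    exact (δ⁻¹ ⟨a, e'⟩).2 ha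
  choose t t1 t2 using k
  have : ∀ δ ∈ Subgroup.closure (Set.range x), ∃ s ∈ Subgroup.closure
      {s | s ∈ List.ofFn fun i => t (x i)}, ∀ x : {a // a ∉ T}, s • x.1 = δ x := fun δ hδ => by
    induction hδ using Subgroup.closure_induction with
    | mem _ h =>
      obtain ⟨i, rfl⟩ := h
      exact ⟨_, Subgroup.subset_closure (by simp), t2 _⟩
    | one => exact ⟨1, one_mem _, fun _ => rfl⟩
    | mul _ _ _ _ h h' =>
      obtain ⟨s, s1, s2⟩ := h
      obtain ⟨s', s3, s4⟩ := h'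
      exact ⟨_, mul_mem s1 s3, fun x => by rw [mul_smul, s4, s2]; rfl⟩
    | inv δ _ h =>
      obtain ⟨s, s1, s2⟩ := h
      exact ⟨_, inv_mem s1, fun x => by rw [inv_smul_eq_iff, s2]; simp⟩
  refine ⟨List.ofFn fun i => t (x i), by simp, by simp [t1], fun s hs => ?_⟩
  obtain ⟨s', s1, s2⟩ := this (s.1.subtypePerm fun x => by
    rw [← hs, not_iff_not]; nth_rw 2 [hs]; exact Finset.smul_mem_smul_finset_iff s)
    (hx.closure_eq.ge trivial)
  exact ⟨s', s1, fun x hx => s2 ⟨x, hx⟩⟩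

theorem exists_gens_alt' {T : Finset Ω} {g r : ℕ} (hP : HasPres g r (alternatingGroup T)) :
    ∃ L : List 𝔄, L.length = g ∧
      ∀ σ, σ ∈ Subgroup.closure {s | s ∈ L} ↔ ∀ a ∉ T, σ • a = a := by
  obtain ⟨L, h1, h2⟩ := hP.exists_gens (alternatingGroup.ofSubtype _)
  refine ⟨L, h1, fun σ => ?_⟩
  rw [h2, alternatingGroup.mem_range_ofSubtype_iff]
  simp only [Finset.subset_iff, Perm.mem_support]
  exact forall_congr' fun _ => not_imp_comm

/-- Block subgroups permuted by the alternating group, and partial maps to a group `H`. -/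
structure Gl (Ω : Type) [Fintype Ω] [DecidableEq Ω] (G H : Type*) [Group G] [Group H] where
  /-- the blocks -/
  B : Finset Ω → Subgroup G
  /-- the permutation elements -/
  φ : alternatingGroup Ω →* G
  /-- their images -/
  ψ : alternatingGroup Ω →* H
  /-- the map on the base block -/
  β : G → H
  /-- the base block -/
  T₀ : Finset Ω
  mono : ∀ {S T}, S ⊆ T → B S ≤ B T
  conj : ∀ s {T g}, g ∈ B T → φ s * g * (φ s)⁻¹ ∈ B (s • T)
  hom : Phan.HomOn β (B T₀)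

namespace Gl

variable {G H : Type*} [Group G] [Group H] {D : Gl Ω G H} {s s' : alternatingGroup Ω}
  {T T' S S' : Finset Ω}

/-- Conjugation by `s` is compatible on the block `T`. -/
def Pc (D : Gl Ω G H) (s : 𝔄) (T : Finset Ω) : Prop :=
  ∀ g ∈ D.B T, D.ψ s * D.β g * (D.ψ s)⁻¹ = D.β (D.φ s * g * (D.φ s)⁻¹)

theorem conj' (s : 𝔄) (h : T ⊆ s • S) {g : G} (hg : g ∈ D.B T) : (D.φ s)⁻¹ * g * D.φ s ∈ D.B S := by
  simpa using D.conj s⁻¹ (D.mono h hg)

theorem Pc.mul (h : D.Pc s T) (h' : D.Pc s' (s • T)) : D.Pc (s' * s) T := fun g hg => by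
  have := h' _ (D.conj s hg)
  rw [← h g hg] at this
  simpa [mul_assoc] using this

theorem Pc.inv (h : D.Pc s T) : D.Pc s⁻¹ (s • T) := fun g hg => by
  have := h _ (conj' s subset_rfl hg)
  simp only [mul_assoc, mul_inv_cancel, mul_one, mul_inv_cancel_left] at this
  simp [← this, mul_assoc]

theorem Pc.mono (h : D.Pc s T) (e : S ⊆ T) : D.Pc s S := fun g hg => h g (D.mono e hg)

theorem pc_of_gen (h : T ⊆ D.T₀) (h' : s • T ⊆ D.T₀) {L : List G}
    (hL : Subgroup.closure {g | g ∈ L} = D.B T)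
    (e : ∀ g ∈ L, D.ψ s * D.β g * (D.ψ s)⁻¹ = D.β (D.φ s * g * (D.φ s)⁻¹)) : D.Pc s T := by
  intro g hg
  have k : ∀ {g}, g ∈ Subgroup.closure {g | g ∈ L} → g ∈ D.B D.T₀ ∧
    D.φ s * g * (D.φ s)⁻¹ ∈ D.B D.T₀ := fun hg => ⟨D.mono h (hL ▸ hg), D.mono h' (D.conj s (hL ▸ hg))⟩
  rw [← hL] at hg
  induction hg using Subgroup.closure_induction with
  | mem g hg => exact e g hg
  | one => simp [D.hom.one]
  | mul x y hx hy e1 e2 =>
    rw [← conj_mul, D.hom _ (k hx).2 _ (k hy).2, ← e1, ← e2, conj_mul, D.hom _ (k hx).1 _ (k hy).1]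
  | inv x hx e1 => rw [← conj_inv, D.hom.inv (k hx).2, ← e1, conj_inv, D.hom.inv (k hx).1]

theorem pc_of_id (h : D.φ s ∈ D.B D.T₀) (e : D.ψ s = D.β (D.φ s)) : D.Pc s D.T₀ := fun g hg => by
  rw [e, D.hom.conj h hg, mul_inv_cancel_right]

/-- The stabilizer of `T` acts compatibly. -/
def Gd (D : Gl Ω G H) (T : Finset Ω) : Prop := ∀ s : 𝔄, s • T = T → D.Pc s T

theorem gd_top (h1 : ∀ u : 𝔄, (∀ a ∉ D.T₀, u • a = a) → D.Pc u D.T₀) {L : List 𝔄}
    (h2 : ∀ s ∈ L, s • D.T₀ = D.T₀) (h3 : ∀ s ∈ L, D.Pc s D.T₀)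
    (h4 : ∀ s : 𝔄, s • D.T₀ = D.T₀ → ∃ s' ∈ Subgroup.closure {s | s ∈ L},
      ∀ x ∉ D.T₀, s' • x = s • x) : D.Gd D.T₀ := fun s hs => by
  obtain ⟨t, ht, e⟩ := h4 s hs
  have : t • D.T₀ = D.T₀ ∧ D.Pc t D.T₀ := by
    clear e
    induction ht using Subgroup.closure_induction with
    | mem g hg => exact ⟨h2 g hg, h3 g hg⟩
    | one => exact ⟨one_smul _ _, fun g _ => by simp⟩
    | mul x y _ _ e1 e2 => exact ⟨by rw [mul_smul, e2.1, e1.1], e2.2.mul (e2.1.symm ▸ e1.2)⟩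
    | inv x _ e1 => exact ⟨by rw [inv_smul_eq_iff, e1.1], e1.1 ▸ e1.2.inv⟩
  have f : ∀ a ∉ D.T₀, (t⁻¹ * s) • a = a := fun a ha => by rw [mul_smul, ← e a ha, inv_smul_smul]
  exact mul_inv_cancel_left t s ▸ (h1 _ f).mul ((smul_eq_of_fix f).symm ▸ this.2)

theorem gd_step (h : 2 ≤ T.card) {c : Ω} (hc : c ∉ T) (h1 : D.Gd (insert c T)) {ρ : 𝔄}
    (h2 : ρ • T = T) (h3 : ρ • c ≠ c) (h4 : D.Pc ρ T) : D.Gd T := fun s hs => by
  have k : ∀ s : 𝔄, s • T = T → s • c = c → D.Pc s T := fun s e e' =>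
    (h1 s (by rw [Finset.smul_finset_insert, e, e'])).mono (Finset.subset_insert _ _)
  by_cases e : s • c = c
  · exact k s hs e
  obtain ⟨u, u1, u2, u3⟩ := exists_move h (not_mem_smul h2 hc) (not_mem_smul hs hc)
  have e1 : (u * ρ) • T = T := by rw [mul_smul, h2, u1]
  have e2 : ((u * ρ)⁻¹ * s) • T = T := by rw [mul_smul, hs, inv_smul_eq_iff, e1]
  exact mul_inv_cancel_left (u * ρ) s ▸
    (k _ e2 (by rw [mul_smul, ← u2, ← mul_smul u, inv_smul_smul])).mul (e2.symm ▸ h4.mul (h2.symm ▸ k u u1 (u3 c hc h3.symm (Ne.symm e))))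

theorem gd_step' (h : 2 ≤ T.card) {c c' : Ω} (hc : c ∉ T) (hc' : c' ∉ insert c T)
    (h1 : D.Gd (insert c T)) (h2 : D.Gd (insert c' (insert c T))) : D.Gd T := by
  obtain ⟨u, u1, u2, u3⟩ := exists_move h hc (mt Finset.mem_insert_of_mem hc')
  refine gd_step h hc h1 u1 (fun e => hc' (by simp [← u2, e])) ((h2 u (smul_eq_of_fix ?_)).mono
    ((Finset.subset_insert _ _).trans (Finset.subset_insert _ _)))
  simp only [Finset.mem_insert, not_or]
  exact fun a ha => u3 a ha.2.2 ha.2.1 ha.1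

/-- Coherence. -/
def Coh (D : Gl Ω G H) : Prop :=
  ∀ (s : 𝔄) T, 2 ≤ T.card → T ⊆ D.T₀ → s • T ⊆ D.T₀ → D.Pc s T

theorem coh_of (h0 : D.Gd D.T₀)
    (h : ∀ m, 2 ≤ m → m ≤ D.T₀.card → ∃ T ⊆ D.T₀, T.card = m ∧ D.Gd T) : D.Coh := by
  intro s T h1 h2 h3
  obtain ⟨S, s1, s2, s3⟩ := h _ h1 (Finset.card_le_card h2)
  obtain ⟨u, rfl, u2⟩ := exists_smul_sub s2 (s2 ▸ h1) s1 h2
  obtain ⟨v, v1, v2⟩ := exists_smul_sub (by simp) (s2 ▸ h1) s1 h3
  have e : (v⁻¹ * (s * u)) • S = S := by rw [mul_smul, mul_smul, ← v1, inv_smul_smul]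
  have := ((h0 u u2).mono s1).inv.mul (s' := v * (v⁻¹ * (s * u)))
    ((inv_smul_smul u S).symm ▸ (s3 _ e).mul (e.symm ▸ (h0 v v2).mono s1))
  simpa using this

/-- The transported maps. -/
def Y (D : Gl Ω G H) (s : 𝔄) (g : G) : H := D.ψ s * D.β ((D.φ s)⁻¹ * g * D.φ s) * (D.ψ s)⁻¹

theorem Y_one (g : G) : D.Y 1 g = D.β g := by simp [Y]

theorem Y_conj (u s : 𝔄) (g : G) :
    D.Y (u * s) (D.φ u * g * (D.φ u)⁻¹) = D.ψ u * D.Y s g * (D.ψ u)⁻¹ := by simp [Y, mul_assoc]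

theorem homOn_Y (h : T ⊆ s • D.T₀) : Phan.HomOn (D.Y s) (D.B T) := fun x hx y hy => by
  rw [Y, Y, Y, conj_mul, ← D.hom _ (conj' s h hx) _ (conj' s h hy)]
  simp [mul_assoc]

theorem Coh.Y_eq (C : D.Coh) (h : 2 ≤ T.card) (h1 : T ⊆ s • D.T₀) (h2 : T ⊆ s' • D.T₀) {g : G}
    (hg : g ∈ D.B T) : D.Y s g = D.Y s' g := by
  have := C (s'⁻¹ * s) (s⁻¹ • T) (by simpa using h) (Finset.subset_smul_finset_iff.1 h1)
    (by simpa [mul_smul] using Finset.subset_smul_finset_iff.1 h2) _ (conj' s (by simp) hg)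
  simp only [map_mul, map_inv, mul_inv_rev, inv_inv, mul_assoc, mul_inv_cancel_left] at this
  simp [Y, ← this, mul_assoc]

/-- The images of two blocks commute. -/
def Cm (D : Gl Ω G H) (T S : Finset Ω) : Prop := ∀ g ∈ D.B T, ∀ g' ∈ D.B S, ∀ s s' : 𝔄,
  T ⊆ s • D.T₀ → S ⊆ s' • D.T₀ → D.Y s g * D.Y s' g' = D.Y s' g' * D.Y s g

theorem Cm.symm (h : D.Cm T S) : D.Cm S T := fun g hg g' hg' s s' e e' =>
  (h g' hg' g hg s' s e' e).symm

theorem Coh.cm (C : D.Coh) (h : 2 ≤ T.card) (h' : 2 ≤ S.card) (d : Disjoint T S) {A B : Finset Ω}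
    {t t' : 𝔄} (a : A ⊆ t • D.T₀) (b : B ⊆ t' • D.T₀) (d' : Disjoint A B) (c : T.card ≤ A.card)
    (c' : S.card ≤ B.card)
    (e : ∀ g ∈ D.B A, ∀ g' ∈ D.B B, D.Y t g * D.Y t' g' = D.Y t' g' * D.Y t g) : D.Cm T S := by
  obtain ⟨A', a1, a2⟩ := Finset.exists_subset_card_eq c
  obtain ⟨B', b1, b2⟩ := Finset.exists_subset_card_eq c'
  obtain ⟨u, rfl, rfl⟩ := exists_smul_pair a2 b2 (a2 ▸ h) (d'.mono a1 b1) d
  intro g hg g' hg' s s' e1 e2
  have k : ∀ {A t}, A ⊆ t • D.T₀ → u • A ⊆ (u * t) • D.T₀ := fun h =>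
    mul_smul u _ D.T₀ ▸ Finset.smul_finset_subset_smul_finset h
  have k' : ∀ t g, D.Y (u * t) g = D.ψ u * D.Y t ((D.φ u)⁻¹ * g * D.φ u) * (D.ψ u)⁻¹ := fun t g => by
    rw [← Y_conj]; simp [mul_assoc]
  rw [C.Y_eq h e1 (k (a1.trans a)) hg, C.Y_eq h' e2 (k (b1.trans b)) hg', k', k', conj_mul,
    conj_mul, e _ (D.mono a1 (conj' u subset_rfl hg)) _ (D.mono b1 (conj' u subset_rfl hg'))]

end Gl

end CF.Known.Pres
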