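import Cfsg.Agent.Known.Pres.UGlueA
import Cfsg.Agent.Phan.Thm

/-! Presentations of `SU_N(q)` from those of `SU_k(q)` and `A_N`, by Phan's theorem. -/

set_option autoImplicit false

namespace CF.Known.Pres

open Function Equiv Equiv.Perm Cfsg CF.Phan
open scoped Pointwise commutatorElement

universe u

variable {F : Type u} [Field F] [Fintype F] {σ : F →+* F} {q N : ℕ} (h : QF σ q)

/-- The permutation matrices. -/
def pa₀ (s : alternatingGroup (Fin N)) : SU N F q := h.mku (pm F s.1) (by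
  have := Matrix.det_permute' s.1 (1 : Matrix (Fin N) (Fin N) F)
  rw [mem_alternatingGroup.1 s.2] at this
  exact this.trans (by simp)) (pm_ct s.1.injective)

theorem pa₀_smul (s : alternatingGroup (Fin N)) (a : Fin N) : pa₀ h s • ev F a = ev F (s • a) :=
  pm_ev _ _

/-- The permutation matrices. -/
def pa : alternatingGroup (Fin N) →* SU N F q := MonoidHom.mk' (pa₀ h) fun s t =>
  su_ext fun k => by rw [mul_smul, pa₀_smul, pa₀_smul, pa₀_smul, mul_smul]

theorem pa_smul (s : alternatingGroup (Fin N)) (a : Fin N) : pa h s • ev F a = ev F (s • a) :=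
  pm_ev _ _

theorem pa_mem {T : Finset (Fin N)} {s : alternatingGroup (Fin N)} (e : ∀ a ∉ T, s • a = a) :
    pa h s ∈ Bl F q T := fun k hk => by rw [pa_smul, e k hk]

/-- The gluing data for the unitary group. -/
def mkGl {H : Type*} [Group H] (ψ : alternatingGroup (Fin N) →* H) (β : SU N F q → H)
    {T : Finset (Fin N)} (e : HomOn β (Bl F q T)) : Gl (Fin N) (SU N F q) H :=
  ⟨Bl F q, pa h, ψ, β, T, Bl_mono, fun s _ g hg k hk => by
    rw [mul_smul, mul_smul, ← map_inv, pa_smul, hg _ (mt Finset.inv_smul_mem_iff.1 hk), pa_smul,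
      smul_inv_smul], e⟩

theorem Iv_sub {i j i' j' : ℕ} (e : i' ≤ i) (e' : j ≤ j') : Iv N i j ⊆ Iv N i' j' :=
  fun k => by simp; omega

theorem Iv_disj {i j i' j' : ℕ} (e : j < i') : Disjoint (Iv N i j) (Iv N i' j') :=
  Finset.disjoint_left.2 fun k => by simp; omega

theorem insert_Iv {j : ℕ} (e : j + 1 < N) : insert ⟨j + 1, e⟩ (Iv N 0 j) = Iv N 0 (j + 1) := by
  ext k; simp [Fin.ext_iff]; omega

theorem glue_core {H : Type*} [Group H] {ψ : alternatingGroup (Fin N) →* H} {β : SU N F q → H}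
    {l : ℕ} {e : HomOn β (Bl F q (Iv N 0 l))} (hl : 2 ≤ l) (hN : l < N) (hq : 4 ≤ q ∨ 3 ≤ l)
    (C : (mkGl h ψ β e).Coh) (hid : ∀ u, (∀ a ∉ Iv N 0 l, u • a = a) → ψ u = β (pa h u))
    {a b : ℕ} (cm : ∀ T S : Finset (Fin N), 2 ≤ T.card → 2 ≤ S.card → T.card ≤ a → S.card ≤ b →
      Disjoint T S → (mkGl h ψ β e).Cm T S) (ha : 2 ≤ a) (hb : 2 ≤ b)
    (h2 : q = 2 → 3 ≤ b ∧ (6 ≤ N → 3 ≤ a)) :
    ∃ Φ : SU N F q →* H, (∀ g ∈ Bl F q (Iv N 0 l), Φ g = β g) ∧ ∀ s, Φ (pa h s) = ψ s := by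
  set D := mkGl h ψ β e
  have : ∀ i j, ∃ s : alternatingGroup (Fin N), j < N → i < j → j ≤ i + l →
      Iv N i j ⊆ s • Iv N 0 l := fun i j => by
    by_cases k : j < N ∧ i < j ∧ j ≤ i + l
    · obtain ⟨s, hs⟩ := exists_sub_smul (T := Iv N i j) (T₀ := Iv N 0 l)
        (by rw [card_Iv k.1, card_Iv hN]; omega) (by rw [card_Iv k.1]; omega)
      exact ⟨s, fun _ _ _ => hs⟩
    · exact ⟨1, fun k1 k2 k3 => absurd ⟨k1, k2, k3⟩ k⟩
  choose c hc using this
  let W (i j : ℕ) := Subgroup.closure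
    {x | ∃ g ∈ Bl F q (Iv N i j), ∃ s, Iv N i j ⊆ s • Iv N 0 l ∧ D.Y s g = x}
  have w : ∀ {i j i' j'}, i < j → j < i' → i' < j' → j' < N →
      (j + 1 ≤ i + a ∧ j' + 1 ≤ i' + b ∨ j + 1 ≤ i + b ∧ j' + 1 ≤ i' + a) →
      ∀ x ∈ W i j, ∀ y ∈ W i' j', x * y = y * x := fun {i j i' j'} k1 k2 k3 k4 k5 x hx y hy => by
    have c1 := card_Iv (i := i) (by omega : j < N)
    have c2 := card_Iv (i := i') k4
    refine commute_closure ?_ hx hy
    rintro _ ⟨g, hg, s, hs, rfl⟩ _ ⟨g', hg', s', hs', rfl⟩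
    refine (?_ : D.Cm _ _) g hg g' hg' s s' hs hs'
    exact k5.elim (fun k => cm _ _ (by omega) (by omega) (by omega) (by omega) (Iv_disj k2))
      fun k => (cm _ _ (by omega) (by omega) (by omega) (by omega) (Iv_disj k2).symm).symm
  obtain ⟨Φ, hΦ⟩ := h.exists_hom (l := l) (β := fun j => D.Y (c j (j + 2)))
    (φ := fun i => D.Y (c i (i + l))) (U := fun j => W j (j + 1)) (V := fun j => W j (j + 2))
    ⟨fun i hi => Gl.homOn_Y (hc _ _ hi (by omega) le_rfl),
      fun i hi g hg => C.Y_eq (by rw [card_Iv (by omega)]; omega)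
        ((Iv_sub le_rfl (by omega)).trans (hc _ _ (by omega) (by omega) le_rfl))
        ((Iv_sub (by omega) le_rfl).trans (hc _ _ (by omega) (by omega) le_rfl)) hg,
      fun i j hi k1 k2 g hg => C.Y_eq (by rw [card_Iv (by omega)]; omega)
        ((Iv_sub k1 k2).trans (hc _ _ hi (by omega) le_rfl)) (hc _ _ (by omega) (by omega) (by omega))
        hg⟩
    ⟨fun j hj g hg => Subgroup.subset_closure ⟨g, hg, _,
        (Iv_sub le_rfl (by omega)).trans (hc _ _ hj (by omega) (by omega)), rfl⟩,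
      fun j hj g hg => Subgroup.subset_closure ⟨g, hg, _,
        (Iv_sub (by omega) le_rfl).trans (hc _ _ hj (by omega) (by omega)), rfl⟩,
      fun j hj g hg => Subgroup.subset_closure ⟨g, hg, _, hc _ _ hj (by omega) (by omega), rfl⟩,
      fun i j k1 k2 => w (by omega) (by omega) (by omega) k2 (by omega),
      fun e i j k1 k2 => w (by omega) (by omega) (by omega) k2 (by have := h2 e; omega),
      fun e i j k1 k2 => w (by omega) (by omega) (by omega) k2 (by have := h2 e; omega),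
      fun e i j k1 k2 => w (by omega) (by omega) (by omega) k2 (by have := h2 e; omega)⟩ hl hq hN
  refine ⟨Φ, fun g hg => ?_, fun s => ?_⟩
  · let P : Subgroup (SU N F q) :=
      { carrier := {g | g ∈ Bl F q (Iv N 0 l) ∧ Φ g = β g}
        mul_mem' := fun ha hb => ⟨mul_mem ha.1 hb.1, by rw [map_mul, ha.2, hb.2, e _ ha.1 _ hb.1]⟩
        one_mem' := ⟨one_mem _, by rw [map_one, e.one]⟩
        inv_mem' := fun ha => ⟨inv_mem ha.1, by rw [map_inv, ha.2, e.inv ha.1]⟩ }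
    have k : ∀ j, j + 2 ≤ l → Bl F q (Iv N j (j + 2)) ≤ P := fun j hj g hg =>
      ⟨Iv_mono (by omega) hj hg, (hΦ j (by omega) g hg).trans ((C.Y_eq
        (by rw [card_Iv (by omega)]; omega) (hc _ _ (by omega) (by omega) (by omega))
        ((Iv_sub (by omega) hj).trans (one_smul _ _).ge) hg).trans (Gl.Y_one g))⟩
    exact (h.gen (P := P) hN l 0 (by omega) (fun j _ hj => (Iv_mono (by omega) (by omega)).trans
      (k (min j (l - 2)) (by omega))) (fun _ j _ => k j) hg).2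
  · refine (alt_eq_top (by omega) (K := (Φ.comp (pa h)).eqLocus ψ) fun j hj u hu => ?_).ge trivial
    have k : ∀ a ∉ Iv N j (j + 2), u • a = a := fun a ha => hu a (by simpa using ha)
    refine (hΦ j hj _ (pa_mem h k)).trans ?_
    have := hid ((c j (j + 2))⁻¹ * u * c j (j + 2)) fun a ha => by
      rw [mul_smul, mul_smul, k, inv_smul_smul]
      exact fun e => ha (Finset.smul_mem_smul_finset_iff _ |>.1 (hc _ _ hj (by omega) (by omega) e))
    simp only [map_mul, map_inv, mul_assoc] at this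
    simp [Gl.Y, D, mkGl, ← this, mul_assoc]

theorem homOn_closure {G H : Type*} [Group G] [Group H] {f : G → H} {S : Set G}
    (e : HomOn f (Subgroup.closure S)) {g : G} (hg : g ∈ Subgroup.closure S) :
    f g ∈ Subgroup.closure (f '' S) :=
  ((Subgroup.closure_le (e.comap (Subgroup.closure (f '' S)))).2 (fun x hx =>
    ⟨Subgroup.subset_closure hx, Subgroup.subset_closure ⟨x, hx, rfl⟩⟩) hg).2

include h in
theorem exists_gens_Bl {T : Finset (Fin N)} {k : ℕ} (e : T.card = k)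
    (two : ∃ a b : SU k F q, Subgroup.closure {a, b} = ⊤) :
    ∃ L : List (SU N F q), L.length = 2 ∧ Subgroup.closure {g | g ∈ L} = Bl F q T := by
  obtain ⟨a, b, hab⟩ := two
  let f := h.bl (T.orderEmbOfFin e) (T.orderEmbOfFin e).injective
  refine ⟨[f a, f b], rfl, (?_ : _ = f.range).trans (le_antisymm ?_ fun g hg => h.exists_bl _
    (fun j hj => (T.range_orderEmbOfFin e).ge hj) hg)⟩
  · rw [f.range_eq_map, ← hab, MonoidHom.map_closure, Set.image_pair]
    simp [Set.ofPred_or, Set.pair_comm]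
  · rintro _ ⟨x, rfl⟩
    exact h.bl_mem _ _ (T.orderEmbOfFin_mem e)

include h in
theorem glue {n : ℕ} (hn : 1 ≤ n) (hN : n + 2 < N) (hq : 4 ≤ q ∨ 2 ≤ n) {g r g' r' m₀ r₀ m r₁ c : ℕ}
    (P1 : HasPres g r (SU (n + 2) F q)) (P2 : HasPres g' r' (alternatingGroup (Fin N)))
    (P3 : HasPres m₀ r₀ (alternatingGroup (Iv N 0 (n + 1))))
    (P4 : HasPres m r₁ (Perm {a // a ∉ Iv N 0 (n + 1)}))
    (two : ∀ k, 2 ≤ k → (k = 2 → q ≠ 3) → ∃ a b : SU k F q, Subgroup.closure {a, b} = ⊤)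
    (h3 : q = 3 → 2 ≤ n) {a b : ℕ} (a1 : 1 ≤ a) (a2 : a + 2 ≤ b) (a3 : b < N) (a4 : a ≤ n + 1)
    (a5 : b ≤ a + n + 2) (h2 : q = 2 → a + 3 ≤ b ∧ (6 ≤ N → 2 ≤ a))
    (hc : 4 ≤ c ∧ q ≠ 3 ∨ b ≤ n + 1) :
    HasPres (g + g') (r + r' + (m₀ + m * 2 + 2 + c)) (SU N F q) := by
  have c0 : ∀ {i j}, j < N → (Iv N i j).card = j + 1 - i := card_Iv
  have c1 := c0 (i := 0) (by omega : n + 1 < N)
  obtain ⟨LA, l1, l2⟩ := exists_gens_alt' P3
  obtain ⟨L, l3, l4, l5⟩ := exists_gens_stab (by omega) P4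
  obtain ⟨G₀, l6, l7⟩ := exists_gens_Bl h c1 (two _ (by omega) (by omega))
  obtain ⟨G₁, l8, l9⟩ := exists_gens_Bl h (c0 (i := 0) (by omega : n < N))
    (two _ (by omega) (by omega))
  obtain ⟨ρ, r1, r2, -⟩ := exists_move (T := Iv N 0 n) (by rw [c0 (by omega)]; omega)
    (x := ⟨n + 1, by omega⟩) (y := ⟨n + 2, hN⟩) (by simp) (by simp)
  obtain ⟨t, ht⟩ : ∃ t : alternatingGroup (Fin N), Iv N (a + 1) b ⊆ t • Iv N 0 (n + 1) ∧
      (b ≤ n + 1 → t = 1) := by
    by_cases e : b ≤ n + 1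
    · exact ⟨1, by simpa using Iv_sub (by omega) e, fun _ => rfl⟩
    · obtain ⟨t, ht⟩ := exists_sub_smul (T := Iv N (a + 1) b) (T₀ := Iv N 0 (n + 1))
        (by rw [c0 a3]; omega) (by rw [c0 a3]; omega)
      exact ⟨t, ht, fun e' => absurd e' e⟩
  obtain ⟨A, B, b1, b2, b3, b4⟩ : ∃ A B : List (SU N F q), A.length * B.length ≤ c ∧
      Subgroup.closure {g | g ∈ A} ≤ Bl F q (Iv N 0 a) ∧
      Subgroup.closure {g | g ∈ B} ≤ Bl F q (Iv N (a + 1) b) ∧ (b ≤ n + 1 ∨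
      Subgroup.closure {g | g ∈ A} = Bl F q (Iv N 0 a) ∧
      Subgroup.closure {g | g ∈ B} = Bl F q (Iv N (a + 1) b)) := by
    rcases hc with hc | hc
    · obtain ⟨A, e1, e2⟩ := exists_gens_Bl h (c0 (i := 0) (by omega : a < N))
        (two _ (by omega) fun _ => hc.2)
      obtain ⟨B, e3, e4⟩ := exists_gens_Bl h (c0 (i := a + 1) a3) (two _ (by omega) fun _ => hc.2)
      exact ⟨A, B, by rw [e1, e3]; exact hc.1, e2.le, e4.le, .inr ⟨e2, e4⟩⟩
    · exact ⟨[], [], by simp, by simp, by simp, .inl hc⟩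
  let ι := h.bs (N := N) (n + 2) 0 (by omega)
  have i1 : ∀ {g}, g ∈ Bl F q (Iv N 0 (n + 1)) → ∃ x, ι x = g := h.exists_bs _ (by omega)
  obtain ⟨β, hβ⟩ := exists_ext (e := ι) (h.bl_injective _)
    (Monoid.Coprod.inl : _ →* Monoid.Coprod _ (alternatingGroup (Fin N)))
  have i2 : HomOn β (Bl F q (Iv N 0 (n + 1))) := fun x hx y hy => by
    obtain ⟨x, rfl⟩ := i1 hx
    obtain ⟨y, rfl⟩ := i1 hy
    rw [← map_mul, hβ, hβ, hβ, map_mul]
  let D := mkGl h Monoid.Coprod.inr β i2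
  let π := Monoid.Coprod.lift ι (pa h)
  have i3 : ∀ g ∈ Bl F q (Iv N 0 (n + 1)), π (β g) = g := fun g hg => by
    obtain ⟨x, rfl⟩ := i1 hg
    rw [hβ]; rfl
  have i4 : ∀ s, π (.inr s) = pa h s := fun _ => rfl
  have i5 : ∀ s T, T ⊆ s • Iv N 0 (n + 1) → ∀ g ∈ Bl F q T, π (D.Y s g) = g := fun s T e g hg => by
    have := i3 _ (D.conj' s e hg)
    simp only [Gl.Y, D, mkGl, map_mul, map_inv] at this ⊢
    rw [this, i4]; group
  have i6 : ∀ i j, i < j → j < N → j ≤ i + n + 1 → Bl F q (Iv N i j) ≤ π.range :=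
    fun i j k1 k2 k3 g hg => by
      obtain ⟨s, hs⟩ := exists_sub_smul (T := Iv N i j) (T₀ := Iv N 0 (n + 1))
        (by rw [c0 k2]; omega) (by rw [c0 k2]; omega)
      exact ⟨_, i5 s _ hs g hg⟩
  have hπ : Surjective π := fun g => h.gen (P := π.range) (by omega : N - 1 < N) (N - 1) 0
    (by omega) (fun k _ _ => i6 _ _ (by omega) (by omega) (by omega))
    (fun _ k _ _ => i6 _ _ (by omega) (by omega) (by omega)) fun k hk => absurd (by simp; omega) hk
  let rel (s : alternatingGroup (Fin N)) (g : SU N F q) :=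
    .inr s * β g * (.inr s)⁻¹ * (β (pa h s * g * (pa h s)⁻¹))⁻¹
  have i7 : ∀ s T, T ⊆ Iv N 0 (n + 1) → s • T = T → ∀ g ∈ Bl F q T, π (rel s g) = 1 :=
    fun s T e e' g hg => by
      have := i3 (pa h s * g * (pa h s)⁻¹) (Bl_mono (e'.le.trans e) (D.conj s hg))
      simp only [rel, map_mul, map_inv, i4, i3 _ (Bl_mono e hg), this, mul_inv_cancel]
  have s1 : Iv N 0 n ⊆ Iv N 0 (n + 1) := Iv_sub le_rfl (by omega)
  have s2 : Iv N 0 a ⊆ (1 : alternatingGroup (Fin N)) • Iv N 0 (n + 1) := by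
    simpa using Iv_sub le_rfl a4
  refine (P1.coprod P2).of_rel π hπ (LA.map (fun u => .inr u * (β (pa h u))⁻¹) ++
    (L ×ˢ G₀).map (fun p => rel p.1 p.2) ++ G₁.map (rel ρ) ++
    (A ×ˢ B).map fun p => ⁅D.Y 1 p.1, D.Y t p.2⁆) (by simp [List.length_product, *]; omega) ?_
    fun H _ f φ hf hy hφ => ?_
  · simp only [List.forall_mem_append, List.forall_mem_map, Prod.forall, List.mem_product]
    refine ⟨⟨⟨fun u hu => ?_, fun s g e => i7 s _ subset_rfl (l4 s e.1) g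
      (l7 ▸ Subgroup.subset_closure e.2)⟩, fun g e => i7 _ _ s1 r1 g
      (l9 ▸ Subgroup.subset_closure e)⟩, fun x y e => ?_⟩
    · rw [map_mul, map_inv, i3 _ (pa_mem h ((l2 u).1 (Subgroup.subset_closure hu))), i4,
        mul_inv_cancel]
    · have k1 := b2 (Subgroup.subset_closure e.1)
      have k2 := b3 (Subgroup.subset_closure e.2)
      rw [map_commutatorElement, i5 _ _ s2 _ k1, i5 _ _ ht.1 _ k2, commutatorElement_eq_one_iff_mul_comm]
      exact h.commute (Iv_disj (Nat.lt_succ_self a)) k1 k2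
  simp only [List.forall_mem_append, List.forall_mem_map, Prod.forall, List.mem_product, rel,
    map_mul, map_inv, mul_inv_eq_one, map_commutatorElement,
    commutatorElement_eq_one_iff_mul_comm] at hy
  obtain ⟨⟨⟨y1, y2⟩, y3⟩, y4⟩ := hy
  have j1 : HomOn (f ∘ β) (Bl F q (Iv N 0 (n + 1))) := fun x hx y hy => by simp [i2 x hx y hy]
  let E := mkGl h (f.comp Monoid.Coprod.inr) (f ∘ β) j1
  have j2 : ∀ s g, f (D.Y s g) = E.Y s g := fun s g => by simp [Gl.Y, D, E, mkGl]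
  have j3 : ∀ u, (∀ a ∉ Iv N 0 (n + 1), u • a = a) → E.ψ u = E.β (pa h u) := fun u hu => by
    have k := fun u hu => pa_mem h ((l2 u).1 hu)
    rw [← l2] at hu
    induction hu using Subgroup.closure_induction with
    | mem x hx => exact y1 x hx
    | one => rw [map_one, map_one, E.hom.one]
    | mul x y hx hy e1 e2 => rw [map_mul, map_mul, E.hom _ (k x hx) _ (k y hy), e1, e2]
    | inv x hx e => rw [map_inv, map_inv, E.hom.inv (k x hx), e]
  have j4 : E.Gd (Iv N 0 (n + 1)) := Gl.gd_top (D := E)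
    (fun u hu => Gl.pc_of_id (pa_mem h hu) (j3 u hu)) l4
    (fun s hs => Gl.pc_of_gen subset_rfl (l4 s hs).le l7 fun g hg => y2 s g ⟨hs, hg⟩) l5
  have j5 : ∀ d j, j + d = n → 1 ≤ j → E.Gd (Iv N 0 j) ∧ E.Gd (Iv N 0 (j + 1)) := fun d => by
    induction d with
    | zero =>
      rintro j (rfl : j = n) _
      exact ⟨Gl.gd_step (c := ⟨j + 1, by omega⟩) (by rw [c0 (by omega)]; omega) (by simp)
        (by rwa [insert_Iv]) r1
        (by rw [r2]; simp) (Gl.pc_of_gen s1 (r1.le.trans s1) l9 y3), j4⟩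
    | succ d ih =>
      intro j e e'
      obtain ⟨k1, k2⟩ := ih (j + 1) (by omega) (by omega)
      refine ⟨Gl.gd_step' (by rw [c0 (by omega)]; omega) (c := ⟨j + 1, by omega⟩)
        (c' := ⟨j + 1 + 1, by omega⟩) (by simp) ?_ ?_ ?_, k1⟩ <;> simp [insert_Iv, k1, k2]
  have C : E.Coh := Gl.coh_of j4 fun m m1 m2 => by
    replace m2 : m ≤ n + 2 := m2.trans c1.le
    refine ⟨Iv N 0 (m - 1), Iv_sub le_rfl (by omega), by rw [c0 (by omega)]; omega, ?_⟩
    obtain rfl | m3 := m2.eq_or_lt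
    exacts [j4, (j5 (n + 1 - m) _ (by omega) (by omega)).1]
  obtain ⟨Φ, k1, k2⟩ := glue_core h (by omega) (by omega) (by omega) C j3 (a := a + 1) (b := b - a)
    (fun T S t1 t2 t3 t4 d => C.cm t1 t2 d s2 ht.1 (Iv_disj (Nat.lt_succ_self a))
      (by rw [c0 (by omega)]; omega) (by rw [c0 a3]; omega) fun x hx y hy => by
        rcases b4 with b4 | ⟨b4, b5⟩
        · have k1 := Bl_mono (Iv_sub le_rfl a4) hx
          have k2 := Iv_mono (Nat.zero_le _) b4 hy
          rw [ht.2 b4, Gl.Y_one, Gl.Y_one, ← E.hom _ k1 _ k2, ← E.hom _ k2 _ k1,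
            h.commute (Iv_disj (Nat.lt_succ_self a)) hx hy]
        refine commute_closure ?_ (homOn_closure ((E.homOn_Y s2).mono b2) (b4.ge hx))
          (homOn_closure ((E.homOn_Y ht.1).mono b3) (b5.ge hy))
        rintro _ ⟨x, hx, rfl⟩ _ ⟨y, hy, rfl⟩
        exact j2 _ _ ▸ j2 _ _ ▸ y4 x y ⟨hx, hy⟩)
    (by omega) (by omega) (by omega)
  refine injective_of_surj (fun g => ?_) (ψ := Φ) fun g => ?_
  · obtain ⟨x, rfl⟩ := hπ g
    exact ⟨_, hφ x⟩
  · obtain ⟨g, rfl⟩ := hf g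
    change _ ∈ Φ.range
    induction g using Monoid.Coprod.induction_on with
    | inl x => exact ⟨ι x, (k1 _ (h.bs_mem _ (by omega) x)).trans (congrArg f (hβ x))⟩
    | inr s => exact ⟨_, k2 s⟩
    | mul a b ha hb => rw [map_mul]; exact mul_mem ha hb

end CF.Known.Pres
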